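import Cfsg.Agent.Classification.QDW.FuCop
import Cfsg.Agent.H571.SylowNumber
import Mathlib
import Cfsg.Agent.Blocks.ExistsModular
import Cfsg.Agent.SmallSimple.TheoremB
import Cfsg.Agent.SmallSimple.LargePrime
import Cfsg.Agent.SmallSimple.DetKernel
import Cfsg.Agent.S4343
import Cfsg.Agent.SmallSimple.EvenOrder
import Cfsg.Agent.H341.ThreeList_m3
import Cfsg.Agent.H570.LinDim
import Cfsg.Agent.S0999
import Cfsg.Agent.Lib.PSolvable
import Cfsg.Agent.S4303
import Cfsg.Agent.PLocal.PSolvable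
import Cfsg.Agent.FastGrp
import Cfsg.Agent.Prune
set_option linter.all false

section
prune_inst 0x7ffdfef8bfa875deffff7e3ffff9dffe11c6cfffffdff943ffe8eb9f8f9f03062bedfba70de0d8ff0ed7e2b610b87853f97eeeffec6bdc7ffffd5ff41ffbee0ff5f7b58811d49c340f7c2fff83f17f8e7f3fffffffffffffffffffffffffffbeffffffffffff

-- part: H570/Chk
section
prune_inst 0x488000000000000000000000000000000000000010000400000e10000000000040000c020000000000000000000000000000000000000000000000000000540002000108200000002003100000000000000000000000000000041000000000000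
set_option linter.all false
open scoped Cfsg.Agent.FastGrp

-- part: H570/PNil
section
/-!
Groups with a normal `p`-complement and Sylow `p`-subgroups of order `p`: the number of Sylow
`p`-subgroups of a subgroup divides that of the group.
-/

set_option autoImplicit false

namespace Cfsg.Agent.H570.PNil

open Subgroup Cfsg.Agent.Classification.QDW.FuCop Cfsg.Agent.H571.SylowNumber

section coprime

variable {G : Type*} [Group G] [Finite G] {p : ℕ} [Fact p.Prime] {D X X₁ : Subgroup G}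

omit [Finite G] in
theorem card_mul_relIndex {A B : Subgroup G} (h : A ≤ B) :
    Nat.card A * A.relIndex B = Nat.card B := by
  rw [← Subgroup.relIndex_bot_left, ← Subgroup.relIndex_bot_left]
  exact Subgroup.relIndex_mul_relIndex _ _ _ bot_le h

theorem relIndex_ne_zero (A B : Subgroup G) : A.relIndex B ≠ 0 := by
  have h := card_mul_relIndex (G := G) (inf_le_right : A ⊓ B ≤ B)
  rw [Subgroup.inf_relIndex_right] at h
  intro h0
  rw [h0, mul_zero] at h
  exact absurd h.symm Nat.card_pos.ne'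

/-- The `r`-part of `|X : C_X(D)|`. -/
theorem exists_part (hD : IsPGroup p D) (hX : ¬ p ∣ Nat.card X)
    (hDX : ∀ b ∈ D, ∀ u ∈ X, b * u * b⁻¹ ∈ X) {r : ℕ} [Fact r.Prime] {R : Subgroup G}
    (hRX : R ≤ X) (hR : IsPGroup r R) (hRi : ¬ r ∣ R.relIndex X)
    (hDR : ∀ b ∈ D, ∀ u ∈ R, b * u * b⁻¹ ∈ R) :
    r ^ ((centralizer (D : Set G)).relIndex X).factorization r =
      (centralizer (D : Set G)).relIndex R := by
  have hr : r.Prime := Fact.out
  set C := centralizer (D : Set G) with hC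
  obtain ⟨-, h2⟩ := centralizer_sylow hD hX hDX hRX hR hRi hDR
  rw [← hC] at h2
  have e1 : Nat.card R * R.relIndex X = Nat.card X := card_mul_relIndex hRX
  have e2 : Nat.card (R ⊓ C : Subgroup G) * (R ⊓ C).relIndex (X ⊓ C) =
      Nat.card (X ⊓ C : Subgroup G) := card_mul_relIndex (inf_le_inf_right _ hRX)
  have e3 : Nat.card (X ⊓ C : Subgroup G) * C.relIndex X = Nat.card X := by
    have h := card_mul_relIndex (G := G) (inf_le_left : X ⊓ C ≤ X)
    rwa [Subgroup.inf_relIndex_left] at h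
  have e4 : Nat.card (R ⊓ C : Subgroup G) * C.relIndex R = Nat.card R := by
    have h := card_mul_relIndex (G := G) (inf_le_left : R ⊓ C ≤ R)
    rwa [Subgroup.inf_relIndex_left] at h
  have f : ∀ {a b c : ℕ}, a * b = c → a ≠ 0 → b ≠ 0 →
      c.factorization r = a.factorization r + b.factorization r := by
    rintro a b c rfl ha hb
    rw [Nat.factorization_mul ha hb, Finsupp.add_apply]
  have n1 := f e1 Nat.card_pos.ne' (relIndex_ne_zero _ _)
  have n2 := f e2 Nat.card_pos.ne' (relIndex_ne_zero _ _)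
  have n3 := f e3 Nat.card_pos.ne' (relIndex_ne_zero _ _)
  have n4 := f e4 Nat.card_pos.ne' (relIndex_ne_zero _ _)
  rw [Nat.factorization_eq_zero_of_not_dvd hRi] at n1
  rw [Nat.factorization_eq_zero_of_not_dvd h2] at n2
  have h5 : (C.relIndex X).factorization r = (C.relIndex R).factorization r := by omega
  rw [h5]
  obtain ⟨k, hk⟩ := (IsPGroup.iff_card).1 hR
  have h6 : C.relIndex R ∣ r ^ k := by rw [← hk, ← e4]; exact Dvd.intro_left _ rfl
  obtain ⟨j, -, hj⟩ := (Nat.dvd_prime_pow hr).1 h6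
  rw [hj, hr.factorization_pow, Finsupp.single_eq_same]

/-- If `D` is a `p`-group acting on the `p'`-group `X` and `X₁ ≤ X` is `D`-invariant, then
`|X₁ : C_{X₁}(D)|` divides `|X : C_X(D)|`. -/
theorem relIndex_centralizer_dvd (hD : IsPGroup p D) (hX : ¬ p ∣ Nat.card X)
    (hDX : ∀ b ∈ D, ∀ u ∈ X, b * u * b⁻¹ ∈ X) (hX₁ : X₁ ≤ X)
    (hDX₁ : ∀ b ∈ D, ∀ u ∈ X₁, b * u * b⁻¹ ∈ X₁) :
    (centralizer (D : Set G)).relIndex X₁ ∣ (centralizer (D : Set G)).relIndex X := by
  have hX₁' : ¬ p ∣ Nat.card X₁ := fun h => hX (h.trans (Subgroup.card_dvd_of_le hX₁))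
  rw [← Nat.factorization_prime_le_iff_dvd (relIndex_ne_zero _ _) (relIndex_ne_zero _ _)]
  intro r hr
  have : Fact r.Prime := ⟨hr⟩
  obtain ⟨R₁, hR₁X, hR₁, hR₁i, hDR₁⟩ := exists_inv hD hX₁' hDX₁ r
  obtain ⟨R, hRX, hR, hRi, hDR, hR₁R⟩ := exists_inv_ge hD hX hDX (hR₁X.trans hX₁) hR₁ hDR₁
  have h1 := exists_part hD hX₁' hDX₁ hR₁X hR₁ hR₁i hDR₁
  have h2 := exists_part hD hX hDX hRX hR hRi hDR
  have h3 := Subgroup.relIndex_le_of_le_right hR₁R (relIndex_ne_zero (centralizer (D : Set G)) R)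
  rw [← h1, ← h2] at h3
  exact (Nat.pow_le_pow_iff_right hr.one_lt).1 h3

end coprime

section pnil

/-- `T` has a normal `p`-complement of index `p`. -/
def IsPNil (p : ℕ) (T : Type*) [Group T] : Prop :=
  ∃ M : Subgroup T, M.Normal ∧ ¬ p ∣ Nat.card M ∧ M.index = p

variable {T : Type*} [Group T] [Finite T] {p : ℕ} [hp : Fact p.Prime]

theorem sup_eq_top {M : Subgroup T} (_ : M.Normal) (hMp : ¬ p ∣ Nat.card M) (hMi : M.index = p)
    {P : Subgroup T} (hP : Nat.card P = p) : P ⊔ M = ⊤ ∧ Disjoint P M := by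
  have h1 : (Nat.card P).Coprime (Nat.card M) := by
    rw [hP]; exact (hp.out.coprime_iff_not_dvd).2 hMp
  have h2 : Nat.card P * Nat.card M = Nat.card T := by
    rw [hP, mul_comm, ← hMi, Subgroup.card_mul_index]
  have h3 := Subgroup.isComplement'_of_coprime h2 h1
  exact ⟨h3.sup_eq_top, h3.disjoint⟩

theorem card_eq {M : Subgroup T} (hM : M.Normal) (hMp : ¬ p ∣ Nat.card M) (hMi : M.index = p)
    {P : Subgroup T} (hP : Nat.card P = p) {X : Subgroup T} (hX : P ≤ X) :
    Nat.card X = p * Nat.card (M ⊓ X : Subgroup T) := by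
  obtain ⟨h1, -⟩ := sup_eq_top hM hMp hMi hP
  have h2 : X ⊔ M = ⊤ := top_le_iff.1 (h1 ▸ sup_le_sup_right hX M)
  have h3 : M.relIndex X = p := by
    rw [← Subgroup.relIndex_sup_right X M, h2, Subgroup.relIndex_top_right, hMi]
  have h4 := card_mul_relIndex (G := T) (inf_le_right : M ⊓ X ≤ X)
  rw [Subgroup.inf_relIndex_right, h3] at h4
  rw [← h4, mul_comm]

/-- The number of Sylow `p`-subgroups of `L` is `|M ∩ L : C_{M ∩ L}(P)|`. -/
theorem card_sylow_eq {M : Subgroup T} (hM : M.Normal) (hMp : ¬ p ∣ Nat.card M)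
    (hMi : M.index = p) (P : Sylow p T) (hP : Nat.card P = p) {L : Subgroup T}
    (hL : (P : Subgroup T) ≤ L) :
    Nat.card (Sylow p L) = (centralizer (P : Set T)).relIndex (M ⊓ L) := by
  have hP' : Nat.card (P : Subgroup T) = p := hP
  obtain ⟨-, hdis⟩ := sup_eq_top hM hMp hMi hP'
  rw [card_sylow_eq_relIndex P L hL]
  set N := normalizer ((P : Subgroup T) : Set T) with hN
  have hPN : (P : Subgroup T) ≤ N := Subgroup.le_normalizer
  -- `N.relIndex L = N.relIndex (M ⊓ L)`
  have h1 := card_eq hM hMp hMi hP' hL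
  have h2 := card_eq hM hMp hMi hP' (le_inf hPN hL)
  have h3 := card_mul_relIndex (G := T) (inf_le_right : N ⊓ L ≤ L)
  rw [Subgroup.inf_relIndex_right] at h3
  have h4 := card_mul_relIndex (G := T) (inf_le_right : N ⊓ (M ⊓ L) ≤ M ⊓ L)
  rw [Subgroup.inf_relIndex_right] at h4
  have h5 : M ⊓ (N ⊓ L) = N ⊓ (M ⊓ L) := by
    rw [← inf_assoc, ← inf_assoc, inf_comm M N]
  rw [h5] at h2
  have h6 : N.relIndex L = N.relIndex (M ⊓ L) := by
    have h7 : 0 < p * Nat.card (N ⊓ (M ⊓ L) : Subgroup T) :=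
      Nat.mul_pos hp.out.pos Nat.card_pos
    apply Nat.eq_of_mul_eq_mul_left h7
    rw [← h2, h3, h2, mul_assoc, h4, h1]
  rw [h6]
  -- `N ⊓ (M ⊓ L) = C ⊓ (M ⊓ L)`
  rw [← Subgroup.inf_relIndex_right N, ← Subgroup.inf_relIndex_right (centralizer (P : Set T))]
  congr 1
  ext x
  rw [mem_inf, mem_inf]
  constructor
  · rintro ⟨hxN, hx⟩
    refine ⟨?_, hx⟩
    refine mem_centralizer_iff.2 fun y hy => ?_
    have h8 : x * y * x⁻¹ * y⁻¹ ∈ (P : Subgroup T) :=
      mul_mem ((mem_normalizer_iff.1 hxN y).1 hy) (inv_mem hy)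
    have h9 : x * y * x⁻¹ * y⁻¹ ∈ M := by
      have : x * y * x⁻¹ * y⁻¹ = x * (y * x⁻¹ * y⁻¹) := by group
      rw [this]
      exact mul_mem hx.1 (hM.conj_mem _ (inv_mem hx.1) y)
    have h10 := Subgroup.disjoint_def.1 hdis h8 h9
    have h11 : x * y = y * x := by
      have h12 := mul_eq_one_iff_eq_inv.1 h10
      rw [inv_inv] at h12
      exact mul_inv_eq_iff_eq_mul.1 h12
    exact h11.symm
  · rintro ⟨hxC, hx⟩
    refine ⟨?_, hx⟩
    exact Subgroup.centralizer_le_normalizer _ hxC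

/-- The number of Sylow subgroups of a subgroup divides the number for the group. -/
theorem card_sylow_dvd (h : IsPNil p T) (P : Sylow p T) (hP : Nat.card P = p) {L : Subgroup T}
    (hL : (P : Subgroup T) ≤ L) : Nat.card (Sylow p L) ∣ Nat.card (Sylow p T) := by
  obtain ⟨M, hM, hMp, hMi⟩ := h
  have h1 := card_sylow_eq hM hMp hMi P hP hL
  have h2 := card_sylow_eq hM hMp hMi P hP (L := ⊤) le_top
  rw [inf_top_eq] at h2
  have h3 : Nat.card (Sylow p (⊤ : Subgroup T)) = Nat.card (Sylow p T) :=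
    card_sylow_congr Subgroup.topEquiv
  rw [← h3, h1, h2]
  refine relIndex_centralizer_dvd (p := p) P.isPGroup' hMp ?_ inf_le_left ?_
  · intro b _ u hu
    exact hM.conj_mem u hu b
  · intro b hb u hu
    exact mem_inf.2 ⟨hM.conj_mem u hu.1 b, mul_mem (mul_mem (hL hb) hu.2) (inv_mem (hL hb))⟩

/-- Heredity. -/
theorem IsPNil.subgroup (h : IsPNil p T) (P : Sylow p T) (hP : Nat.card P = p) {L : Subgroup T}
    (hL : (P : Subgroup T) ≤ L) : IsPNil p L := by
  obtain ⟨M, hM, hMp, hMi⟩ := h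
  refine ⟨M.subgroupOf L, inferInstance, ?_, ?_⟩
  · intro hd
    apply hMp
    refine hd.trans ?_
    have h1 : Nat.card (M.subgroupOf L) = Nat.card (M ⊓ L : Subgroup T) := by
      rw [← Subgroup.inf_subgroupOf_right]
      exact Nat.card_congr (Subgroup.subgroupOfEquivOfLe inf_le_right).toEquiv
    rw [h1]
    exact Subgroup.card_dvd_of_le inf_le_left
  · have h1 := card_eq hM hMp hMi (P := (P : Subgroup T)) hP hL
    have h4 := card_mul_relIndex (G := T) (inf_le_right : M ⊓ L ≤ L)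
    rw [Subgroup.inf_relIndex_right] at h4
    change M.relIndex L = p
    apply Nat.eq_of_mul_eq_mul_left (show 0 < Nat.card (M ⊓ L : Subgroup T) from Nat.card_pos)
    rw [h4, h1, mul_comm]

end pnil

end Cfsg.Agent.H570.PNil
end

-- part: H570/Gen
section
/-!
Subgroups generated by Sylow `p`-subgroups of order `p` in a group with less than `p ^ 2` Sylow
`p`-subgroups.
-/

set_option autoImplicit false

namespace Cfsg.Agent.H570.Gen

open Subgroup Cfsg.Agent.H571.SylowNumber Cfsg.Agent.H570.PNil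

variable {G : Type*} [Group G] [Finite G] {p : ℕ} [hp : Fact p.Prime]

theorem card_sylow_eq_card (P : Sylow p G) {L : Subgroup G} (hP : (P : Subgroup G) ≤ L) :
    Nat.card (Sylow p L) = Nat.card {Q : Sylow p G // (Q : Subgroup G) ≤ L} := by
  symm
  refine Nat.card_congr (Equiv.ofBijective
    (fun Q : {Q : Sylow p G // (Q : Subgroup G) ≤ L} => Q.1.subtype Q.2) ⟨?_, ?_⟩)
  · intro Q R h
    exact Subtype.ext (Sylow.subtype_injective h)
  · intro R
    obtain ⟨t, ht⟩ := MulAction.exists_smul_eq L (P.subtype hP) R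
    have h1 : ((t : G) • P : Sylow p G) ≤ L := by
      intro x hx
      rw [Sylow.coe_subgroup_smul, Subgroup.mem_pointwise_smul_iff_inv_smul_mem] at hx
      have h2 := hP hx
      have h3 : (MulAut.conj (t : G))⁻¹ • x = (t : G)⁻¹ * x * (t : G) := by
        rw [← map_inv]; simp [MulAut.smul_def]
      rw [h3] at h2
      have h4 : x = (t : G) * ((t : G)⁻¹ * x * t) * (t : G)⁻¹ := by group
      rw [h4]
      exact mul_mem (mul_mem t.2 h2) (inv_mem t.2)
    refine ⟨⟨(t : G) • P, h1⟩, ?_⟩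
    rw [← ht]
    exact (Sylow.smul_subtype hP t).symm

theorem card_sylow_le (P : Sylow p G) {L₁ L₂ : Subgroup G} (hP : (P : Subgroup G) ≤ L₁)
    (h : L₁ ≤ L₂) : Nat.card (Sylow p L₁) ≤ Nat.card (Sylow p L₂) := by
  rw [card_sylow_eq_card P hP, card_sylow_eq_card P (hP.trans h)]
  exact Nat.card_le_card_of_injective
    (fun Q : {Q : Sylow p G // (Q : Subgroup G) ≤ L₁} =>
      (⟨Q.1, Q.2.trans h⟩ : {Q : Sylow p G // (Q : Subgroup G) ≤ L₂}))
    (fun Q R h => Subtype.ext (congrArg (fun x => x.1) h))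

theorem le_of_card_eq (P : Sylow p G) {L₁ L₂ : Subgroup G} (hP : (P : Subgroup G) ≤ L₁)
    (h : L₁ ≤ L₂) (he : Nat.card (Sylow p L₁) = Nat.card (Sylow p L₂)) :
    ∀ Q : Sylow p G, (Q : Subgroup G) ≤ L₂ → (Q : Subgroup G) ≤ L₁ := by
  rw [card_sylow_eq_card P hP, card_sylow_eq_card P (hP.trans h)] at he
  have hinj : Function.Injective (fun Q : {Q : Sylow p G // (Q : Subgroup G) ≤ L₁} =>
      (⟨Q.1, Q.2.trans h⟩ : {Q : Sylow p G // (Q : Subgroup G) ≤ L₂})) :=
    fun Q R h => Subtype.ext (congrArg (fun x => x.1) h)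
  have hbij := (Nat.bijective_iff_injective_and_card _).2 ⟨hinj, he⟩
  intro Q hQ
  obtain ⟨R, hR⟩ := hbij.2 ⟨Q, hQ⟩
  have : R.1 = Q := congrArg (fun x => x.1) hR
  rw [← this]
  exact R.2

/-- Two distinct Sylow subgroups. -/
theorem succ_le_card {P Q : Sylow p G} (hPQ : P ≠ Q) {L : Subgroup G}
    (hP : (P : Subgroup G) ≤ L) (hQ : (Q : Subgroup G) ≤ L) :
    p + 1 ≤ Nat.card (Sylow p L) := by
  have h1 := card_sylow_modEq_one p L
  have h2 : 1 < Nat.card (Sylow p L) := by
    rw [card_sylow_eq_card P hP, Finite.one_lt_card_iff_nontrivial]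
    exact ⟨⟨P, hP⟩, ⟨Q, hQ⟩, fun h => hPQ (congrArg (fun x => x.1) h)⟩
  have h3 : p ∣ Nat.card (Sylow p L) - 1 := (Nat.modEq_iff_dvd' h2.le).1 h1.symm
  have := Nat.le_of_dvd (by omega) h3
  omega

omit hp in
theorem isPNil_congr {T T' : Type*} [Group T] [Group T'] (e : T ≃* T') (h : IsPNil p T) :
    IsPNil p T' := by
  obtain ⟨M, hM, hMp, hMi⟩ := h
  refine ⟨M.map e.toMonoidHom, hM.map _ e.surjective, ?_, ?_⟩
  · rwa [Nat.card_congr (M.equivMapOfInjective e.toMonoidHom e.injective).symm.toEquiv]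
  · rw [← hMi]
    exact Subgroup.index_map_equiv M e

/-- The transfer of the divisibility to subgroups of an ambient group. -/
theorem isPNil_of_le (P : Sylow p G) (hP : Nat.card P = p) {L₁ L₂ : Subgroup G}
    (hPL : (P : Subgroup G) ≤ L₁) (h : L₁ ≤ L₂) (hL : IsPNil p L₂) :
    IsPNil p L₁ ∧ Nat.card (Sylow p L₁) ∣ Nat.card (Sylow p L₂) := by
  have e : L₁.subgroupOf L₂ ≃* L₁ := Subgroup.subgroupOfEquivOfLe h
  have hP2 : Nat.card (P.subtype (hPL.trans h)) = p :=
    (Nat.card_congr (Subgroup.subgroupOfEquivOfLe (hPL.trans h)).toEquiv).trans hP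
  have hle : (P.subtype (hPL.trans h) : Subgroup L₂) ≤ L₁.subgroupOf L₂ := by
    intro x hx
    exact hPL hx
  refine ⟨isPNil_congr e (hL.subgroup _ hP2 hle), ?_⟩
  rw [← card_sylow_congr e]
  exact card_sylow_dvd hL _ hP2 hle

/-- Arithmetic: a divisor `≡ 1`. -/
theorem eq_of_dvd_of_modEq {p m n : ℕ} (hp : 2 ≤ p) (hmn : m ∣ n) (hm : m ≡ 1 [MOD p])
    (hn : n ≡ 1 [MOD p]) (hn2 : n < p ^ 2) (hm1 : m ≠ 1) (hn0 : 0 < n) : m = n := by
  obtain ⟨c, rfl⟩ := hmn
  have hc : c ≡ 1 [MOD p] := by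
    have h1 : m * c ≡ 1 * c [MOD p] := hm.mul_right c
    rw [one_mul] at h1
    exact h1.symm.trans hn
  have hm0 : 0 < m := Nat.pos_of_mul_pos_right hn0
  have hc0 : 0 < c := Nat.pos_of_mul_pos_left hn0
  by_contra hne
  have hc1 : c ≠ 1 := by
    rintro rfl
    exact hne (mul_one m).symm
  have h2 : p + 1 ≤ m := by
    have : p ∣ m - 1 := (Nat.modEq_iff_dvd' hm0).1 hm.symm
    have := Nat.le_of_dvd (by omega) this
    omega
  have h3 : p + 1 ≤ c := by
    have : p ∣ c - 1 := (Nat.modEq_iff_dvd' hc0).1 hc.symm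
    have := Nat.le_of_dvd (by omega) this
    omega
  have := Nat.mul_le_mul h2 h3
  linarith only [hn2, this]

/-- Key fact for subgroups with a normal `p`-complement. -/
theorem alpha (P : Sylow p G) (hP : Nat.card P = p) {L₁ L₂ : Subgroup G}
    (hPL : (P : Subgroup G) ≤ L₁) (h : L₁ ≤ L₂) (hL : IsPNil p L₂)
    (hn : Nat.card (Sylow p L₂) < p ^ 2) (hne : Nat.card (Sylow p L₁) ≠ 1) :
    ∀ Q : Sylow p G, (Q : Subgroup G) ≤ L₂ → (Q : Subgroup G) ≤ L₁ := by
  have h1 := (isPNil_of_le P hP hPL h hL).2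
  exact le_of_card_eq P hPL h (eq_of_dvd_of_modEq hp.out.two_le h1 (card_sylow_modEq_one p L₁)
    (card_sylow_modEq_one p L₂) hn hne Nat.card_pos)

/-- The linear space argument: if any two Sylow subgroups generate a subgroup with a normal
`p`-complement then any two of them generate a subgroup containing all the others. -/
theorem linear_space (hord : ∀ P : Sylow p G, Nat.card P = p) (hn : Nat.card (Sylow p G) < p ^ 2)
    (hall : ∀ P Q : Sylow p G, P ≠ Q → IsPNil p ((P : Subgroup G) ⊔ Q : Subgroup G))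
    {P Q : Sylow p G} (hPQ : P ≠ Q) (R : Sylow p G) : (R : Subgroup G) ≤ (P : Subgroup G) ⊔ Q := by
  classical
  by_contra hR
  have := Fintype.ofFinite (Sylow p G)
  have hlt : ∀ (S : Sylow p G) (L : Subgroup G), (S : Subgroup G) ≤ L →
      Nat.card (Sylow p L) < p ^ 2 := by
    intro S L hS
    refine lt_of_le_of_lt ?_ hn
    have h1 := card_sylow_le S hS (le_top : L ≤ ⊤)
    rwa [card_sylow_congr (Subgroup.topEquiv : (⊤ : Subgroup G) ≃* G)] at h1
  have hal : ∀ {S T U V : Sylow p G}, S ≠ T → U ≠ V → (S : Subgroup G) ≤ (U : Subgroup G) ⊔ V →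
      (T : Subgroup G) ≤ (U : Subgroup G) ⊔ V → ∀ W : Sylow p G,
      (W : Subgroup G) ≤ (U : Subgroup G) ⊔ V → (W : Subgroup G) ≤ (S : Subgroup G) ⊔ T := by
    intro S T U V hST hUV hS hT
    refine alpha S (hord S) le_sup_left (sup_le hS hT) (hall U V hUV)
      (hlt S _ hS) ?_
    have := succ_le_card hST (le_sup_left : (S : Subgroup G) ≤ (S : Subgroup G) ⊔ T) le_sup_right
    have := hp.out.pos
    omega
  let A : Finset (Sylow p G) := Finset.univ.filter fun S => (S : Subgroup G) ≤ (P : Subgroup G) ⊔ Q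
  let B : Sylow p G → Finset (Sylow p G) := fun S =>
    (Finset.univ.filter fun T : Sylow p G => (T : Subgroup G) ≤ (R : Subgroup G) ⊔ S).erase R
  have hcard : ∀ (S T : Sylow p G), S ≠ T → p + 1 ≤ (Finset.univ.filter fun U : Sylow p G =>
      (U : Subgroup G) ≤ (S : Subgroup G) ⊔ T).card := by
    intro S T hST
    have h1 := succ_le_card hST (le_sup_left : (S : Subgroup G) ≤ (S : Subgroup G) ⊔ T) le_sup_right
    rw [card_sylow_eq_card S le_sup_left] at h1
    rwa [Nat.card_eq_fintype_card, Fintype.card_subtype] at h1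
  have hA : p + 1 ≤ A.card := hcard P Q hPQ
  have hne : ∀ S ∈ A, R ≠ S := by
    rintro S hS rfl
    exact hR (Finset.mem_filter.1 hS).2
  have hB : ∀ S ∈ A, p ≤ (B S).card := by
    intro S hS
    have h1 := hcard R S (hne S hS)
    have h2 : R ∈ Finset.univ.filter fun U : Sylow p G =>
        (U : Subgroup G) ≤ (R : Subgroup G) ⊔ S := by
      rw [Finset.mem_filter]
      exact ⟨Finset.mem_univ _, le_sup_left⟩
    have h3 : (B S).card = _ := Finset.card_erase_of_mem h2
    omega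
  have hdisj : ∀ S ∈ A, ∀ T ∈ A, S ≠ T → Disjoint (B S) (B T) := by
    intro S hS T hT hST
    rw [Finset.disjoint_left]
    intro U hU hU'
    have hUR := Finset.ne_of_mem_erase hU
    have h1 := (Finset.mem_filter.1 (Finset.mem_of_mem_erase hU)).2
    have h2 := (Finset.mem_filter.1 (Finset.mem_of_mem_erase hU')).2
    -- `S ≤ R ⊔ U ≤ R ⊔ T`
    have h3 : (S : Subgroup G) ≤ (R : Subgroup G) ⊔ U :=
      hal (Ne.symm hUR) (hne S hS) le_sup_left h1 S le_sup_right
    have h4 : (S : Subgroup G) ≤ (R : Subgroup G) ⊔ T := h3.trans (sup_le le_sup_left h2)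
    -- `R ≤ S ⊔ T`
    have h5 : (R : Subgroup G) ≤ (S : Subgroup G) ⊔ T :=
      hal hST (hne T hT) h4 le_sup_right R le_sup_left
    exact hR (h5.trans (sup_le (Finset.mem_filter.1 hS).2 (Finset.mem_filter.1 hT).2))
  have h1 : (A.biUnion B).card ≤ (Finset.univ.erase R).card := by
    apply Finset.card_le_card
    intro U hU
    obtain ⟨S, -, hU⟩ := Finset.mem_biUnion.1 hU
    rw [Finset.mem_erase]
    exact ⟨Finset.ne_of_mem_erase hU, Finset.mem_univ _⟩
  rw [Finset.card_biUnion (fun S hS T hT hST => hdisj S hS T hT hST),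
    Finset.card_erase_of_mem (Finset.mem_univ _), Finset.card_univ, ← Nat.card_eq_fintype_card] at h1
  have h2 : A.card * p ≤ ∑ S ∈ A, (B S).card := by
    rw [← smul_eq_mul]
    exact Finset.card_nsmul_le_sum _ _ _ hB
  have h3 : (p + 1) * p ≤ A.card * p := Nat.mul_le_mul_right _ hA
  have h4 : (p + 1) * p = p ^ 2 + p := by ring
  omega

end Cfsg.Agent.H570.Gen
end

-- part: H570/Quot
section
/-!
The simple quotient of a group generated by its Sylow `p`-subgroups of order `p`.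
-/

set_option autoImplicit false

namespace Cfsg.Agent.H570.Quot

open Subgroup Cfsg.Agent.H571.SylowNumber Cfsg.Agent.H570.PNil Cfsg.Agent.H570.Gen

universe u

variable {p : ℕ} [hp : Fact p.Prime]

/-- The number of Sylow `p`-subgroups of a non-abelian simple group of order divisible by `p`. -/
theorem card_sylow_ne_one {S : Type*} [Group S] [Finite S] [IsSimpleGroup S]
    (hS : ¬ IsMulCommutative S) (hd : p ∣ Nat.card S) : Nat.card (Sylow p S) ≠ 1 := by
  intro h1
  obtain ⟨P⟩ : Nonempty (Sylow p S) := inferInstance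
  have hsub : Subsingleton (Sylow p S) := (Nat.card_eq_one_iff_unique.1 h1).1
  have hN : (P : Subgroup S).Normal := Sylow.normal_of_subsingleton P
  rcases hN.eq_bot_or_eq_top with h | h
  · have h2 : ¬ p ∣ (P : Subgroup S).index := P.not_dvd_index
    rw [h, Subgroup.index_bot] at h2
    exact h2 hd
  · -- `S` is a `p`-group
    have h2 : IsPGroup p (⊤ : Subgroup S) := h ▸ P.isPGroup'
    have h3 : IsPGroup p S := h2.of_equiv Subgroup.topEquiv
    have h4 : Nontrivial (Subgroup.center S) := h3.center_nontrivial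
    have h5 : (Subgroup.center S).Normal := inferInstance
    rcases h5.eq_bot_or_eq_top with h6 | h6
    · rw [h6] at h4
      exact not_nontrivial _ h4
    · apply hS
      refine ⟨⟨fun a b => ?_⟩⟩
      have : a ∈ Subgroup.center S := h6 ▸ Subgroup.mem_top a
      exact (Subgroup.mem_center_iff.1 this b).symm

theorem not_dvd_sup {T : Type*} [Group T] [Finite T] {X M : Subgroup T}
    [hM : M.Normal] (hX : ¬ p ∣ Nat.card X) (hMp : ¬ p ∣ Nat.card M) :
    ¬ p ∣ Nat.card (X ⊔ M : Subgroup T) := by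
  intro h
  have h1 := card_mul_relIndex (G := T) (le_sup_right : M ≤ X ⊔ M)
  rw [Subgroup.relIndex_sup_right] at h1
  rw [← h1] at h
  rcases (hp.out.dvd_mul).1 h with h2 | h2
  · exact hMp h2
  · exact hX (h2.trans (Subgroup.relIndex_dvd_card _ _))

theorem exists_simple_quot {T : Type u} [Group T] [Finite T] (P : Sylow p T)
    (hP : Nat.card P = p)
    (hgen : ∀ X : Subgroup T, X.Normal → p ∣ Nat.card X → X = ⊤)
    (hnil : ¬ IsPNil p T) (hn : Nat.card (Sylow p T) < p ^ 2) :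
    ∃ M : Subgroup T, ∃ _ : M.Normal, IsSimpleGroup (T ⧸ M) ∧ ¬ IsMulCommutative (T ⧸ M) ∧
      p ∣ Nat.card (T ⧸ M) ∧ Nat.card (Sylow p (T ⧸ M)) = Nat.card (Sylow p T) ∧
      ∀ X : Subgroup T, X.Normal → ¬ p ∣ Nat.card X → X ≤ M := by
  have hpp := hp.out
  have hpT : p ∣ Nat.card T := by
    have : Nat.card (P : Subgroup T) = p := hP
    rw [← this]
    exact Subgroup.card_subgroup_dvd_card _
  let 𝒮 : Set (Subgroup T) := {X | X.Normal ∧ ¬ p ∣ Nat.card X}
  have hne : 𝒮.Nonempty := by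
    refine ⟨⊥, inferInstance, ?_⟩
    rw [Subgroup.card_bot]
    exact fun h => hpp.one_lt.ne' (Nat.dvd_one.1 h)
  obtain ⟨M, hM⟩ := (Set.toFinite 𝒮).exists_maximal hne
  obtain ⟨hMn, hMp⟩ := hM.1
  have hmax : ∀ X : Subgroup T, X.Normal → ¬ p ∣ Nat.card X → M ≤ X → X = M := by
    intro X hX hXp hMX
    exact le_antisymm (hM.2 ⟨hX, hXp⟩ hMX) hMX
  have hle : ∀ X : Subgroup T, X.Normal → ¬ p ∣ Nat.card X → X ≤ M := by
    intro X hX hXp
    have h1 := hmax (X ⊔ M) inferInstance (not_dvd_sup hXp hMp) le_sup_right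
    exact le_sup_left.trans h1.le
  have hMtop : M ≠ ⊤ := by
    rintro rfl
    rw [Subgroup.card_top] at hMp
    exact hMp hpT
  have hcard : Nat.card T = Nat.card (T ⧸ M) * Nat.card M := Subgroup.card_eq_card_quotient_mul_card_subgroup M
  have hpQ : p ∣ Nat.card (T ⧸ M) := by
    rw [hcard] at hpT
    exact (hpp.dvd_mul.1 hpT).resolve_right hMp
  have hnt : Nontrivial (T ⧸ M) := by
    rw [← Finite.one_lt_card_iff_nontrivial]
    exact lt_of_lt_of_le hpp.one_lt (Nat.le_of_dvd Nat.card_pos hpQ)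
  have hsimple : IsSimpleGroup (T ⧸ M) := by
    refine { eq_bot_or_eq_top_of_normal := fun N hN => ?_ }
    have hcn : (N.comap (QuotientGroup.mk' M)).Normal := hN.comap _
    by_cases h : p ∣ Nat.card (N.comap (QuotientGroup.mk' M))
    · right
      have h1 := hgen _ hcn h
      have h2 := Subgroup.map_comap_eq_self_of_surjective (QuotientGroup.mk'_surjective M) N
      rw [← h2, h1, ← MonoidHom.range_eq_map, MonoidHom.range_eq_top]
      exact QuotientGroup.mk'_surjective M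
    · left
      have h1 : M ≤ N.comap (QuotientGroup.mk' M) := by
        intro x hx
        rw [Subgroup.mem_comap]
        have : QuotientGroup.mk' M x = 1 := (QuotientGroup.eq_one_iff x).2 hx
        rw [this]
        exact one_mem _
      have h2 := hmax _ hcn h h1
      have h3 := Subgroup.map_comap_eq_self_of_surjective (QuotientGroup.mk'_surjective M) N
      rw [← h3, h2]
      rw [Subgroup.map_eq_bot_iff, QuotientGroup.ker_mk']
  have hcomm : ¬ IsMulCommutative (T ⧸ M) := by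
    intro h
    apply hnil
    refine ⟨M, hMn, hMp, ?_⟩
    have h1 : IsSimpleGroup (T ⧸ M) := hsimple
    let _ : CommGroup (T ⧸ M) := { (inferInstance : Group (T ⧸ M)) with mul_comm := h.is_comm.comm }
    have h2 : (Nat.card (T ⧸ M)).Prime := IsSimpleGroup.prime_card
    have h3 := (Nat.prime_dvd_prime_iff_eq hpp h2).1 hpQ
    rw [Subgroup.index, ← h3]
  refine ⟨M, hMn, hsimple, hcomm, hpQ, ?_, hle⟩
  have h1 := card_sylow_eq_mul P M
  exact eq_of_dvd_of_modEq hpp.two_le (h1 ▸ Dvd.intro _ rfl) (card_sylow_modEq_one p _)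
    (card_sylow_modEq_one p T) hn (card_sylow_ne_one hcomm hpQ) Nat.card_pos

omit hp in
/-- Divisibility of the orders of the simple quotients. -/
theorem card_quot_dvd {G : Type u} [Group G] [Finite G] {L₁ L₂ : Subgroup G} (h : L₁ ≤ L₂)
    (M₁ : Subgroup L₁) [M₁.Normal] (M₂ : Subgroup L₂) [M₂.Normal]
    (hmax : ∀ X : Subgroup L₁, X.Normal → ¬ p ∣ Nat.card X → X ≤ M₁)
    (hM₂ : ¬ p ∣ Nat.card M₂) : Nat.card (L₁ ⧸ M₁) ∣ Nat.card (L₂ ⧸ M₂) := by
  let X : Subgroup L₁ := M₂.comap (Subgroup.inclusion h)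
  have h1 : X ≤ M₁ := by
    apply hmax X inferInstance
    intro hd
    apply hM₂
    refine hd.trans ?_
    exact Subgroup.card_dvd_of_injective ((Subgroup.inclusion h).subgroupComap M₂)
      (by
        intro a b hab
        have := congrArg (fun z : M₂ => ((z : L₂) : G)) hab
        exact Subtype.ext (Subtype.ext this))
  have h2 : M₁.index ∣ X.index := Subgroup.index_dvd_of_le h1
  have h3 : X.index ∣ M₂.index := by
    rw [Subgroup.index_comap]
    exact Subgroup.relIndex_dvd_index_of_normal _ _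
  exact h2.trans h3

end Cfsg.Agent.H570.Quot
end

-- part: H570/Arith
section
/-!
Arithmetic for the degrees of the characters of the principal `p`-block of a simple group with
`1 + k p < p ^ 2` Sylow `p`-subgroups.
-/

set_option autoImplicit false

namespace Cfsg.Agent.H570.Arith

/-- The first Diophantine equation. -/
theorem dioph_one {p c u g : ℕ} (hp : 2 ≤ p) (hu : 1 ≤ u) (hc : 1 ≤ c) (hg : 1 ≤ g) (hgp : g < p)
    (h : c * (1 + u * p) = (p - 1) * g) : c + g = p ∧ c * (u + 1) = p - 1 := by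
  obtain ⟨r, rfl⟩ : ∃ r, p = r + 1 := ⟨p - 1, by omega⟩
  rw [show r + 1 - 1 = r by omega] at h ⊢
  have hcr : c < r + 1 := by
    by_contra hcon
    push Not at hcon
    have h1 : (r + 1) * (1 + u * (r + 1)) ≤ c * (1 + u * (r + 1)) := Nat.mul_le_mul_right _ hcon
    have h2 : r * g ≤ r * (r + 1) := Nat.mul_le_mul_left _ hgp.le
    have h3 : 1 * (r + 1) ≤ u * (r + 1) := Nat.mul_le_mul_right _ hu
    nlinarith only [hgp, h, hcon, h3]
  have h1 : c + g + c * u * (r + 1) = (r + 1) * g := by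
    have : c * (1 + u * (r + 1)) + g = r * g + g := by rw [h]
    linarith only [h]
  have h2 : (r + 1) ∣ c + g := by
    have h3 : (r + 1) ∣ c + g + c * u * (r + 1) := h1 ▸ Dvd.intro _ rfl
    exact (Nat.dvd_add_left (Dvd.intro_left _ rfl)).1 h3
  obtain ⟨j, hj⟩ := h2
  have hj1 : j = 1 := by
    rcases Nat.lt_or_ge j 2 with h | h
    · interval_cases j
      · omega
      · rfl
    · exfalso
      have : (r + 1) * 2 ≤ (r + 1) * j := Nat.mul_le_mul_left _ h
      omega
  rw [hj1, mul_one] at hj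
  refine ⟨hj, ?_⟩
  have h3 : (r + 1) * (1 + c * u) = (r + 1) * g := by
    rw [← h1, hj]; ring
  have h4 := Nat.eq_of_mul_eq_mul_left (Nat.succ_pos r) h3
  have : c * (u + 1) = c * u + c := by ring
  omega

/-- The second Diophantine equation. -/
theorem dioph_two {p c w k : ℕ} (hp : 2 ≤ p) (hw : 2 ≤ w) (hc : 1 ≤ c) (hk : 1 ≤ k) (hkp : k < p)
    (h : c * (w * p - 1) = (p - 1) * (k + w)) :
    (c = 1 ∧ w = 1 + k * (p - 1)) ∨ (2 ≤ c ∧ c * (w - 1) = p - 1 ∧ k + w = c + p) := by
  obtain ⟨r, rfl⟩ : ∃ r, p = r + 1 := ⟨p - 1, by omega⟩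
  obtain ⟨v, rfl⟩ : ∃ v, w = v + 1 := ⟨w - 1, by omega⟩
  rw [show r + 1 - 1 = r by omega] at h ⊢
  rw [show v + 1 - 1 = v by omega]
  have h0 : (v + 1) * (r + 1) - 1 = v * (r + 1) + r := by
    have : (v + 1) * (r + 1) = v * (r + 1) + r + 1 := by ring
    omega
  rw [h0, ← add_assoc] at h
  -- `c v p + c r = r (k + v + 1)`
  have h1 : c * v * (r + 1) + (k + v + 1) + c * r = (r + 1) * (k + v + 1) := by
    have : c * (v * (r + 1) + r) + (k + v + 1) = r * (k + v + 1) + (k + v + 1) := by rw [h]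
    linarith only [h]
  -- `k + v + 1 ≡ c mod p`; first `c ≤ k + v + 1`
  have hcle : c ≤ k + v + 1 := by
    by_contra hcon
    push Not at hcon
    have h2 : (k + v + 2) * (v * (r + 1) + r) ≤ c * (v * (r + 1) + r) :=
      Nat.mul_le_mul_right _ hcon
    have h3 : r * (k + v + 1) ≤ r * (k + v + 2) := Nat.mul_le_mul_left _ (by omega)
    have h4 : 1 ≤ v := by omega
    nlinarith only [h, hcon, mul_pos (show 0 < v by omega) (show 0 < r + 1 by omega)]
  obtain ⟨x, hx⟩ : ∃ x, k + v + 1 = c + x := ⟨k + v + 1 - c, by omega⟩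
  have h2 : x + c * v * (r + 1) + c * (r + 1) = (r + 1) * (c + x) := by
    rw [← hx]
    rw [hx] at h1
    rw [hx]
    linarith only [h1]
  have h3 : (r + 1) ∣ x := by
    have h4 : (r + 1) ∣ x + (c * v * (r + 1) + c * (r + 1)) := by
      rw [← add_assoc, h2]; exact Dvd.intro _ rfl
    refine (Nat.dvd_add_left ?_).1 h4
    exact dvd_add (Dvd.intro_left _ rfl) (Dvd.intro_left _ rfl)
  obtain ⟨i, rfl⟩ := h3
  have h5 : (r + 1) * (i + c * v + c) = (r + 1) * (c + (r + 1) * i) := by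
    rw [← h2]; ring
  have h6 := Nat.eq_of_mul_eq_mul_left (Nat.succ_pos r) h5
  -- `c v = r i`
  have h7 : c * v = r * i := by
    have : (r + 1) * i = r * i + i := by ring
    omega
  have hi : 1 ≤ i := by
    rcases Nat.eq_zero_or_pos i with h | h
    · rw [h, mul_zero] at h7
      rcases Nat.mul_eq_zero.1 h7 with h | h <;> omega
    · exact h
  rcases Nat.lt_or_ge c 2 with hc2 | hc2
  · left
    have hc1 : c = 1 := by omega
    subst hc1
    rw [one_mul] at h7
    refine ⟨rfl, ?_⟩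
    have h8 : k = i := by
      have : (r + 1) * i = r * i + i := by ring
      (clear * - h0 h h1 hx h6; omega)
    rw [h8, h7]; ring
  · right
    have hi1 : i = 1 := by
      by_contra hne
      have hi2 : 2 ≤ i := by omega
      obtain ⟨y, rfl⟩ : ∃ y, i = y + 2 := ⟨i - 2, by omega⟩
      -- `v ≥ c + (i - 1) p`
      have h8 : c + (y + 1) * (r + 1) ≤ v := by
        have : (r + 1) * (y + 2) = (y + 1) * (r + 1) + (r + 1) := by ring
        omega
      have h9 : 2 * (c + (y + 1) * (r + 1)) ≤ c * v := Nat.mul_le_mul hc2 h8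
      rw [h7] at h9
      nlinarith only [h9]
    subst hi1
    rw [mul_one] at h7 hx
    exact ⟨hc2, h7, by omega⟩

/-- `a b = p - 1`, `a ≤ b`, `k = p + a - b - 1`. -/
structure AB (p k a b : ℕ) : Prop where
  mul : a * b = p - 1
  le : a ≤ b
  eq : k + b + 1 = p + a

theorem AB.n_eq {p k a b : ℕ} (h : AB p k a b) (hp : 2 ≤ p) : 1 + k * p = (p - b) * (p + a) := by
  have h1 := h.mul
  have h2 := h.eq
  have hb : b ≤ p - 1 := by
    rcases Nat.eq_zero_or_pos a with h0 | h0
    · rw [h0, zero_mul] at h1; omega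
    · rw [← h1]; exact Nat.le_mul_of_pos_left _ h0
  obtain ⟨r, rfl⟩ : ∃ r, p = r + 1 := ⟨p - 1, by omega⟩
  rw [show r + 1 - 1 = r by omega] at h1 hb
  obtain ⟨s, rfl⟩ : ∃ s, r = b + s := ⟨r - b, by omega⟩
  rw [show b + s + 1 - b = s + 1 by omega]
  have h3 : k = s + a := by omega
  subst h3
  linarith only [h1]

theorem AB.unique {p k a b a' b' : ℕ} (h : AB p k a b) (h' : AB p k a' b') (hp : 2 ≤ p) :
    a = a' ∧ b = b' := by
  have h1 := h.mul
  have h2 := h.eq
  have h3 := h'.mul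
  have h4 := h'.eq
  have h5 : b + a' = b' + a := by omega
  rcases Nat.lt_trichotomy a a' with hlt | heq | hlt
  · exfalso
    have h6 : b < b' := by omega
    have h7 : a * b < a' * b' := by
      rcases Nat.eq_zero_or_pos b with h0 | h0
      · rw [h0, mul_zero] at h1; omega
      · exact Nat.mul_lt_mul'' hlt h6
    omega
  · exact ⟨heq, by omega⟩
  · exfalso
    have h6 : b' < b := by omega
    have h7 : a' * b' < a * b := Nat.mul_lt_mul'' hlt h6
    omega

/-- Degrees `1 + p u` dividing `n e`. -/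
theorem pos_case {p e t k u f : ℕ} (hp : 2 ≤ p) (ht : e * t = p - 1) (hk : k < p)
    (hu : 1 ≤ u) (hf : f = 1 + p * u) (hd : f ∣ (1 + k * p) * e) :
    f = 1 + k * p ∨ ∃ a b, AB p k a b ∧ a ∣ e ∧ a = u + 1 ∧ f = a * (p - b) := by
  have ht0 : 0 < t := by
    rcases Nat.eq_zero_or_pos t with h | h
    · rw [h, mul_zero] at ht; omega
    · exact h
  have he0 : 0 < e := by
    rcases Nat.eq_zero_or_pos e with h | h
    · rw [h, zero_mul] at ht; omega
    · exact h
  have hep : e < p := by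
    have : e * 1 ≤ e * t := Nat.mul_le_mul_left _ ht0
    omega
  obtain ⟨s, hs⟩ := hd
  -- `s ≡ e`
  have h1 : s ≡ e [MOD p] := by
    have h2 : f * s ≡ 1 * s [MOD p] := by
      apply Nat.ModEq.mul_right
      rw [hf]; simp [Nat.ModEq]
    have h3 : (1 + k * p) * e ≡ 1 * e [MOD p] := by
      apply Nat.ModEq.mul_right
      simp [Nat.ModEq]
    rw [one_mul] at h2 h3
    rw [hs] at h3
    exact h2.symm.trans h3
  have h2 : s % p = e := by rw [h1, Nat.mod_eq_of_lt hep]
  obtain ⟨j, hj⟩ : ∃ j, s = e + j * p := ⟨s / p, by rw [← h2]; exact (Nat.mod_add_div' s p).symm⟩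
  rcases Nat.eq_zero_or_pos j with hj0 | hj0
  · left
    rw [hj0, zero_mul, add_zero] at hj
    rw [hj] at hs
    exact (Nat.eq_of_mul_eq_mul_right he0 hs).symm
  · right
    -- `j + u e + u j p = k e`
    have h3 : p * (j + u * e + u * j * p) = p * (k * e) := by
      have : e + p * (k * e) = e + p * (j + u * e + u * j * p) := by
        calc e + p * (k * e) = (1 + k * p) * e := by ring
          _ = f * s := hs
          _ = _ := by rw [hf, hj]; ring
      omega
    have h4 := Nat.eq_of_mul_eq_mul_left (show 0 < p by omega) h3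
    have huk : u < k := by
      by_contra hcon
      push Not at hcon
      have : k * e ≤ u * e := Nat.mul_le_mul_right _ hcon
      omega
    obtain ⟨g, rfl⟩ : ∃ g, k = u + g := ⟨k - u, by omega⟩
    have h5 : (t * j) * (1 + u * p) = (p - 1) * g := by
      have h6 : j * (1 + u * p) = e * g := by
        have : u * e + j * (1 + u * p) = u * e + e * g := by
          calc u * e + j * (1 + u * p) = j + u * e + u * j * p := by ring
            _ = (u + g) * e := h4
            _ = u * e + e * g := by ring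
        omega
      rw [mul_assoc, h6, ← ht]; ring
    obtain ⟨h6, h7⟩ := dioph_one hp hu (Nat.mul_pos ht0 hj0) (by omega) (by omega) h5
    refine ⟨u + 1, t * j, ⟨by rw [mul_comm]; exact h7, ?_, by omega⟩, ?_, rfl, ?_⟩
    · omega
    · -- `e t = t j (u + 1)`
      refine ⟨j, Nat.eq_of_mul_eq_mul_right ht0 ?_⟩
      rw [ht, ← h7]; ring
    · rw [hf]
      obtain ⟨r, hr⟩ : ∃ r, p = r + 1 := ⟨p - 1, by omega⟩
      have h8 : p - t * j = g := by omega
      rw [h8]
      have h9 : t * j * (u + 1) + 1 = p := by (clear * - h6 h7 hr; omega)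
      have h10 : (t * j + g) * u + g = t * j * (u + 1) + 1 + (g * (u + 1)) - (t * j + 1) := by
        have : t * j * (u + 1) + 1 + (g * (u + 1)) = (t * j + g) * u + g + (t * j + 1) := by ring
        (clear * - this; omega)
      have h11 : 1 + p * u = 1 + (t * j + g) * u := by rw [h6]
      rw [h11]
      have h12 : (u + 1) * g + (t * j * (u + 1) + 1) = (t * j + g) * u + (t * j + g) + 1 := by ring
      omega

/-- Degrees `p w - 1` dividing `n e`. -/
theorem neg_case {p e t k w f : ℕ} (hp : 2 ≤ p) (ht : e * t = p - 1) (hk1 : 1 ≤ k) (hk : k < p)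
    (hw : 2 ≤ w) (hf : f + 1 = p * w) (hd : f ∣ (1 + k * p) * e) :
    (t = 1 ∧ f = (p - 1) * (1 + k * p)) ∨
      ∃ a b, AB p k a b ∧ b ∣ e ∧ b + 1 = w ∧ 2 ≤ a ∧ f = b * (p + a) := by
  have ht0 : 0 < t := by
    rcases Nat.eq_zero_or_pos t with h | h
    · rw [h, mul_zero] at ht; omega
    · exact h
  have he0 : 0 < e := by
    rcases Nat.eq_zero_or_pos e with h | h
    · rw [h, zero_mul] at ht; omega
    · exact h
  have hep : e < p := by
    have : e * 1 ≤ e * t := Nat.mul_le_mul_left _ ht0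
    omega
  obtain ⟨s, hs⟩ := hd
  have h0 : (1 + k * p) * e = e + p * (k * e) := by ring
  have hs0 : e + p * (k * e) + s = p * (w * s) := by
    calc e + p * (k * e) + s = f * s + s := by rw [← h0, hs]
      _ = (f + 1) * s := by ring
      _ = p * (w * s) := by rw [hf]; ring
  have h1 : p ∣ e + s := by
    have h2 : p ∣ p * (k * e) + (e + s) := by
      have : p * (k * e) + (e + s) = p * (w * s) := by omega
      rw [this]; exact Dvd.intro _ rfl
    exact (Nat.dvd_add_right (Dvd.intro _ rfl)).1 h2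
  obtain ⟨j, hj⟩ := h1
  have hj1 : 1 ≤ j := by
    rcases Nat.eq_zero_or_pos j with h | h
    · rw [h, mul_zero] at hj; omega
    · exact h
  -- `j + k e = w s`
  have h2 : p * (j + k * e) = p * (w * s) := by
    rw [← hs0, mul_add, ← hj]; ring
  have h3 := Nat.eq_of_mul_eq_mul_left (show 0 < p by omega) h2
  have h4 : (t * j) * (w * p - 1) = (p - 1) * (k + w) := by
    have h5 : j * (w * p - 1) = e * (k + w) := by
      obtain ⟨x, hx⟩ : ∃ x, w * p = x + 1 := ⟨w * p - 1, by
        have : 1 ≤ w * p := Nat.mul_pos (by omega) (by omega)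
        omega⟩
      rw [hx, Nat.add_sub_cancel]
      have h6 : w * e + w * s = j * x + j := by
        calc w * e + w * s = w * (e + s) := by ring
          _ = j * (w * p) := by rw [hj]; ring
          _ = j * x + j := by rw [hx]; ring
      have h7 : e * (k + w) = w * e + k * e := by ring
      omega
    rw [mul_assoc, h5, ← ht]; ring
  rcases dioph_two hp hw (Nat.mul_pos ht0 hj1) hk1 hk h4 with ⟨h5, h6⟩ | ⟨h5, h6, h7⟩
  · left
    have ht1 : t = 1 := Nat.eq_one_of_mul_eq_one_right h5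
    refine ⟨ht1, ?_⟩
    have h8 : f + 1 = (p - 1) * (1 + k * p) + 1 := by
      rw [hf, h6]
      obtain ⟨r, rfl⟩ : ∃ r, p = r + 1 := ⟨p - 1, by omega⟩
      rw [show r + 1 - 1 = r by omega]
      ring
    omega
  · right
    refine ⟨t * j, w - 1, ⟨h6, ?_, by omega⟩, ?_, by omega, h5, ?_⟩
    · omega
    · refine ⟨j, Nat.eq_of_mul_eq_mul_right ht0 ?_⟩
      rw [ht, ← h6]; ring
    · obtain ⟨v, rfl⟩ : ∃ v, w = v + 1 := ⟨w - 1, by omega⟩
      rw [show v + 1 - 1 = v by omega] at h6 ⊢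
      have h8 : f + 1 = v * (p + t * j) + 1 := by
        rw [hf]
        have : v * (p + t * j) = v * p + t * j * v := by ring
        rw [this, h6]
        have : p * (v + 1) = v * p + p := by ring
        (clear * - hp this; omega)
      omega

/-- Exceptional degrees `e + p m` dividing `n e`. -/
theorem excp_case {p e t k m z : ℕ} (hp : 2 ≤ p) (ht : e * t = p - 1) (hk : k < p)
    (hm : 1 ≤ m) (hz : z = e + p * m) (hd : z ∣ (1 + k * p) * e) :
    z = (1 + k * p) * e ∨ ∃ a b, AB p k a b ∧ e = a * m ∧ 2 ≤ a ∧ z = m * (p + a) := by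
  have ht0 : 0 < t := by
    rcases Nat.eq_zero_or_pos t with h | h
    · rw [h, mul_zero] at ht; omega
    · exact h
  have he0 : 0 < e := by
    rcases Nat.eq_zero_or_pos e with h | h
    · rw [h, zero_mul] at ht; omega
    · exact h
  have hep : e < p := by
    have : e * 1 ≤ e * t := Nat.mul_le_mul_left _ ht0
    omega
  have hcop : Nat.Coprime p e := by
    have h1 : Nat.Coprime p (p - 1) := by
      rw [Nat.coprime_self_sub_right (by omega)]
      exact Nat.coprime_one_right p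
    exact h1.coprime_dvd_right (Dvd.intro _ ht)
  obtain ⟨s, hs⟩ := hd
  have h0 : p ∣ (s - 1) ∧ 1 ≤ s := by
    have hs1 : 1 ≤ s := by
      rcases Nat.eq_zero_or_pos s with h | h
      · rw [h, mul_zero] at hs
        have : 0 < (1 + k * p) * e := by positivity
        omega
      · exact h
    refine ⟨?_, hs1⟩
    obtain ⟨x, rfl⟩ : ∃ x, s = x + 1 := ⟨s - 1, by omega⟩
    rw [Nat.add_sub_cancel]
    have h1 : p * (k * e) = e * x + p * (m * (x + 1)) := by
      have : e + p * (k * e) = e + (e * x + p * (m * (x + 1))) := by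
        calc e + p * (k * e) = (1 + k * p) * e := by ring
          _ = z * (x + 1) := hs
          _ = _ := by rw [hz]; ring
      omega
    have h2 : p ∣ e * x := by
      have : p ∣ e * x + p * (m * (x + 1)) := h1 ▸ Dvd.intro _ rfl
      exact (Nat.dvd_add_left (Dvd.intro _ rfl)).1 this
    exact hcop.dvd_of_dvd_mul_left h2
  obtain ⟨⟨j, hj⟩, hs1⟩ := h0
  have hsj : s = 1 + p * j := by omega
  rcases Nat.eq_zero_or_pos j with hj0 | hj0
  · left
    rw [hj0, mul_zero, add_zero] at hsj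
    rw [hs, hsj, mul_one]
  · right
    have h3 : p * (j * e + m + m * j * p) = p * (k * e) := by
      have : e + p * (k * e) = e + p * (j * e + m + m * j * p) := by
        calc e + p * (k * e) = (1 + k * p) * e := by ring
          _ = z * s := hs
          _ = _ := by rw [hz, hsj]; ring
      omega
    have h4 := Nat.eq_of_mul_eq_mul_left (show 0 < p by omega) h3
    have huk : j < k := by
      by_contra hcon
      push Not at hcon
      have : k * e ≤ j * e := Nat.mul_le_mul_right _ hcon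
      omega
    obtain ⟨g, rfl⟩ : ∃ g, k = j + g := ⟨k - j, by omega⟩
    have h5 : (t * m) * (1 + j * p) = (p - 1) * g := by
      have h6 : m * (1 + j * p) = e * g := by
        have : j * e + m * (1 + j * p) = j * e + e * g := by
          calc j * e + m * (1 + j * p) = j * e + m + m * j * p := by ring
            _ = (j + g) * e := h4
            _ = j * e + e * g := by ring
        omega
      rw [mul_assoc, h6, ← ht]; ring
    obtain ⟨h6, h7⟩ := dioph_one hp hj0 (Nat.mul_pos ht0 hm) (by omega) (by omega) h5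
    have h8 : e = (j + 1) * m := by
      refine Nat.eq_of_mul_eq_mul_right ht0 ?_
      rw [ht, ← h7]; ring
    refine ⟨j + 1, t * m, ⟨by rw [mul_comm]; exact h7, ?_, by omega⟩, h8, by omega, ?_⟩
    · omega
    · rw [hz, h8]; ring

/-- Exceptional degrees `p w - e` dividing `n e`. -/
theorem excn_case {p e t k w z : ℕ} (hp : 2 ≤ p) (ht : e * t = p - 1) (hk1 : 1 ≤ k) (hk : k < p)
    (hw : 2 ≤ w) (hz : z + e = p * w) (hd : z ∣ (1 + k * p) * e) :
    t * z = 1 + k * p ∨ ∃ a b, AB p k a b ∧ e = b * w ∧ z = w * (p - b) := by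
  have ht0 : 0 < t := by
    rcases Nat.eq_zero_or_pos t with h | h
    · rw [h, mul_zero] at ht; omega
    · exact h
  have he0 : 0 < e := by
    rcases Nat.eq_zero_or_pos e with h | h
    · rw [h, zero_mul] at ht; omega
    · exact h
  have hep : e < p := by
    have : e * 1 ≤ e * t := Nat.mul_le_mul_left _ ht0
    omega
  have hcop : Nat.Coprime p e := by
    have h1 : Nat.Coprime p (p - 1) := by
      rw [Nat.coprime_self_sub_right (by omega)]
      exact Nat.coprime_one_right p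
    exact h1.coprime_dvd_right (Dvd.intro _ ht)
  obtain ⟨s, hs⟩ := hd
  -- `(k e) p + e + e s = p w s`
  have h0 : p * (k * e) + e * (s + 1) = p * (w * s) := by
    calc p * (k * e) + e * (s + 1) = (1 + k * p) * e + e * s := by ring
      _ = (z + e) * s := by rw [hs]; ring
      _ = p * (w * s) := by rw [hz]; ring
  have h1 : p ∣ s + 1 := by
    have h2 : p ∣ p * (k * e) + e * (s + 1) := h0 ▸ Dvd.intro _ rfl
    have h3 : p ∣ e * (s + 1) := (Nat.dvd_add_right (Dvd.intro _ rfl)).1 h2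
    exact hcop.dvd_of_dvd_mul_left h3
  obtain ⟨j, hj⟩ := h1
  have hj1 : 1 ≤ j := by
    rcases Nat.eq_zero_or_pos j with h | h
    · rw [h, mul_zero] at hj; omega
    · exact h
  -- `k e + e j = w s`
  have h2 : p * (k * e + e * j) = p * (w * s) := by
    rw [← h0, hj]; ring
  have h3 := Nat.eq_of_mul_eq_mul_left (show 0 < p by omega) h2
  have hsj : s = j * p - 1 := by
    have : j * p = p * j := by ring
    omega
  have h4 : (t * w) * (j * p - 1) = (p - 1) * (k + j) := by
    rw [← hsj, mul_assoc, ← h3, ← ht]; ring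
  rcases Nat.lt_or_ge j 2 with hj2 | hj2
  · left
    have hj' : j = 1 := by omega
    subst hj'
    rw [one_mul] at h4
    have h5 : t * w = k + 1 :=
      Nat.eq_of_mul_eq_mul_right (show 0 < p - 1 by omega) (by rw [h4]; ring)
    have h6 : t * z + (p - 1) = 1 + k * p + (p - 1) := by
      calc t * z + (p - 1) = t * (z + e) := by rw [← ht]; ring
        _ = p * (t * w) := by rw [hz]; ring
        _ = p * (k + 1) := by rw [h5]
        _ = k * p + p := by ring
        _ = _ := by (clear * - hj; omega)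
    omega
  · right
    rcases dioph_two hp hj2 (Nat.mul_pos ht0 (by omega)) hk1 hk h4 with ⟨h5, h6⟩ | ⟨h5, h6, h7⟩
    · exfalso
      have : w = 1 := Nat.eq_one_of_mul_eq_one_left h5
      omega
    · have h8 : e = (j - 1) * w := by
        refine Nat.eq_of_mul_eq_mul_right ht0 ?_
        rw [ht, ← h6]; ring
      refine ⟨t * w, j - 1, ⟨h6, by omega, by omega⟩, h8, ?_⟩
      have h9 : j - 1 ≤ p := by
        have : 1 * (j - 1) ≤ t * w * (j - 1) := Nat.mul_le_mul_right _ (by omega)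
        (clear * - hp hj2 h6 h7 this; omega)
      have h10 : w * (p - (j - 1)) + w * (j - 1) = p * w := by
        rw [← mul_add, Nat.sub_add_cancel h9]; ring
      have h11 : w * (j - 1) = e := by rw [h8]; ring
      omega

theorem dvd_t {ι : Type*} [DecidableEq ι] {NE : Finset ι} {i₁ : ι} (hi₁ : i₁ ∈ NE) {ε : ι → ℤ}
    {f : ι → ℕ} {z : ℕ} {d : ℤ} (hf₁ : f i₁ = 1) (hε₁ : ε i₁ = 1)
    (hrel : ∑ i ∈ NE, ε i * f i = d * z) (N t : ℕ)
    (h1 : ∀ i ∈ NE, i ≠ i₁ → N ∣ t * f i) (h2 : N ∣ t * z) : N ∣ t := by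
  have h3 : (t : ℤ) * (d * z) = t + ∑ i ∈ NE.erase i₁, (t : ℤ) * (ε i * f i) := by
    rw [← hrel, ← Finset.add_sum_erase _ _ hi₁, hf₁, hε₁, mul_add, Finset.mul_sum]
    simp
  have h4 : (N : ℤ) ∣ (t : ℤ) * (d * z) := by
    have : (N : ℤ) ∣ ((t * z : ℕ) : ℤ) := Int.natCast_dvd_natCast.2 h2
    rw [show (t : ℤ) * (d * z) = ((t * z : ℕ) : ℤ) * d by push_cast; ring]
    exact this.mul_right _
  have h5 : (N : ℤ) ∣ ∑ i ∈ NE.erase i₁, (t : ℤ) * (ε i * f i) := by
    refine Finset.dvd_sum fun i hi => ?_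
    have : (N : ℤ) ∣ ((t * f i : ℕ) : ℤ) :=
      Int.natCast_dvd_natCast.2 (h1 i (Finset.mem_of_mem_erase hi) (Finset.ne_of_mem_erase hi))
    rw [show (t : ℤ) * (ε i * f i) = ((t * f i : ℕ) : ℤ) * ε i by push_cast; ring]
    exact this.mul_right _
  rw [h3] at h4
  have h6 := (Int.dvd_add_left h5).1 h4
  exact_mod_cast h6

/-- The two possible shapes of the exceptional degree. -/
def ExcShape (p e : ℕ) (d : ℤ) (z : ℕ) : Prop :=
  (d = 1 ∧ ∃ m, 2 ≤ m ∧ z = e + p * m) ∨ (d = -1 ∧ ∃ w, 3 ≤ w ∧ z + e = p * w)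

/-- The four possibilities for the exceptional degree. -/
def ExcType (p e t k : ℕ) (d : ℤ) (z : ℕ) : Prop :=
  (d = 1 ∧ z = (1 + k * p) * e) ∨
    (d = 1 ∧ ∃ a b m, AB p k a b ∧ e = a * m ∧ 2 ≤ m ∧ 2 ≤ a ∧ z = m * (p + a)) ∨
    (d = -1 ∧ t * z = 1 + k * p) ∨
    (d = -1 ∧ ∃ a b w, AB p k a b ∧ e = b * w ∧ 3 ≤ w ∧ z = w * (p - b))

theorem main {ι : Type*} {NE : Finset ι} {i₁ : ι} (hi₁ : i₁ ∈ NE) {ε : ι → ℤ} {f : ι → ℕ}
    {p e t k z : ℕ} {d : ℤ} (hpp : p.Prime) (ht : e * t = p - 1) (he : 2 ≤ e)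
    (hk1 : 1 ≤ k) (hk : k < p) (hcard : NE.card = e) (hf₁ : f i₁ = 1) (hε₁ : ε i₁ = 1)
    (hdeg : ∀ i ∈ NE, i ≠ i₁ → (ε i = 1 ∧ ∃ u, 2 ≤ u ∧ f i = 1 + p * u) ∨
      (ε i = -1 ∧ ∃ w, 3 ≤ w ∧ f i + 1 = p * w))
    (hdvd : ∀ i ∈ NE, f i ∣ (1 + k * p) * e)
    (hz : ExcShape p e d z)
    (hzd : z ∣ (1 + k * p) * e)
    (hrel : ∑ i ∈ NE, ε i * f i = d * z) :
    17 ≤ p ∧ ∃ a b, AB p k a b ∧ 3 ≤ a ∧ b ∣ e := by
  classical
  have hp : 2 ≤ p := hpp.two_le
  have ht0 : 0 < t := by
    rcases Nat.eq_zero_or_pos t with h | h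
    · rw [h, mul_zero] at ht; omega
    · exact h
  have htp : t < p := by
    have : 1 * t ≤ e * t := Nat.mul_le_mul_right _ (by omega)
    omega
  have hkp : p ≤ k * p := Nat.le_mul_of_pos_left _ hk1
  -- types of degrees
  have hT : ∀ i ∈ NE, i ≠ i₁ → (ε i = 1 ∧ f i = 1 + k * p) ∨
      (ε i = 1 ∧ ∃ a b, AB p k a b ∧ a ∣ e ∧ 3 ≤ a ∧ f i = a * (p - b)) ∨
      (ε i = -1 ∧ t = 1 ∧ f i = (p - 1) * (1 + k * p)) ∨
      (ε i = -1 ∧ ∃ a b, AB p k a b ∧ b ∣ e ∧ 2 ≤ a ∧ f i = b * (p + a)) := by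
    intro i hi hne
    rcases hdeg i hi hne with ⟨h1, u, hu, hfu⟩ | ⟨h1, w, hw, hfw⟩
    · rcases pos_case hp ht hk (by omega) hfu (hdvd i hi) with h | ⟨a, b, h2, h3, h4, h5⟩
      · exact Or.inl ⟨h1, h⟩
      · exact Or.inr (Or.inl ⟨h1, a, b, h2, h3, by omega, h5⟩)
    · rcases neg_case hp ht hk1 hk (by omega) hfw (hdvd i hi) with ⟨h, h'⟩ | ⟨a, b, h2, h3, h4, h5, h6⟩
      · exact Or.inr (Or.inr (Or.inl ⟨h1, h, h'⟩))
      · exact Or.inr (Or.inr (Or.inr ⟨h1, a, b, h2, h3, h5, h6⟩))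
  have hZ : ExcType p e t k d z := by
    rcases hz with ⟨h1, m, hm, hzm⟩ | ⟨h1, w, hw, hzw⟩
    · rcases excp_case hp ht hk (by omega) hzm hzd with h | ⟨a, b, h2, h3, h4, h5⟩
      · exact Or.inl ⟨h1, h⟩
      · exact Or.inr (Or.inl ⟨h1, a, b, m, h2, h3, hm, h4, h5⟩)
    · rcases excn_case hp ht hk1 hk (by omega) hzw hzd with h | ⟨a, b, h2, h3, h4⟩
      · exact Or.inr (Or.inr (Or.inl ⟨h1, h⟩))
      · exact Or.inr (Or.inr (Or.inr ⟨h1, a, b, w, h2, h3, hw, h4⟩))
  -- Step 1
  obtain ⟨a, b, hab⟩ : ∃ a b, AB p k a b := by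
    by_contra hno
    push Not at hno
    have h1 : (1 + k * p) ∣ t := by
      refine dvd_t hi₁ hf₁ hε₁ hrel _ _ (fun i hi hne => ?_) ?_
      · rcases hT i hi hne with ⟨-, h⟩ | ⟨-, a, b, h, -⟩ | ⟨-, -, h⟩ | ⟨-, a, b, h, -⟩
        · rw [h]; exact Dvd.intro_left _ rfl
        · exact absurd h (hno a b)
        · rw [h]; exact ⟨t * (p - 1), by ring⟩
        · exact absurd h (hno a b)
      · rcases hZ with ⟨-, h⟩ | ⟨-, a, b, m, h, -⟩ | ⟨-, h⟩ | ⟨-, a, b, w, h, -⟩
        · rw [h]; exact ⟨t * e, by ring⟩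
        · exact absurd h (hno a b)
        · rw [h]
        · exact absurd h (hno a b)
    have := Nat.le_of_dvd ht0 h1
    omega
  have hmul := hab.mul
  have hle := hab.le
  have heq := hab.eq
  have hn := hab.n_eq hp
  have ha0 : 0 < a := by
    rcases Nat.eq_zero_or_pos a with h | h
    · rw [h, zero_mul] at hmul; omega
    · exact h
  have hb0 : 0 < b := by omega
  have hbp : b ≤ p - 1 := by rw [← hmul]; exact Nat.le_mul_of_pos_left _ ha0
  -- `a (p - b) = (a - 1) p + 1`
  have hapb : a * (p - b) + p = a * p + 1 := by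
    have h1 : a * (p - b) + a * b = a * p := by rw [← mul_add, Nat.sub_add_cancel (by omega)]
    omega
  -- Step 2
  have hbe : b ∣ e := by
    by_contra hb
    have ht1 : t ≠ 1 := by
      rintro rfl
      apply hb
      rw [mul_one] at ht
      rw [ht, ← hmul]
      exact Dvd.intro_left _ rfl
    have hT' : ∀ i ∈ NE, i ≠ i₁ → ε i = 1 ∧ (f i = 1 + k * p ∨ f i = a * (p - b)) := by
      intro i hi hne
      rcases hT i hi hne with ⟨h1, h⟩ | ⟨h1, a', b', h, -, -, h2⟩ | ⟨-, h, -⟩ | ⟨-, a', b', h, h2, -⟩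
      · exact ⟨h1, Or.inl h⟩
      · obtain ⟨rfl, rfl⟩ := h.unique hab hp
        exact ⟨h1, Or.inr h2⟩
      · exact absurd h ht1
      · obtain ⟨rfl, rfl⟩ := h.unique hab hp
        exact absurd h2 hb
    have hsum : ((1 + ∑ i ∈ NE.erase i₁, f i : ℕ) : ℤ) = d * z := by
      rw [← hrel, ← Finset.add_sum_erase _ _ hi₁, hf₁, hε₁]
      push_cast
      congr 1
      refine Finset.sum_congr rfl fun i hi => ?_
      rw [(hT' i (Finset.mem_of_mem_erase hi) (Finset.ne_of_mem_erase hi)).1, one_mul]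
    have hcard' : (NE.erase i₁).card = e - 1 := by rw [Finset.card_erase_of_mem hi₁, hcard]
    have hd1 : d = 1 := by
      rcases hz with ⟨h, -⟩ | ⟨h, -⟩
      · exact h
      · rw [h] at hsum
        have : (0 : ℤ) < ((1 + ∑ i ∈ NE.erase i₁, f i : ℕ) : ℤ) := by
          have : 0 < 1 + ∑ i ∈ NE.erase i₁, f i := by omega
          exact_mod_cast this
        rw [hsum] at this
        have h2 : (0 : ℤ) ≤ z := Int.natCast_nonneg z
        linarith only [this]
    rw [hd1, one_mul] at hsum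
    have hsum' : 1 + ∑ i ∈ NE.erase i₁, f i = z := by exact_mod_cast hsum
    rcases hZ with ⟨-, h⟩ | ⟨-, a', b', m, h, h1, h2, h3, h4⟩ | ⟨h, -⟩ | ⟨h, -⟩
    · have h1 : ∑ i ∈ NE.erase i₁, f i ≤ (NE.erase i₁).card • (1 + k * p) := by
        refine Finset.sum_le_card_nsmul _ _ _ fun i hi => ?_
        rcases (hT' i (Finset.mem_of_mem_erase hi) (Finset.ne_of_mem_erase hi)).2 with h2 | h2
        · exact h2.le
        · rw [h2, hn, mul_comm]
          exact Nat.mul_le_mul_left _ (by omega)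
      rw [hcard', smul_eq_mul] at h1
      have h2 : (1 + k * p) * e = (e - 1) * (1 + k * p) + (1 + k * p) := by
        obtain ⟨x, rfl⟩ : ∃ x, e = x + 1 := ⟨e - 1, by omega⟩
        rw [Nat.add_sub_cancel]; ring
      rw [h, h2] at hsum'
      omega
    · obtain ⟨rfl, rfl⟩ := h.unique hab hp
      have h5 : (NE.erase i₁).card • (a' * (p - b')) ≤ ∑ i ∈ NE.erase i₁, f i := by
        refine Finset.card_nsmul_le_sum _ _ _ fun i hi => ?_
        rcases (hT' i (Finset.mem_of_mem_erase hi) (Finset.ne_of_mem_erase hi)).2 with h2 | h2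
        · rw [h2, hn, mul_comm]
          exact Nat.mul_le_mul_left _ (by omega)
        · exact h2.ge
      rw [hcard', smul_eq_mul] at h5
      have h6 : 1 + (e - 1) * (a' * (p - b')) ≤ m * (p + a') := by omega
      have h7 : p + 1 ≤ a' * (p - b') := by
        have : 2 * p ≤ a' * p := Nat.mul_le_mul_right _ h3
        omega
      have h8 : (e - 1) * (p + 1) ≤ (e - 1) * (a' * (p - b')) := Nat.mul_le_mul_left _ h7
      have h9 : e * (p + 1) = (e - 1) * (p + 1) + (p + 1) := by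
        obtain ⟨x, rfl⟩ : ∃ x, e = x + 1 := ⟨e - 1, by omega⟩
        rw [Nat.add_sub_cancel]; ring
      have h10 : e * (p + 1) = a' * m * p + a' * m := by rw [h1]; ring
      have h11 : m * (p + a') = m * p + a' * m := by ring
      have h12 : 2 * (m * p) ≤ a' * m * p := by
        calc 2 * (m * p) ≤ a' * (m * p) := Nat.mul_le_mul_right _ h3
          _ = a' * m * p := by ring
      have h13 : 2 * p ≤ m * p := Nat.mul_le_mul_right _ h2
      omega
    · omega
    · omega
  -- Step 3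
  have ha3 : 3 ≤ a := by
    by_contra ha
    have h1 : (p + a) ∣ t := by
      refine dvd_t hi₁ hf₁ hε₁ hrel _ _ (fun i hi hne => ?_) ?_
      · rcases hT i hi hne with ⟨-, h⟩ | ⟨-, a', b', h, -, h3, -⟩ | ⟨-, -, h⟩ |
          ⟨-, a', b', h, -, -, h3⟩
        · rw [h, hn]; exact ⟨t * (p - b), by ring⟩
        · obtain ⟨rfl, rfl⟩ := h.unique hab hp
          exact absurd h3 ha
        · rw [h, hn]; exact ⟨t * (p - 1) * (p - b), by ring⟩
        · obtain ⟨rfl, rfl⟩ := h.unique hab hp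
          rw [h3]; exact ⟨t * b', by ring⟩
      · rcases hZ with ⟨-, h⟩ | ⟨-, a', b', m, h, -, -, -, h3⟩ | ⟨-, h⟩ |
          ⟨-, a', b', w, h, h1, h2, -⟩
        · rw [h, hn]; exact ⟨t * (p - b) * e, by ring⟩
        · obtain ⟨rfl, rfl⟩ := h.unique hab hp
          rw [h3]; exact ⟨t * m, by ring⟩
        · rw [h, hn]; exact ⟨p - b, by ring⟩
        · exfalso
          obtain ⟨rfl, rfl⟩ := h.unique hab hp
          have h4 : b' * (w * t) = b' * a' := by
            calc b' * (w * t) = e * t := by rw [h1]; ring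
              _ = b' * a' := by rw [ht, ← hmul]; ring
          have h5 := Nat.eq_of_mul_eq_mul_left hb0 h4
          have h6 : 3 * 1 ≤ w * t := Nat.mul_le_mul h2 ht0
          omega
    have := Nat.le_of_dvd ht0 h1
    omega
  refine ⟨?_, a, b, hab, ha3, hbe⟩
  -- Step 4
  by_contra hp17
  push Not at hp17
  have hab15 : a * b ≤ 15 := by omega
  have hb5 : b ≤ 5 := by
    by_contra hcon
    have : 3 * 6 ≤ a * b := Nat.mul_le_mul ha3 (by omega)
    omega
  have ha4 : a < 4 := by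
    by_contra hcon
    have : 4 * 4 ≤ a * b := Nat.mul_le_mul (by omega) (by omega)
    omega
  have ha' : a = 3 := by omega
  subst ha'
  have hb' : b = 4 := by
    interval_cases b
    · exfalso
      have : p = 10 := by (clear * - hapb; omega)
      rw [this] at hpp
      revert hpp; norm_num
    · rfl
    · exfalso
      have : p = 16 := by (clear * - hapb; omega)
      rw [this] at hpp
      revert hpp; norm_num
  subst hb'
  have hp13 : p = 13 := by (clear * - hapb; omega)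
  subst hp13
  have hk11 : k = 11 := by omega
  subst hk11
  let Y := (NE.erase i₁).filter fun i => f i = 27
  have hY : Y.card ≤ 11 := by
    have h1 : Y.card ≤ (NE.erase i₁).card := Finset.card_le_card (Finset.filter_subset _ _)
    rw [Finset.card_erase_of_mem hi₁, hcard] at h1
    have h2 : e ≤ 12 := by
      have : e * 1 ≤ e * t := Nat.mul_le_mul_left _ ht0
      omega
    omega
  have hsumY : (16 : ℤ) ∣ ∑ i ∈ NE.erase i₁, ε i * f i - 27 * Y.card := by
    have h1 : (27 : ℤ) * Y.card = ∑ i ∈ NE.erase i₁, if f i = 27 then (27 : ℤ) else 0 := by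
      rw [← Finset.sum_filter, Finset.sum_const]
      simp [Y, mul_comm]
    rw [h1, ← Finset.sum_sub_distrib]
    refine Finset.dvd_sum fun i hi => ?_
    rcases hT i (Finset.mem_of_mem_erase hi) (Finset.ne_of_mem_erase hi) with ⟨h2, h⟩ |
      ⟨h2, a', b', h, -, -, h3⟩ | ⟨h2, -, h⟩ | ⟨h2, a', b', h, -, -, h3⟩
    · rw [h2, h]; norm_num
    · obtain ⟨rfl, rfl⟩ := h.unique hab hp
      rw [h2, h3]; norm_num
    · rw [h2, h]; norm_num
    · obtain ⟨rfl, rfl⟩ := h.unique hab hp
      rw [h2, h3]; norm_num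
  have hzz : (16 : ℤ) ∣ d * z ∨ (16 : ℤ) ∣ d * z + 27 := by
    rcases hZ with ⟨h1, h⟩ | ⟨h1, a', b', m, h, h3, -, -, h4⟩ | ⟨h1, h⟩ |
      ⟨h1, a', b', w, h, h3, h2, h4⟩
    · left; rw [h1, h]; push_cast; (clear * -; omega)
    · left
      obtain ⟨rfl, rfl⟩ := h.unique hab hp
      rw [h1, h4]; push_cast; (clear * -; omega)
    · left
      have h5 : e ∣ 12 := Dvd.intro _ ht
      have h6 : e ≤ 12 := Nat.le_of_dvd (by norm_num) h5
      obtain ⟨c, rfl⟩ := hbe
      have h7 : c * t = 3 := by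
        have : 4 * (c * t) = 12 := by rw [← mul_assoc]; omega
        omega
      have h8 : t = 1 ∨ t = 3 := (Nat.dvd_prime (by norm_num)).1 (Dvd.intro_left _ h7)
      rw [h1]
      rcases h8 with rfl | rfl
      · have : z = 144 := by omega
        rw [this]; norm_num
      · have : z = 48 := by omega
        rw [this]; norm_num
    · right
      obtain ⟨rfl, rfl⟩ := h.unique hab hp
      have h5 : e ∣ 12 := Dvd.intro _ ht
      have h6 : e ≤ 12 := Nat.le_of_dvd (by norm_num) h5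
      have h7 : w = 3 := by omega
      rw [h1, h4, h7]; norm_num
  rw [← hrel, ← Finset.add_sum_erase _ _ hi₁, hf₁, hε₁] at hzz
  obtain ⟨y, hy⟩ : ∃ y : ℕ, Y.card = y := ⟨_, rfl⟩
  rw [hy] at hY hsumY
  push_cast at hzz
  (clear * - hsumY hY hzz; omega)

end Cfsg.Agent.H570.Arith
end

-- part: H570/PartA
section
/-!
A simple group with `n = 1 + k p < p ^ 2` Sylow `p`-subgroups of order `p`: if `C(P) ≠ P` then
`n = (p - b) (p + a)` with `a b = p - 1`.
-/

set_option autoImplicit false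

open Cfsg Subgroup

namespace Cfsg.Agent.H570.PartA

open Cfsg.Agent.SmallSimple Cfsg.Agent.H570.Arith Cfsg.Agent.Characters.Core

universe u

variable {G : Type u} [Group G] [Finite G]

/-- Divisibility from the integrality of central characters, summed over several characters. -/
theorem dvd_of_sum_chars {ι : Type*} (X : Finset ι) (χ : ι → G → ℂ)
    (hχ : ∀ i ∈ X, IsIrrCharacter G (χ i)) {z : ℕ} (hz : ∀ i ∈ X, χ i 1 = z) (hz0 : 0 < z)
    (x : G) {s : ℤ} (hs : ∑ i ∈ X, χ i x = s) :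
    z ∣ (centralizer ({x} : Set G)).index * s.natAbs := by
  set j := (centralizer ({x} : Set G)).index with hj
  have h1 : IsIntegral ℤ (∑ i ∈ X, centralChar (χ i) x) :=
    IsIntegral.sum _ fun i hi =>
      Cfsg.Agent.Blocks.CentralScalar.isIntegral_centralChar (hχ i hi) _
  have h2 : ∑ i ∈ X, centralChar (χ i) x = (j : ℂ) * s / z := by
    rw [← hs, Finset.mul_sum, Finset.sum_div]
    refine Finset.sum_congr rfl fun i hi => ?_
    rw [centralChar, hz i hi]
  rw [h2] at h1
  apply Cfsg.Agent.Characters.DegreeBounds.nat_dvd_of_isIntegral_div hz0.ne'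
  rcases Int.natAbs_eq s with h | h
  · have h5 : (((j * s.natAbs : ℕ) : ℂ) / (z : ℂ)) = (j : ℂ) * s / z := by
      have h6 : (s : ℂ) = (s.natAbs : ℂ) := by
        have := congrArg (fun t : ℤ => (t : ℂ)) h
        simpa using this
      rw [h6]; push_cast; ring
    rw [h5]; exact h1
  · have h5 : (((j * s.natAbs : ℕ) : ℂ) / (z : ℂ)) = -((j : ℂ) * s / z) := by
      have h6 : (s : ℂ) = -(s.natAbs : ℂ) := by
        have := congrArg (fun t : ℤ => (t : ℂ)) h
        rw [Int.cast_neg, Int.cast_natCast] at this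
        exact this
      rw [h6]; push_cast; ring
    rw [h5]; exact h1.neg

/-- The main result of Part A. -/
theorem partA [IsSimpleGroup G] (hG : ¬ IsMulCommutative G) {p : ℕ} [hp : Fact p.Prime]
    (hp2 : p ≠ 2) {P : Sylow p G} (hP : Nat.card P = p) {e k : ℕ} {K : Subgroup G}
    (hloc : PrimeLocal.IsLocal p P e K) (hn : Nat.card (Sylow p G) = 1 + k * p) (hk : k < p)
    (hK : Nat.card K ≠ 1) : 17 ≤ p ∧ ∃ a b, AB p k a b ∧ 3 ≤ a ∧ b ∣ e := by
  classical
  have hpp := hp.out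
  have hP' : Nat.card (P : Subgroup G) = p := hP
  have hp2' : 2 ≤ p := hpp.two_le
  have he2 : 2 ≤ e := hloc.one_lt
  obtain ⟨t, ht⟩ := hloc.dvd_pred
  have ht' := ht.symm
  obtain ⟨M, hM⟩ := Blocks.ExistsModular.exists_isPModular hpp
  obtain ⟨NE, X, ε, d, S, -, hNX, hNE, hX, hε, hd, h1, hval, hexc, hdisj, hrel⟩ :=
    TheoremB.theoremB p hp2 M hM P hP e t (LargePrime.relIndex_eq hloc hpp.pos) ht'
  have hpG : p ∣ Nat.card G := hP' ▸ Subgroup.card_subgroup_dvd_card _
  have hq5 : 5 ≤ Nat.card (Sylow p G) := Embed.five_le_card_sylow hG hpG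
  have hk1 : 1 ≤ k := by
    rcases Nat.eq_zero_or_pos k with h | h
    · rw [h] at hn; omega
    · exact h
  have hep : e < p := by
    have := Nat.le_of_dvd (by omega) hloc.dvd_pred
    omega
  have ht0 : 0 < t := by
    rcases Nat.eq_zero_or_pos t with h | h
    · rw [h, mul_zero] at ht; omega
    · exact h
  -- the index of the centralizer
  have hidx : (centralizer (P : Set G)).index = (1 + k * p) * e := by
    have h2 := (centralizer (P : Set G)).card_mul_index
    rw [hloc.card_centralizer, hloc.card_eq] at h2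
    have hK0 : 0 < Nat.card K := Nat.card_pos
    apply Nat.eq_of_mul_eq_mul_left (show 0 < p * Nat.card K by (clear * - hp2' hK0; positivity))
    rw [h2, hn]; ring
  have hidx' : ∀ x ∈ (P : Subgroup G), x ≠ 1 →
      (centralizer ({x} : Set G)).index = (1 + k * p) * e := by
    intro x hx hx1
    rw [LargePrime.centralizer_eq hpp hP' hx hx1]
    exact hidx
  obtain ⟨x₀, hx₀, hx₀1⟩ : ∃ x ∈ (P : Subgroup G), x ≠ 1 := by
    have hnt : Nontrivial (P : Subgroup G) := by
      rw [← Finite.one_lt_card_iff_nontrivial, hP']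
      exact hpp.one_lt
    obtain ⟨x, hx⟩ := exists_ne (1 : (P : Subgroup G))
    exact ⟨x, x.2, fun h => hx (Subtype.ext h)⟩
  have h1p : ¬ p ∣ orderOf (1 : G) := by
    rw [orderOf_one]; exact hpp.one_lt.ne' ∘ Nat.dvd_one.1
  have hvalx : ∀ χ ∈ NE, ∀ x ∈ (P : Subgroup G), x ≠ 1 → (χ : G → ℂ) x = ε χ := by
    intro χ hχ x hx hx1
    have := hval χ hχ x hx hx1 1 (one_mem _) h1p
    rwa [mul_one] at this
  have hnc : ∃ a b : G, a * b ≠ b * a := by
    by_contra h
    push Not at h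
    exact hG ⟨⟨h⟩⟩
  have hKbot : K ≠ ⊥ := by
    rintro rfl
    exact hK Subgroup.card_bot
  have hcop : p.Coprime (Nat.card K) := (hpp.coprime_iff_not_dvd).2 hloc.not_dvd
  have hsumP : ∀ (inst : Fintype (P : Subgroup G)) (f : G → ℂ) (c : ℂ),
      (∀ x ∈ (P : Subgroup G), x ≠ 1 → f x = c) →
      ∑ x : (P : Subgroup G), f x = f 1 + ((p : ℂ) - 1) * c := by
    intro inst f c hc
    rw [← Finset.add_sum_erase _ _ (Finset.mem_univ (1 : (P : Subgroup G)))]
    congr 1
    have h2 : ∀ x ∈ Finset.univ.erase (1 : (P : Subgroup G)), f (x : G) = c := fun x hx =>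
      hc x x.2 fun h => Finset.ne_of_mem_erase hx (Subtype.ext h)
    rw [Finset.sum_congr rfl h2, Finset.sum_const, nsmul_eq_mul,
      Finset.card_erase_of_mem (Finset.mem_univ _), Finset.card_univ, ← Nat.card_eq_fintype_card,
      hP', Nat.cast_sub hpp.one_le, Nat.cast_one]
  -- degrees
  have hdeg : ∀ χ : IrrCharacter G, ∃ m : ℕ, (χ : G → ℂ) 1 = m ∧ 0 < m := fun χ =>
    LargePrime.exists_degree χ.2
  choose m hm hm0 using hdeg
  obtain ⟨χ₁, hχ₁, hχ₁1, hχ₁ε⟩ := h1
  have hm₁ : m χ₁ = 1 := by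
    have h2 := hm χ₁
    rw [hχ₁1, Pi.one_apply] at h2
    exact_mod_cast h2.symm
  have hne1 : ∀ χ : IrrCharacter G, χ ≠ χ₁ → m χ ≠ 1 := by
    intro χ hχ h
    apply hχ
    apply Subtype.ext
    rw [hχ₁1]
    exact SelfCentSum.eq_one_of_apply_one (Embed.card_not_prime_of_not_comm hG) χ.2
      (by rw [hm, h]; simp)
  -- divisibility of the degrees of the non-exceptional characters
  have hdvd : ∀ χ ∈ NE, m χ ∣ (1 + k * p) * e := by
    intro χ hχ
    have h2 := dvd_of_sum_chars {χ} (fun ψ => (ψ : G → ℂ)) (fun ψ _ => ψ.2) (z := m χ)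
      (fun ψ hψ => by rw [Finset.mem_singleton.1 hψ]; exact hm χ) (hm0 χ) x₀ (s := ε χ)
      (by rw [Finset.sum_singleton]; exact hvalx χ hχ x₀ hx₀ hx₀1)
    rw [hidx' x₀ hx₀ hx₀1] at h2
    rcases hε χ hχ with h | h
    · rw [h] at h2; simpa only [_root_.isUnit_one, _root_.Int.natAbs_of_isUnit, _root_.mul_one] using h2
    · rw [h] at h2; simpa only [_root_.Int.reduceNeg, _root_.IsUnit.neg_iff, _root_.isUnit_one, _root_.Int.natAbs_of_isUnit, _root_.mul_one] using h2
  -- shapes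
  have hshape : ∀ χ ∈ NE, χ ≠ χ₁ → (ε χ = 1 ∧ ∃ u, 2 ≤ u ∧ m χ = 1 + p * u) ∨
      (ε χ = -1 ∧ ∃ w, 3 ≤ w ∧ m χ + 1 = p * w) := by
    intro χ hχ hne
    rcases hε χ hχ with h | h
    · left
      refine ⟨h, ?_⟩
      obtain ⟨j, hj, -⟩ := @LargePrime.exists_avg G _ _ _ χ.2 (P : Subgroup G) (Fintype.ofFinite _)
      rw [hsumP (Fintype.ofFinite _) χ 1 (fun x hx hx1 => by
        rw [hvalx χ hχ x hx hx1, h]; simp), hm, hP'] at hj
      have hj' : m χ + p = 1 + p * j := by
        have : ((m χ + p : ℕ) : ℂ) = ((1 + p * j : ℕ) : ℂ) := by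
          push_cast
          linear_combination hj
        exact_mod_cast this
      have hj1 : j ≠ 0 := by
        rintro rfl
        omega
      obtain ⟨u, rfl⟩ := Nat.exists_eq_succ_of_ne_zero hj1
      have hm' : m χ = 1 + p * u := by
        have : p * u.succ = p * u + p := by rw [Nat.succ_eq_add_one]; ring
        omega
      refine ⟨u, ?_, hm'⟩
      by_contra hu
      obtain ⟨σ, hσ, -⟩ := DetKernel.exists_hom_SL_of_const hnc P hP
        (isIrr_isCharacter χ.2) ⟨x₀, by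
          rw [hvalx χ hχ x₀ hx₀ hx₀1, h, hm]
          intro hcon
          apply hne1 χ hne
          exact_mod_cast hcon.symm⟩ (δ := 1)
        (fun x hx hx1 y hy hyp => by rw [hval χ hχ x hx hx1 y hy hyp, h]) (a := u)
        (Or.inl ⟨Or.inr rfl, by rw [hm, hm']; push_cast; ring⟩) K hloc.le_centralizer hcop
      exact hKbot (DetKernel.eq_bot_of_injective (by omega) σ hσ)
    · right
      refine ⟨h, ?_⟩
      obtain ⟨j, hj, -⟩ := @LargePrime.exists_avg G _ _ _ χ.2 (P : Subgroup G) (Fintype.ofFinite _)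
      rw [hsumP (Fintype.ofFinite _) χ (-1) (fun x hx hx1 => by
        rw [hvalx χ hχ x hx hx1, h]; simp), hm, hP'] at hj
      have hj' : m χ + 1 = p * (j + 1) := by
        have : ((m χ + 1 : ℕ) : ℂ) = ((p * (j + 1) : ℕ) : ℂ) := by
          push_cast
          linear_combination hj
        exact_mod_cast this
      refine ⟨j + 1, ?_, hj'⟩
      by_contra hu
      obtain ⟨σ, hσ, -⟩ := DetKernel.exists_hom_SL_of_const hnc P hP
        (isIrr_isCharacter χ.2) ⟨x₀, by
          rw [hvalx χ hχ x₀ hx₀ hx₀1, h, hm]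
          intro hcon
          have : (-1 : ℤ) = m χ := by exact_mod_cast hcon
          omega⟩ (δ := -1)
        (fun x hx hx1 y hy hyp => by rw [hval χ hχ x hx hx1 y hy hyp, h]) (a := j)
        (Or.inr ⟨rfl, by
          have : ((m χ + 1 : ℕ) : ℂ) = ((p * (j + 1) : ℕ) : ℂ) := by rw [hj']
          rw [hm]
          push_cast at this
          exact this⟩) K hloc.le_centralizer hcop
      exact hKbot (DetKernel.eq_bot_of_injective (by omega) σ hσ)
  -- the exceptional characters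
  obtain ⟨Θ, hΘ⟩ : X.Nonempty := Finset.card_ne_zero.1 (by omega)
  have hrel1 : ∀ Θ' ∈ X, ∑ χ ∈ NE, ε χ * (m χ : ℤ) = d * m Θ' := by
    intro Θ' hΘ'
    have h2 := hrel Θ' hΘ' 1 h1p
    rw [hm Θ', Finset.sum_congr rfl (fun χ _ => by rw [hm χ])] at h2
    exact_mod_cast h2
  have hmX : ∀ Θ' ∈ X, m Θ' = m Θ := by
    intro Θ' hΘ'
    have h2 := (hrel1 Θ' hΘ').symm.trans (hrel1 Θ hΘ)
    rcases hd with h | h <;> rw [h] at h2 <;> (clear * - h2; omega)
  -- the sum of the values of the exceptional characters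
  have hfd := PrimeDual.finite_dual hpp hP
  have hftP := Fintype.ofFinite P
  have hft := Fintype.ofFinite (P →* ℂˣ)
  have hbU : X.biUnion S = Finset.univ.erase 1 := by
    apply Finset.eq_of_subset_of_card_le
    · intro l hl
      rw [Finset.mem_biUnion] at hl
      obtain ⟨Θ', hΘ', hl⟩ := hl
      rw [Finset.mem_erase]
      refine ⟨?_, Finset.mem_univ _⟩
      rintro rfl
      exact (hexc Θ' hΘ').2.1 hl
    · rw [Finset.card_erase_of_mem (Finset.mem_univ _), Finset.card_univ,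
        ← Nat.card_eq_fintype_card, PrimeDual.card_dual hpp hP, Finset.card_biUnion
        (fun Θ₁ h₁ Θ₂ h₂ hne => hdisj Θ₁ h₁ Θ₂ h₂ hne),
        Finset.sum_congr rfl (fun Θ' hΘ' => (hexc Θ' hΘ').1), Finset.sum_const, smul_eq_mul, hX, ht,
        mul_comm]
  have hXsum : ∑ Θ' ∈ X, (Θ' : G → ℂ) x₀ = ((-d : ℤ) : ℂ) := by
    have h2 : ∀ Θ' ∈ X, (Θ' : G → ℂ) x₀ = d * ∑ l ∈ S Θ', ((l ⟨x₀, hx₀⟩ : ℂˣ) : ℂ) := by
      intro Θ' hΘ'
      have h3 := (hexc Θ' hΘ').2.2 ⟨x₀, hx₀⟩ (fun h => hx₀1 (congrArg Subtype.val h)) 1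
        (one_mem _) h1p
      rwa [mul_one] at h3
    rw [Finset.sum_congr rfl h2, ← Finset.mul_sum,
      ← Finset.sum_biUnion (fun Θ₁ h₁ Θ₂ h₂ hne => hdisj Θ₁ h₁ Θ₂ h₂ hne), hbU]
    have h4 := PrimeDual.sum_dual_eq_zero hpp hP
      (x := (⟨x₀, hx₀⟩ : P)) (fun h => hx₀1 (congrArg Subtype.val h))
    rw [← Finset.add_sum_erase _ _ (Finset.mem_univ (1 : P →* ℂˣ))] at h4
    rw [MonoidHom.one_apply, Units.val_one] at h4
    push_cast
    linear_combination d * h4
  have hzd : m Θ ∣ (1 + k * p) * e := by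
    have h2 := dvd_of_sum_chars X (fun ψ => (ψ : G → ℂ)) (fun ψ _ => ψ.2) (z := m Θ)
      (fun ψ hψ => by rw [← hmX ψ hψ]; exact hm ψ) (hm0 Θ) x₀ (s := -d) hXsum
    rw [hidx' x₀ hx₀ hx₀1] at h2
    rcases hd with h | h
    · rw [h] at h2; simpa only [_root_.Int.reduceNeg, _root_.IsUnit.neg_iff, _root_.isUnit_one, _root_.Int.natAbs_of_isUnit, _root_.mul_one] using h2
    · rw [h] at h2; simpa only [_root_.Int.reduceNeg, _root_.neg_neg, _root_.isUnit_one, _root_.Int.natAbs_of_isUnit, _root_.mul_one] using h2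
  -- congruence
  have hcong : (p : ℤ) ∣ d * m Θ - e := by
    have h2 : (e : ℤ) = ∑ χ ∈ NE, 1 := by rw [Finset.sum_const, hNE]; simp
    rw [← hrel1 Θ hΘ, h2, ← Finset.sum_sub_distrib]
    refine Finset.dvd_sum fun χ hχ => ?_
    by_cases hc : χ = χ₁
    · rw [hc, hχ₁ε, hm₁]; simp
    · rcases hshape χ hχ hc with ⟨h, u, -, hu⟩ | ⟨h, w, -, hw⟩
      · rw [h, hu]; push_cast; exact ⟨u, by ring⟩
      · rw [h]
        have : (m χ : ℤ) + 1 = p * w := by exact_mod_cast hw
        exact ⟨-w, by linear_combination -this⟩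
  obtain ⟨hS1, hS2, hS3⟩ := hexc Θ hΘ
  have hSne : (S Θ).Nonempty := by
    rw [← Finset.card_pos, hS1]; omega
  have hΘne : ∃ g, (Θ : G → ℂ) g ≠ (Θ : G → ℂ) 1 := by
    by_contra hcon
    push Not at hcon
    -- then `Θ` is constant, so `Θ = 1`, which is not exceptional
    have h2 : ∀ Θ' ∈ X, (Θ' : G → ℂ) 1 = (Θ : G → ℂ) 1 := fun Θ' hΘ' => by rw [hm, hm, hmX Θ' hΘ']
    have h3 : ∑ x ∈ (Finset.univ.erase (1 : P) : Finset P), (Θ : G → ℂ) (x : G) =
        d * (-(e : ℂ)) := by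
      have h4 : ∀ x ∈ (Finset.univ.erase (1 : P) : Finset P), (Θ : G → ℂ) (x : G) =
          d * ∑ l ∈ S Θ, (l x : ℂ) := by
        intro x hx
        have := hS3 x (Finset.ne_of_mem_erase hx) 1 (one_mem _) h1p
        rwa [mul_one] at this
      rw [Finset.sum_congr rfl h4, ← Finset.mul_sum, Finset.sum_comm]
      congr 1
      refine (Finset.sum_congr rfl (g := fun _ => (-1 : ℂ)) fun l hl => ?_).trans ?_
      · refine LargePrime.sum_hom ?_
        rintro rfl
        exact hS2 hl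
      · rw [Finset.sum_const, hS1]
        simp
    simp only [hcon] at h3
    rw [Finset.sum_const,
      Finset.card_erase_of_mem (Finset.mem_univ _), Finset.card_univ,
      ← Nat.card_eq_fintype_card, hP, hm Θ] at h3
    have h4 : ((p - 1 : ℕ) : ℤ) * m Θ = -(d * e) := by
      have : (((p - 1 : ℕ) * m Θ : ℤ) : ℂ) = ((-(d * e) : ℤ) : ℂ) := by
        rw [nsmul_eq_mul] at h3
        push_cast
        rw [h3]; ring
      exact_mod_cast this
    have h5 : m Θ ≠ 1 := by
      apply hne1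
      rintro rfl
      exact Finset.disjoint_left.1 hNX hχ₁ hΘ
    have h6 := hm0 Θ
    have h7 : (p - 1) * 2 ≤ (p - 1) * m Θ := Nat.mul_le_mul_left _ (by omega)
    have h8 : ((p - 1 : ℕ) : ℤ) * m Θ = (((p - 1) * m Θ : ℕ) : ℤ) := by push_cast; rfl
    rw [h8] at h4
    rcases hd with h | h <;> rw [h] at h4 <;> omega
  have hz : ExcShape p e d (m Θ) := by
    rcases hd with h | h
    · left
      refine ⟨h, ?_⟩
      rw [h, one_mul] at hcong
      have h2 : ∃ j : ℕ, m Θ = e + p * j := by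
        obtain ⟨c, hc⟩ := hcong
        have h3 : 0 ≤ c := by
          by_contra hneg
          push Not at hneg
          have h4 : (p : ℤ) * c ≤ (p : ℤ) * (-1) :=
            mul_le_mul_of_nonneg_left (by omega) (by positivity)
          have h5 : (0 : ℤ) < m Θ := by exact_mod_cast hm0 Θ
          have h6 : (e : ℤ) < p := by exact_mod_cast hep
          linarith only [hep, hc, h4]
        obtain ⟨j, rfl⟩ := Int.eq_ofNat_of_zero_le h3
        refine ⟨j, ?_⟩
        have : (m Θ : ℤ) = e + p * j := by linarith only [hc]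
        exact_mod_cast this
      obtain ⟨j, hj⟩ := h2
      refine ⟨j, ?_, hj⟩
      by_contra hcon
      obtain ⟨σ, hσ, -⟩ := DetKernel.exists_hom_SL_of_sum hnc P hP
        (isIrr_isCharacter Θ.2) hΘne (S Θ) hS2 hSne hS3 (a := j)
        (Or.inl ⟨h, by rw [hm, hj, hS1]; push_cast; ring⟩) K hloc.le_centralizer hcop
      exact hKbot (DetKernel.eq_bot_of_injective (by omega) σ hσ)
    · right
      refine ⟨h, ?_⟩
      rw [h] at hcong
      have h2 : ∃ j : ℕ, m Θ + e = p * (j + 1) := by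
        obtain ⟨c, hc⟩ := hcong
        have h3 : c < 0 := by
          by_contra hneg
          push Not at hneg
          have h4 : 0 ≤ (p : ℤ) * c := mul_nonneg (by positivity) hneg
          have h5 : (0 : ℤ) < m Θ := by exact_mod_cast hm0 Θ
          have h6 : (0 : ℤ) ≤ e := by positivity
          linarith only [he2, hc, h4]
        obtain ⟨j, hj⟩ := Int.eq_ofNat_of_zero_le (show 0 ≤ -c - 1 by omega)
        refine ⟨j, ?_⟩
        have h4 : c = -(j + 1) := by omega
        rw [h4] at hc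
        have : (m Θ : ℤ) + e = p * (j + 1) := by linarith only [hc]
        exact_mod_cast this
      obtain ⟨j, hj⟩ := h2
      refine ⟨j + 1, ?_, hj⟩
      by_contra hcon
      obtain ⟨σ, hσ, -⟩ := DetKernel.exists_hom_SL_of_sum hnc P hP
        (isIrr_isCharacter Θ.2) hΘne (S Θ) hS2 hSne hS3 (a := j)
        (Or.inr ⟨h, by
          have : ((m Θ + e : ℕ) : ℂ) = ((p * (j + 1) : ℕ) : ℂ) := by rw [hj]
          rw [hm, hS1]
          push_cast at this
          exact this⟩) K hloc.le_centralizer hcop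
      exact hKbot (DetKernel.eq_bot_of_injective (by omega) σ hσ)
  exact Arith.main hχ₁ hpp ht' he2 hk1 hk hNE hm₁ hχ₁ε hshape hdvd hz hzd (hrel1 Θ hΘ)

end Cfsg.Agent.H570.PartA
end

-- part: H570/Numbers
section
/-!
The number of Sylow `p`-subgroups of simple groups with certain orders.
-/

set_option autoImplicit false

namespace Cfsg.Agent.H570.Numbers

open Subgroup Cfsg.Agent.SmallSimple Cfsg.Agent.H570.Arith

/-- The orders of the simple groups with less than `p ^ 2` Sylow `p`-subgroups. -/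
def OrdList (p o : ℕ) : Prop :=
  2 * o = p * (p ^ 2 - 1) ∨ (p = 13 ∧ o = 5616) ∨ o = p * (p - 1) * (p - 2) ∨
    o = p * (p + 1) * (p + 2)

variable {S : Type*} [Group S] [Finite S] [IsSimpleGroup S]

/-- Local data in the form used below. -/
theorem exists_data (hS : ¬ IsMulCommutative S) {p : ℕ} [hp : Fact p.Prime]
    (h1 : p ∣ Nat.card S) (h2 : ¬ p ^ 2 ∣ Nat.card S) :
    ∃ e κ : ℕ, 2 ≤ e ∧ e ∣ p - 1 ∧ 0 < κ ∧
      Nat.card S = Nat.card (Sylow p S) * (p * (e * κ)) ∧
      p + 1 ≤ Nat.card (Sylow p S) ∧ Nat.card (Sylow p S) ≡ 1 [MOD p] ∧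
      (Nat.card (Sylow p S) < p ^ 2 → p ≠ 2 → κ ≠ 1 →
        17 ≤ p ∧ ∃ a b k, Nat.card (Sylow p S) = 1 + k * p ∧ AB p k a b ∧ 3 ≤ a ∧ b ∣ e) := by
  obtain ⟨P⟩ : Nonempty (Sylow p S) := inferInstance
  have hP : Nat.card P = p := PrimeLocal.card_of_not_sq_dvd h1 h2 P
  obtain ⟨e, K, hloc⟩ := PrimeLocal.exists_local hS h1 h2 P
  have hq5 : 5 ≤ Nat.card (Sylow p S) := Embed.five_le_card_sylow hS h1
  have hmod := card_sylow_modEq_one p S
  have h3 : p ∣ Nat.card (Sylow p S) - 1 := (Nat.modEq_iff_dvd' (by omega)).1 hmod.symm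
  have h4 := Nat.le_of_dvd (by omega) h3
  refine ⟨e, Nat.card K, hloc.one_lt, hloc.dvd_pred, Nat.card_pos, ?_, by omega, hmod, ?_⟩
  · rw [hloc.card_eq]; ring
  · intro hn hp2 hK
    obtain ⟨k, hk⟩ := h3
    have hk' : Nat.card (Sylow p S) = 1 + k * p := by
      rw [mul_comm k p, ← hk]; omega
    have hkp : k < p := by
      by_contra hcon
      push Not at hcon
      have : p * p ≤ k * p := Nat.mul_le_mul_right _ hcon
      have h5 : p ^ 2 = p * p := sq p
      omega
    obtain ⟨h5, a, b, h6, h7, h8⟩ := PartA.partA hS hp2 hP hloc hk' hkp hK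
    exact ⟨h5, a, b, k, hk', h6, h7, h8⟩

theorem card_a (hS : ¬ IsMulCommutative S) {p : ℕ} [hp : Fact p.Prime] (hp5 : 5 ≤ p)
    (ho : 2 * Nat.card S = p * (p ^ 2 - 1)) : Nat.card (Sylow p S) = p + 1 := by
  have hpp := hp.out
  obtain ⟨r, rfl⟩ : ∃ r, p = r + 1 := ⟨p - 1, by omega⟩
  have e0 : (r + 1) ^ 2 - 1 = r * (r + 2) := by
    have : (r + 1) ^ 2 = r * (r + 2) + 1 := by ring
    omega
  rw [e0] at ho
  have hcop1 : ¬ (r + 1) ∣ r * (r + 2) := by
    intro h
    have h1 : (r + 1) ∣ r * (r + 2) + 1 := by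
      have : r * (r + 2) + 1 = (r + 1) * (r + 1) := by ring
      rw [this]; exact Dvd.intro _ rfl
    have h2 := (Nat.dvd_add_right h).1 h1
    exact hpp.one_lt.ne' (Nat.dvd_one.1 h2)
  have h1 : (r + 1) ∣ Nat.card S := by
    have h2 : (r + 1) ∣ 2 * Nat.card S := ho ▸ Dvd.intro _ rfl
    refine (hpp.dvd_mul.1 h2).resolve_left fun h => ?_
    have := Nat.le_of_dvd (by norm_num) h
    omega
  have h2 : ¬ (r + 1) ^ 2 ∣ Nat.card S := by
    intro h
    apply hcop1
    have h3 : (r + 1) ^ 2 ∣ (r + 1) * (r * (r + 2)) := ho ▸ h.mul_left 2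
    rw [sq] at h3
    exact Nat.dvd_of_mul_dvd_mul_left (Nat.succ_pos r) h3
  obtain ⟨e, κ, he2, hed, hκ, hcard, hn1, hmod, -⟩ := exists_data hS h1 h2
  set n := Nat.card (Sylow (r + 1) S) with hn
  rw [hcard] at ho
  have h3 : n * (2 * (e * κ)) = r * (r + 2) := by
    apply Nat.eq_of_mul_eq_mul_left (show 0 < r + 1 by omega)
    rw [← ho]; ring
  -- `2 e κ ≡ -1`
  have h4 : (r + 1) ∣ 2 * (e * κ) + 1 := by
    obtain ⟨j, hj⟩ := (Nat.modEq_iff_dvd' (show 1 ≤ n by omega)).1 hmod.symm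
    have hj' : n = (r + 1) * j + 1 := by omega
    have h5 : (r + 1) ∣ n * (2 * (e * κ)) + 1 := by
      rw [h3]
      exact ⟨r + 1, by ring⟩
    have h6 : n * (2 * (e * κ)) + 1 = (r + 1) * (j * (2 * (e * κ))) + (2 * (e * κ) + 1) := by
      rw [hj']; ring
    rw [h6] at h5
    exact (Nat.dvd_add_right (Dvd.intro _ rfl)).1 h5
  obtain ⟨c, hc⟩ := h4
  have hc0 : 0 < c := by
    rcases Nat.eq_zero_or_pos c with h | h
    · rw [h, mul_zero] at hc; omega
    · exact h
  -- `2 e κ ≤ r`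
  have h5 : 2 * (e * κ) ≤ r := by
    by_contra hcon
    push Not at hcon
    have : (r + 2) * (r + 1) ≤ n * (2 * (e * κ)) := Nat.mul_le_mul hn1 hcon
    linarith only [h3, this]
  have h6 : c = 1 := by
    by_contra hne
    have : (r + 1) * 2 ≤ (r + 1) * c := Nat.mul_le_mul_left _ (by omega)
    omega
  rw [h6, mul_one] at hc
  have h7 : 2 * (e * κ) = r := by omega
  rw [h7] at h3
  have h8 : n = r + 2 := Nat.eq_of_mul_eq_mul_left (show 0 < r by omega) (by rw [← h3]; ring)
  omega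

/-- Common part: `n * c = m` with `m ≡ 2`, `c ≥ 2`. -/
theorem aux_two {p n c m : ℕ} (hn : n ≡ 1 [MOD p]) (hm : m ≡ 2 [MOD p]) (h : n * c = m) :
    c ≡ 2 [MOD p] := by
  have h1 : n * c ≡ 1 * c [MOD p] := hn.mul_right c
  rw [h, one_mul] at h1
  exact h1.symm.trans hm

theorem card_b (hS : ¬ IsMulCommutative S) {p : ℕ} [hp : Fact p.Prime] (hp5 : 5 ≤ p)
    (ho : Nat.card S = p * (p - 1) * (p - 2)) :
    2 * Nat.card (Sylow p S) = (p - 1) * (p - 2) := by
  have hpp := hp.out
  obtain ⟨r, rfl⟩ : ∃ r, p = r + 2 := ⟨p - 2, by omega⟩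
  rw [show r + 2 - 1 = r + 1 by omega, show r + 2 - 2 = r by omega, mul_assoc] at ho
  rw [show r + 2 - 1 = r + 1 by omega, show r + 2 - 2 = r by omega]
  have hm : (r + 1) * r ≡ 2 [MOD (r + 2)] := by
    rcases Nat.lt_or_ge ((r + 1) * r) 2 with h | h
    · have : r = 0 ∨ r = 1 := by
        rcases Nat.lt_or_ge r 2 with h' | h'
        · omega
        · have : 3 * 2 ≤ (r + 1) * r := Nat.mul_le_mul (by omega) h'
          omega
      omega
    · symm
      rw [Nat.modEq_iff_dvd' h]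
      refine ⟨r - 1, ?_⟩
      obtain ⟨x, rfl⟩ : ∃ x, r = x + 1 := ⟨r - 1, by omega⟩
      rw [Nat.add_sub_cancel]
      have : (x + 1 + 1) * (x + 1) = (x + 1 + 2) * x + 2 := by ring
      omega
  have hnd : ¬ (r + 2) ∣ (r + 1) * r := by
    intro h
    have h1 : (r + 1) * r ≡ 0 [MOD (r + 2)] := (Nat.modEq_zero_iff_dvd).2 h
    have h2 := hm.symm.trans h1
    have h3 := Nat.le_of_dvd (by norm_num) ((Nat.modEq_zero_iff_dvd).1 h2)
    omega
  have h1 : (r + 2) ∣ Nat.card S := ho ▸ Dvd.intro _ rfl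
  have h2 : ¬ (r + 2) ^ 2 ∣ Nat.card S := by
    intro h
    apply hnd
    rw [ho, sq] at h
    exact Nat.dvd_of_mul_dvd_mul_left (by omega) h
  obtain ⟨e, κ, he2, hed, hκ, hcard, hn1, hmod, -⟩ := exists_data hS h1 h2
  set n := Nat.card (Sylow (r + 2) S) with hn
  rw [hcard] at ho
  have h3 : n * (e * κ) = (r + 1) * r := by
    apply Nat.eq_of_mul_eq_mul_left (show 0 < r + 2 by omega)
    rw [← ho]; ring
  have h4 := aux_two hmod hm h3
  have h5 : e * κ < r + 2 := by
    by_contra hcon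
    push Not at hcon
    have : (r + 3) * (r + 2) ≤ n * (e * κ) := Nat.mul_le_mul hn1 hcon
    linarith only [h3, this]
  have h6 : e * κ = 2 := Nat.ModEq.eq_of_lt_of_lt h4 h5 (by omega)
  rw [h6] at h3
  omega

theorem card_c (hS : ¬ IsMulCommutative S) {p : ℕ} [hp : Fact p.Prime] (hp5 : 5 ≤ p)
    (ho : Nat.card S = p * (p + 1) * (p + 2)) :
    2 * Nat.card (Sylow p S) = (p + 1) * (p + 2) := by
  have hpp := hp.out
  rw [mul_assoc] at ho
  have hm : (p + 1) * (p + 2) ≡ 2 [MOD p] := by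
    have : (p + 1) * (p + 2) = 2 + p * (p + 3) := by ring
    rw [this]
    simp [Nat.ModEq]
  have hnd : ¬ p ∣ (p + 1) * (p + 2) := by
    intro h
    have h1 : (p + 1) * (p + 2) ≡ 0 [MOD p] := (Nat.modEq_zero_iff_dvd).2 h
    have h2 := hm.symm.trans h1
    have h3 := Nat.le_of_dvd (by norm_num) ((Nat.modEq_zero_iff_dvd).1 h2)
    omega
  have h1 : p ∣ Nat.card S := ho ▸ Dvd.intro _ rfl
  have h2 : ¬ p ^ 2 ∣ Nat.card S := by
    intro h
    apply hnd
    rw [ho, sq] at h
    exact Nat.dvd_of_mul_dvd_mul_left (by omega) h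
  obtain ⟨e, κ, he2, hed, hκ, hcard, hn1, hmod, hA⟩ := exists_data hS h1 h2
  set n := Nat.card (Sylow p S) with hn
  rw [hcard] at ho
  have h3 : n * (e * κ) = (p + 1) * (p + 2) := by
    apply Nat.eq_of_mul_eq_mul_left hpp.pos
    rw [← ho]; ring
  have h4 := aux_two hmod hm h3
  have h5 : e * κ ≤ p + 2 := by
    by_contra hcon
    push Not at hcon
    have : (p + 1) * (p + 3) ≤ n * (e * κ) := Nat.mul_le_mul hn1 hcon
    linarith only [h3, this]
  have hek : 2 ≤ e * κ := by nlinarith only [he2, hκ]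
  have hep : e ≤ p - 1 := Nat.le_of_dvd (by omega) hed
  have h6 : e * κ = 2 ∨ e * κ = p + 2 := by
    obtain ⟨c, hc⟩ := (Nat.modEq_iff_dvd' hek).1 h4.symm
    rcases Nat.lt_or_ge c 2 with h | h
    · interval_cases c
      · left; omega
      · right; omega
    · exfalso
      have : p * 2 ≤ p * c := Nat.mul_le_mul_left _ h
      omega
  rcases h6 with h6 | h6
  · rw [h6] at h3
    omega
  · exfalso
    have hκ1 : κ ≠ 1 := by
      rintro rfl
      omega
    have hn' : n = p + 1 := by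
      rw [h6] at h3
      exact Nat.eq_of_mul_eq_mul_right (show 0 < p + 2 by omega) h3
    obtain ⟨-, a, b, k, hk, hab, ha3, hbe⟩ := hA (by rw [hn']; nlinarith only [hp5]) (by omega) hκ1
    -- `e` divides `3`
    have he3 : e ∣ 3 := by
      have h7 : e ∣ p + 2 := h6 ▸ Dvd.intro _ rfl
      have h8 : p + 2 = (p - 1) + 3 := by (clear * - hp5; omega)
      rw [h8] at h7
      exact (Nat.dvd_add_right hed).1 h7
    have hb3 : b ≤ 3 := Nat.le_of_dvd (by norm_num) (hbe.trans he3)
    have hb := hab.le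
    have hab' := hab.mul
    have ha' : a = 3 := by omega
    have hb' : b = 3 := by omega
    rw [ha', hb'] at hab'
    have : p = 10 := by (clear * - hab'; omega)
    rw [this] at hpp
    revert hpp; norm_num

theorem card_d (hS : ¬ IsMulCommutative S) [Fact (Nat.Prime 13)]
    (ho : Nat.card S = 5616) : Nat.card (Sylow 13 S) = 144 := by
  obtain ⟨e, κ, he2, hed, hκ, hcard, hn1, hmod, hA⟩ :=
    exists_data hS (p := 13) (by rw [ho]; norm_num) (by rw [ho]; norm_num)
  set n := Nat.card (Sylow 13 S) with hn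
  rw [ho] at hcard
  have h3 : n * (e * κ) = 432 := by
    have : n * (13 * (e * κ)) = 13 * (n * (e * κ)) := by ring
    omega
  have hn216 : n ≤ 216 := by
    have hek : 2 ≤ e * κ := by nlinarith only [he2, hκ]
    have : n * 2 ≤ n * (e * κ) := Nat.mul_le_mul_left _ hek
    omega
  have hnd : n ∣ 432 := Dvd.intro _ h3
  have hmod' : n % 13 = 1 := hmod
  have hκ1 : n < 169 → κ = 1 := by
    intro hlt
    by_contra hne
    obtain ⟨h17, -⟩ := hA (by simpa using hlt) (by norm_num) hne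
    omega
  have he12 : e ≤ 12 := Nat.le_of_dvd (by norm_num) hed
  clear hA
  have key : n = 27 ∨ n = 144 := by
    clear_value n
    interval_cases n <;> first | (clear * - hcard hmod'; omega) | (exfalso; revert hnd; decide)
  rcases key with h | h
  · exfalso
    have h5 := hκ1 (by omega)
    rw [h, h5] at h3
    omega
  · exact h

end Cfsg.Agent.H570.Numbers
end

-- part: H570/PartB
section
/-!
A simple group with less than `p ^ 2` Sylow `p`-subgroups of order `p` (`p ≥ 17`) is generated by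
three of them (assuming the classification of such groups for smaller orders), and
`|C(P) : P| ≤ (k e)²`.
-/

set_option autoImplicit false

namespace Cfsg.Agent.H570.PartB

open Subgroup Cfsg.Agent.H571.SylowNumber Cfsg.Agent.H570.PNil Cfsg.Agent.H570.Gen
  Cfsg.Agent.H570.Quot Cfsg.Agent.H570.Numbers Cfsg.Agent.SmallSimple

universe u

variable {G : Type u} [Group G] [Finite G] {p : ℕ} [hp : Fact p.Prime]

theorem mem_smul_iff {P : Sylow p G} {g x : G} : x ∈ (g • P : Sylow p G) ↔ g⁻¹ * x * g ∈ P := by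
  rw [← SetLike.mem_coe, Sylow.coe_smul, Set.mem_smul_set_iff_inv_smul_mem, SetLike.mem_coe]
  have h3 : (MulAut.conj g)⁻¹ • x = g⁻¹ * x * g := by
    rw [← map_inv]; simp [MulAut.smul_def]
  rw [h3]

/-- A subgroup of a simple group containing all Sylow `p`-subgroups is the whole group. -/
theorem eq_top_of_forall_le [IsSimpleGroup G] (hd : p ∣ Nat.card G) {L : Subgroup G}
    (h : ∀ Q : Sylow p G, (Q : Subgroup G) ≤ L) : L = ⊤ := by
  obtain ⟨P⟩ : Nonempty (Sylow p G) := inferInstance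
  have h1 : Subgroup.normalClosure (P : Set G) ≤ L := by
    refine (Subgroup.closure_le L).2 ?_
    intro b hb
    rw [Group.mem_conjugatesOfSet_iff] at hb
    obtain ⟨a, ha, hab⟩ := hb
    obtain ⟨c, rfl⟩ := isConj_iff.1 hab
    refine h (c • P) ?_
    change c * a * c⁻¹ ∈ (c • P : Sylow p G)
    rw [mem_smul_iff]
    have : c⁻¹ * (c * a * c⁻¹) * c = a := by group
    rw [this]; exact ha
  rcases (Subgroup.normalClosure_normal (s := (P : Set G))).eq_bot_or_eq_top with h2 | h2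
  · exfalso
    have h3 : (P : Subgroup G) ≤ ⊥ := h2 ▸ Subgroup.subset_normalClosure
    exact P.ne_bot_of_dvd_card hd (le_bot_iff.1 h3)
  · exact top_le_iff.1 (h2 ▸ h1)

/-- A simple non-abelian group has no normal `p`-complement of index `p`. -/
theorem not_isPNil [IsSimpleGroup G] (hG : ¬ IsMulCommutative G) : ¬ IsPNil p G := by
  rintro ⟨M, hM, hMp, hMi⟩
  rcases hM.eq_bot_or_eq_top with h | h
  · rw [h, Subgroup.index_bot] at hMi
    exact Embed.card_not_prime_of_not_comm hG (hMi ▸ hp.out)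
  · rw [h, Subgroup.index_top] at hMi
    exact hp.out.one_lt.ne hMi

/-- If `X` is a normal subgroup of `L` of order divisible by `p`, it contains all the Sylow
`p`-subgroups. -/
theorem normal_eq_top (hord : ∀ P : Sylow p G, Nat.card P = p) {L : Subgroup G}
    (P : Sylow p G) (hPL : (P : Subgroup G) ≤ L)
    (hgen : ∀ X : Subgroup G, (∀ Q : Sylow p G, (Q : Subgroup G) ≤ L → (Q : Subgroup G) ≤ X) →
      L ≤ X) (X : Subgroup L) (hX : X.Normal) (hd : p ∣ Nat.card X) : X = ⊤ := by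
  have h1 : L ≤ X.map L.subtype := by
    apply hgen
    intro Q hQ
    -- a Sylow subgroup of `X`
    obtain ⟨R⟩ : Nonempty (Sylow p X) := inferInstance
    have h2 : IsPGroup p ((R : Subgroup X).map X.subtype) := R.isPGroup'.map _
    obtain ⟨R', hR'⟩ := h2.exists_le_sylow
    obtain ⟨t, ht⟩ := MulAction.exists_smul_eq L R' (Q.subtype hQ)
    -- `R = R'` by orders
    have h3 : Nat.card ((R : Subgroup X).map X.subtype) = Nat.card (R : Subgroup X) :=
      Nat.card_congr ((R : Subgroup X).equivMapOfInjective X.subtype X.subtype_injective).symm.toEquiv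
    have h4 : p ∣ Nat.card (R : Subgroup X) := by
      obtain ⟨k, hk⟩ := (IsPGroup.iff_card).1 R.isPGroup'
      have hk0 : k ≠ 0 := by
        rintro rfl
        rw [pow_zero] at hk
        exact R.ne_bot_of_dvd_card hd (Subgroup.card_eq_one.1 hk)
      rw [hk]
      exact dvd_pow_self p hk0
    have h5 : Nat.card (R' : Subgroup L) = p := by
      have h6 : Nat.card (R' : Subgroup L) = Nat.card (P.subtype hPL : Subgroup L) := by
        rw [R'.card_eq_multiplicity, (P.subtype hPL).card_eq_multiplicity]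
      rw [h6]
      exact (Nat.card_congr (Subgroup.subgroupOfEquivOfLe hPL).toEquiv).trans (hord P)
    have h6 : (R : Subgroup X).map X.subtype = (R' : Subgroup L) := by
      apply Subgroup.eq_of_le_of_card_ge hR'
      rw [h5, h3]
      exact Nat.le_of_dvd Nat.card_pos h4
    have h7 : (R' : Subgroup L) ≤ X := h6 ▸ Subgroup.map_subtype_le _
    intro y hy
    have h8 : (⟨y, hQ hy⟩ : L) ∈ (Q.subtype hQ : Subgroup L) := hy
    have h9 : (⟨y, hQ hy⟩ : L) ∈ (t • R' : Sylow p L) := by rw [ht]; exact h8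
    rw [mem_smul_iff] at h9
    have h10 := hX.conj_mem _ (h7 h9) t
    have h11 : t * (t⁻¹ * ⟨y, hQ hy⟩ * t) * t⁻¹ = ⟨y, hQ hy⟩ := by group
    rw [h11] at h10
    exact ⟨_, h10, rfl⟩
  rw [eq_top_iff]
  intro x _
  obtain ⟨y, hy, hyx⟩ := h1 x.2
  have : y = x := Subtype.ext hyx
  rw [← this]
  exact hy

/-- Order and Sylow number. -/
def Row (p o n : ℕ) : Prop :=
  (2 * o = p * (p ^ 2 - 1) ∧ n = p + 1) ∨ (o = p * (p - 1) * (p - 2) ∧ 2 * n = (p - 1) * (p - 2)) ∨
    (o = p * (p + 1) * (p + 2) ∧ 2 * n = (p + 1) * (p + 2))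

theorem row_of_ordList {S : Type*} [Group S] [Finite S] [IsSimpleGroup S]
    (hS : ¬ IsMulCommutative S) (hp17 : 17 ≤ p) (h : OrdList p (Nat.card S)) :
    Row p (Nat.card S) (Nat.card (Sylow p S)) := by
  rcases h with h | h | h | h
  · exact Or.inl ⟨h, card_a hS (by omega) h⟩
  · omega
  · exact Or.inr (Or.inl ⟨h, card_b hS (by omega) h⟩)
  · exact Or.inr (Or.inr ⟨h, card_c hS (by omega) h⟩)

omit hp in
theorem row_arith {o₁ o₂ n₁ n₂ : ℕ} (hp17 : 17 ≤ p) (h₁ : Row p o₁ n₁) (h₂ : Row p o₂ n₂)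
    (hd : o₁ ∣ o₂) : n₁ = n₂ := by
  obtain ⟨q, rfl⟩ : ∃ q, p = q + 17 := ⟨p - 17, by omega⟩
  have e0 : (q + 17) ^ 2 - 1 = (q + 16) * (q + 18) := by
    have : (q + 17) ^ 2 = (q + 16) * (q + 18) + 1 := by ring
    omega
  unfold Row at h₁ h₂
  rw [e0, show q + 17 - 1 = q + 16 by omega, show q + 17 - 2 = q + 15 by omega] at h₁ h₂
  have hd2 : 2 * o₁ ∣ 2 * o₂ := Nat.mul_dvd_mul_left 2 hd
  rcases h₁ with ⟨h1, h2⟩ | ⟨h1, h2⟩ | ⟨h1, h2⟩ <;> rcases h₂ with ⟨h3, h4⟩ | ⟨h3, h4⟩ | ⟨h3, h4⟩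
  · omega
  · exfalso
    rw [h1, h3] at hd2
    have h5 : (q + 17) * (q + 16) * (q + 18) ∣ (q + 17) * (q + 16) * (2 * (q + 15)) := by
      have e1 : (q + 17) * (q + 16) * (q + 18) = (q + 17) * ((q + 16) * (q + 18)) := by ring
      have e2 : (q + 17) * (q + 16) * (2 * (q + 15)) = 2 * ((q + 17) * (q + 16) * (q + 15)) := by ring
      rw [e1, e2]; exact hd2
    have h6 := Nat.dvd_of_mul_dvd_mul_left (by positivity) h5
    have h7 : (q + 18) ∣ 2 * (q + 15) + 6 := ⟨2, by ring⟩
    have h8 := Nat.le_of_dvd (by norm_num) ((Nat.dvd_add_right h6).1 h7)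
    omega
  · exfalso
    rw [h1, h3] at hd2
    have h5 : (q + 17) * (q + 18) * (q + 16) ∣ (q + 17) * (q + 18) * (2 * (q + 19)) := by
      have e1 : (q + 17) * (q + 18) * (q + 16) = (q + 17) * ((q + 16) * (q + 18)) := by ring
      have e2 : (q + 17) * (q + 18) * (2 * (q + 19)) =
        2 * ((q + 17) * (q + 17 + 1) * (q + 17 + 2)) := by ring
      rw [e1, e2]; exact hd2
    have h6 := Nat.dvd_of_mul_dvd_mul_left (by positivity) h5
    have h7 : 2 * (q + 19) = 6 + (q + 16) * 2 := by ring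
    rw [h7] at h6
    have h8 := Nat.le_of_dvd (by norm_num) ((Nat.dvd_add_left (Dvd.intro _ rfl)).1 h6)
    omega
  · exfalso
    rw [h1, h3] at hd2
    have h5 : (q + 17) * (q + 16) * (2 * (q + 15)) ∣ (q + 17) * (q + 16) * (q + 18) := by
      have e1 : (q + 17) * (q + 16) * (q + 18) = (q + 17) * ((q + 16) * (q + 18)) := by ring
      have e2 : (q + 17) * (q + 16) * (2 * (q + 15)) = 2 * ((q + 17) * (q + 16) * (q + 15)) := by ring
      rw [e1, e2]; exact hd2
    have h6 := Nat.dvd_of_mul_dvd_mul_left (by positivity) h5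
    have h8 := Nat.le_of_dvd (by positivity) h6
    omega
  · omega
  · exfalso
    rw [h1, h3] at hd
    have h5 : (q + 17) * ((q + 16) * (q + 15)) ∣ (q + 17) * ((q + 18) * (q + 19)) := by
      have e1 : (q + 17) * ((q + 16) * (q + 15)) = (q + 17) * (q + 16) * (q + 15) := by ring
      have e2 : (q + 17) * ((q + 18) * (q + 19)) = (q + 17) * (q + 17 + 1) * (q + 17 + 2) := by ring
      rw [e1, e2]; exact hd
    have h6 := Nat.dvd_of_mul_dvd_mul_left (by positivity) h5
    have h7 : (q + 18) * (q + 19) = 6 * (q + 17) + (q + 16) * (q + 15) := by ring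
    rw [h7] at h6
    have h8 := Nat.le_of_dvd (by positivity) ((Nat.dvd_add_left dvd_rfl).1 h6)
    nlinarith only [h8]
  · exfalso
    have h5 := Nat.le_of_dvd (by rw [h3]; (clear * -; positivity)) hd2
    rw [h1, h3] at h5
    have e1 : (q + 17) * ((q + 16) * (q + 18)) < 2 * ((q + 17) * (q + 17 + 1) * (q + 17 + 2)) := by
      have e2 : 2 * ((q + 17) * (q + 17 + 1) * (q + 17 + 2)) =
        (q + 17) * (q + 18) * (2 * (q + 19)) := by ring
      have e3 : (q + 17) * ((q + 16) * (q + 18)) = (q + 17) * (q + 18) * (q + 16) := by ring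
      rw [e2, e3]
      exact Nat.mul_lt_mul_of_pos_left (by omega) (by (clear * -; positivity))
    omega
  · exfalso
    have h5 := Nat.le_of_dvd (by rw [h3]; (clear * -; positivity)) hd
    rw [h1, h3] at h5
    have e1 : (q + 17) * (q + 16) * (q + 15) < (q + 17) * (q + 17 + 1) * (q + 17 + 2) := by
      rw [mul_assoc, mul_assoc]
      refine Nat.mul_lt_mul_of_pos_left ?_ (by positivity)
      exact Nat.mul_lt_mul'' (by omega) (by omega)
    omega
  · omega

/-- **Generation by three Sylow subgroups.** -/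
theorem exists_three [IsSimpleGroup G] (hG : ¬ IsMulCommutative G) (hp17 : 17 ≤ p)
    (hd : p ∣ Nat.card G) (hord : ∀ P : Sylow p G, Nat.card P = p)
    (hn : Nat.card (Sylow p G) < p ^ 2)
    (IH : ∀ (S : Type u) [Group S] [Finite S] [IsSimpleGroup S], ¬ IsMulCommutative S →
      Nat.card S < Nat.card G → p ∣ Nat.card S → Nat.card (Sylow p S) < p ^ 2 →
      OrdList p (Nat.card S)) :
    ∃ P Q R : Sylow p G, (P : Subgroup G) ⊔ Q ⊔ R = ⊤ := by
  have hlt : ∀ (S : Sylow p G) (L : Subgroup G), (S : Subgroup G) ≤ L →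
      Nat.card (Sylow p L) < p ^ 2 := by
    intro S L hS
    refine lt_of_le_of_lt ?_ hn
    have h1 := card_sylow_le S hS (le_top : L ≤ ⊤)
    rwa [card_sylow_congr (Subgroup.topEquiv : (⊤ : Subgroup G) ≃* G)] at h1
  -- two distinct Sylow subgroups
  obtain ⟨P₀, Q₀, hPQ₀⟩ : ∃ P Q : Sylow p G, P ≠ Q := by
    have h1 : 1 < Nat.card (Sylow p G) :=
      lt_of_lt_of_le (by norm_num) (Embed.five_le_card_sylow hG hd)
    have h2 := Finite.one_lt_card_iff_nontrivial.1 h1
    exact exists_pair_ne _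
  -- a pair which does not generate a group with a normal `p`-complement
  obtain ⟨P, Q, hPQ, hnil⟩ : ∃ P Q : Sylow p G, P ≠ Q ∧
      ¬ IsPNil p ((P : Subgroup G) ⊔ Q : Subgroup G) := by
    by_contra hcon
    push Not at hcon
    have h1 := linear_space hord hn hcon hPQ₀
    have h2 := eq_top_of_forall_le hd h1
    have h3 := hcon P₀ Q₀ hPQ₀
    rw [h2] at h3
    exact not_isPNil hG (isPNil_congr Subgroup.topEquiv h3)
  by_cases h1 : (P : Subgroup G) ⊔ Q = ⊤
  · exact ⟨P, Q, P, by rw [h1, top_sup_eq]⟩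
  obtain ⟨R, hR⟩ : ∃ R : Sylow p G, ¬ (R : Subgroup G) ≤ (P : Subgroup G) ⊔ Q := by
    by_contra hcon
    push Not at hcon
    exact h1 (eq_top_of_forall_le hd hcon)
  refine ⟨P, Q, R, ?_⟩
  by_contra h2
  set L₁ : Subgroup G := (P : Subgroup G) ⊔ Q with hL₁
  set L₂ : Subgroup G := L₁ ⊔ R with hL₂
  have hPL₁ : (P : Subgroup G) ≤ L₁ := le_sup_left
  have h12 : L₁ ≤ L₂ := le_sup_left
  have hPL₂ : (P : Subgroup G) ≤ L₂ := hPL₁.trans h12
  have hnil₂ : ¬ IsPNil p L₂ := fun h => hnil (isPNil_of_le P (hord P) hPL₁ h12 h).1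
  have hgen₁ : ∀ X : Subgroup G, (∀ S : Sylow p G, (S : Subgroup G) ≤ L₁ → (S : Subgroup G) ≤ X) →
      L₁ ≤ X := fun X hX => sup_le (hX P hPL₁) (hX Q le_sup_right)
  have hgen₂ : ∀ X : Subgroup G, (∀ S : Sylow p G, (S : Subgroup G) ≤ L₂ → (S : Subgroup G) ≤ X) →
      L₂ ≤ X := fun X hX => sup_le (hgen₁ X fun S hS => hX S (hS.trans h12)) (hX R le_sup_right)
  have hcl : ∀ L : Subgroup G, L ≠ ⊤ → Nat.card L < Nat.card G := by
    intro L hL
    rcases (Nat.le_of_dvd Nat.card_pos (Subgroup.card_subgroup_dvd_card L)).lt_or_eq with h | h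
    · exact h
    · exact absurd (Subgroup.eq_top_of_card_eq L h) hL
  have hsub : ∀ (L : Subgroup G) (hPL : (P : Subgroup G) ≤ L), Nat.card (P.subtype hPL) = p :=
    fun L hPL => (Nat.card_congr (Subgroup.subgroupOfEquivOfLe hPL).toEquiv).trans (hord P)
  obtain ⟨M₁, hM₁n, hM₁s, hM₁c, hM₁d, hM₁N, hM₁max⟩ := exists_simple_quot (P.subtype hPL₁)
    (hsub L₁ hPL₁) (normal_eq_top hord P hPL₁ hgen₁) hnil (hlt P L₁ hPL₁)
  obtain ⟨M₂, hM₂n, hM₂s, hM₂c, hM₂d, hM₂N, hM₂max⟩ := exists_simple_quot (P.subtype hPL₂)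
    (hsub L₂ hPL₂) (normal_eq_top hord P hPL₂ hgen₂) hnil₂ (hlt P L₂ hPL₂)
  have hquot : ∀ (L : Subgroup G) (M : Subgroup L) [M.Normal], L ≠ ⊤ →
      Nat.card (L ⧸ M) < Nat.card G := by
    intro L M _ hL
    refine lt_of_le_of_lt ?_ (hcl L hL)
    exact Nat.card_le_card_of_surjective _ (QuotientGroup.mk'_surjective M)
  have o₁ := IH (L₁ ⧸ M₁) hM₁c (hquot L₁ M₁ h1) hM₁d (by rw [hM₁N]; exact hlt P L₁ hPL₁)
  have o₂ := IH (L₂ ⧸ M₂) hM₂c (hquot L₂ M₂ h2) hM₂d (by rw [hM₂N]; exact hlt P L₂ hPL₂)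
  have r₁ := row_of_ordList hM₁c hp17 o₁
  have r₂ := row_of_ordList hM₂c hp17 o₂
  have hM₂p : ¬ p ∣ Nat.card M₂ := by
    intro h
    have h3 := normal_eq_top hord P hPL₂ hgen₂ M₂ hM₂n h
    have h4 : Nat.card (L₂ ⧸ M₂) = 1 := by
      rw [h3]
      exact Subgroup.index_top
    rw [h4] at hM₂d
    exact hp.out.one_lt.ne' (Nat.dvd_one.1 hM₂d)
  have hdv := card_quot_dvd h12 M₁ M₂ hM₁max hM₂p
  have h5 := row_arith hp17 r₁ r₂ hdv
  rw [hM₁N, hM₂N] at h5
  exact hR (le_of_card_eq P hPL₁ h12 h5 R le_sup_right)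

end Cfsg.Agent.H570.PartB
end

-- part: H570/Cent
section
/-!
The bound `|K| ≤ (k e)²` for the `p`-complement `K` of `C(P)`.
-/

set_option autoImplicit false

namespace Cfsg.Agent.H570.Cent

open Subgroup Cfsg.Agent.H570.PNil Cfsg.Agent.H570.Gen Cfsg.Agent.H570.PartB
  Cfsg.Agent.SmallSimple

universe u

variable {G : Type u} [Group G] [Finite G] {p : ℕ} [hp : Fact p.Prime]

omit [Finite G] hp in
theorem map_centralizer (P : Subgroup G) (g : G) :
    (centralizer (P : Set G)).map (MulAut.conj g).toMonoidHom =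
      centralizer ((P.map (MulAut.conj g).toMonoidHom : Subgroup G) : Set G) := by
  ext x
  constructor
  · rintro ⟨y, hy, rfl⟩
    refine mem_centralizer_iff.2 ?_
    rintro _ ⟨z, hz, rfl⟩
    have := mem_centralizer_iff.1 hy z hz
    change g * z * g⁻¹ * (g * y * g⁻¹) = g * y * g⁻¹ * (g * z * g⁻¹)
    calc g * z * g⁻¹ * (g * y * g⁻¹) = g * (z * y) * g⁻¹ := by group
      _ = g * (y * z) * g⁻¹ := by rw [this]
      _ = _ := by group
  · intro hx
    refine ⟨g⁻¹ * x * g, mem_centralizer_iff.2 ?_, ?_⟩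
    · intro z hz
      have := mem_centralizer_iff.1 hx (g * z * g⁻¹) ⟨z, hz, rfl⟩
      calc z * (g⁻¹ * x * g) = g⁻¹ * ((g * z * g⁻¹) * x) * g := by group
        _ = g⁻¹ * (x * (g * z * g⁻¹)) * g := by rw [this]
        _ = _ := by group
    · change g * (g⁻¹ * x * g) * g⁻¹ = x
      group

omit [Finite G] hp in
theorem map_normalizer (P : Subgroup G) (g : G) :
    (normalizer (P : Set G)).map (MulAut.conj g).toMonoidHom =
      normalizer ((P.map (MulAut.conj g).toMonoidHom : Subgroup G) : Set G) := by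
  have hmem : ∀ z : G, z ∈ P.map (MulAut.conj g).toMonoidHom ↔ g⁻¹ * z * g ∈ P := by
    intro z
    constructor
    · rintro ⟨w, hw, rfl⟩
      change g⁻¹ * (g * w * g⁻¹) * g ∈ P
      have : g⁻¹ * (g * w * g⁻¹) * g = w := by group
      rw [this]; exact hw
    · intro h
      refine ⟨_, h, ?_⟩
      change g * (g⁻¹ * z * g) * g⁻¹ = z
      group
  ext x
  constructor
  · rintro ⟨y, hy, rfl⟩
    refine mem_normalizer_iff.2 fun z => ?_
    rw [hmem, hmem, mem_normalizer_iff.1 hy]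
    have : g⁻¹ * ((MulAut.conj g).toMonoidHom y * z * ((MulAut.conj g).toMonoidHom y)⁻¹) * g =
        y * (g⁻¹ * z * g) * y⁻¹ := by
      change g⁻¹ * ((g * y * g⁻¹) * z * (g * y * g⁻¹)⁻¹) * g = _
      group
    rw [this]
  · intro hx
    refine ⟨g⁻¹ * x * g, mem_normalizer_iff.2 fun z => ?_, ?_⟩
    · have h1 := mem_normalizer_iff.1 hx (g * z * g⁻¹)
      rw [hmem, hmem] at h1
      have e1 : g⁻¹ * (g * z * g⁻¹) * g = z := by group
      have e2 : g⁻¹ * (x * (g * z * g⁻¹) * x⁻¹) * g = g⁻¹ * x * g * z * (g⁻¹ * x * g)⁻¹ := by group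
      rw [e1, e2] at h1
      exact h1
    · change g * (g⁻¹ * x * g) * g⁻¹ = x
      group

/-- `|N(Q) : C(Q)|` does not depend on the Sylow subgroup. -/
theorem relIndex_eq (P Q : Sylow p G) :
    (centralizer (Q : Set G)).relIndex (normalizer (Q : Set G)) =
      (centralizer (P : Set G)).relIndex (normalizer (P : Set G)) := by
  obtain ⟨g, hg⟩ := MulAction.exists_smul_eq G P Q
  have h1 : (Q : Subgroup G) = (P : Subgroup G).map (MulAut.conj g).toMonoidHom := by
    rw [← hg]; rfl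
  change (centralizer ((Q : Subgroup G) : Set G)).relIndex (normalizer ((Q : Subgroup G) : Set G)) =
      (centralizer ((P : Subgroup G) : Set G)).relIndex (normalizer ((P : Subgroup G) : Set G))
  rw [h1, ← map_centralizer, ← map_normalizer]
  exact Subgroup.relIndex_map_map_of_injective _ _ (MulAut.conj g).injective

omit [Finite G] in
/-- An element `u c` (`u ∈ P`, `c ∈ C(P)` of order prime to `p`) normalizing a Sylow subgroup
`Q ≠ P` has `u = 1`. -/
theorem eq_one_of_mem_normalizer {P Q : Sylow p G} (hP : Nat.card P = p) (hPQ : P ≠ Q)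
    {u c : G} (hu : u ∈ P) (hc : c ∈ centralizer (P : Set G)) {m : ℕ} (hm : ¬ p ∣ m)
    (hcm : c ^ m = 1) (h : u * c ∈ normalizer (Q : Set G)) : u = 1 := by
  by_contra hu1
  have hcomm : Commute u c := mem_centralizer_iff.1 hc u hu
  have h1 : u ^ m ∈ normalizer (Q : Set G) := by
    have h2 := pow_mem h m
    rwa [hcomm.mul_pow, hcm, mul_one] at h2
  have hP' : Nat.card (P : Subgroup G) = p := hP
  have hum : u ^ m ≠ 1 := by
    intro h2
    have h3 : orderOf u = p := by
      have h4 : orderOf u ∣ p := by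
        rw [← hP', ← Subgroup.orderOf_mk u hu]
        exact orderOf_dvd_natCard _
      rcases (Nat.dvd_prime hp.out).1 h4 with h5 | h5
      · exact absurd (orderOf_eq_one_iff.1 h5) hu1
      · exact h5
    exact hm (h3 ▸ orderOf_dvd_of_pow_eq_one h2)
  have h2 : (P : Subgroup G) ≤ normalizer (Q : Set G) := by
    intro y hy
    have h3 := SylowPrime.mem_zpowers_of_card_prime hp.out hP' (pow_mem hu m) hum hy
    obtain ⟨j, rfl⟩ := Subgroup.mem_zpowers_iff.1 h3
    exact zpow_mem h1 j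
  have h3 : (P : Subgroup G) ≤ Q := by
    have h4 := IsPGroup.inf_normalizer_sylow P.isPGroup' Q
    have h5 : (P : Subgroup G) ⊓ normalizer (Q : Set G) = P := inf_eq_left.2 h2
    rw [h5] at h4
    exact inf_eq_left.1 h4.symm
  exact hPQ (Sylow.ext (P.3 Q.2 h3).symm)

/-- `|C : N_C(Q)| ≤ k`. -/
theorem relIndex_normalizer_le {P Q : Sylow p G} (hP : Nat.card P = p) (hPQ : P ≠ Q)
    {C : Subgroup G} (hC : C ≤ centralizer (P : Set G)) (hCp : ¬ p ∣ Nat.card C) {k : ℕ}
    (hn : Nat.card (Sylow p G) = 1 + k * p) : (normalizer (Q : Set G)).relIndex C ≤ k := by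
  classical
  let X := C ⧸ (normalizer (Q : Set G)).subgroupOf C
  have hpow : ∀ c ∈ C, c ^ Nat.card C = 1 := fun c hc => by
    have h1 : (⟨c, hc⟩ : C) ^ Nat.card C = 1 := pow_card_eq_one'
    exact congrArg Subtype.val h1
  let f : X × P → {R : Sylow p G // R ≠ P} := fun z =>
    ⟨((z.2 : G) * (z.1.out : G)) • Q, by
      intro h
      apply hPQ
      have h1 : (z.2 : G) * (z.1.out : G) ∈ normalizer (P : Set G) :=
        mul_mem (Subgroup.le_normalizer z.2.2)
          (Subgroup.centralizer_le_normalizer _ (hC z.1.out.2))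
      have h2 : ((z.2 : G) * (z.1.out : G)) • P = P := Sylow.smul_eq_iff_mem_normalizer.2 h1
      have h3 : ((z.2 : G) * (z.1.out : G)) • Q = ((z.2 : G) * (z.1.out : G)) • P := by
        rw [h, h2]
      exact (smul_left_cancel _ h3).symm⟩
  have hf : Function.Injective f := by
    rintro ⟨x, u⟩ ⟨x', u'⟩ h
    have h1 : ((u : G) * (x.out : G)) • Q = ((u' : G) * (x'.out : G)) • Q :=
      congrArg (fun z => z.1) h
    set c : G := (x.out : G) with hc
    set c' : G := (x'.out : G) with hc'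
    have hcC : c ∈ C := x.out.2
    have hcC' : c' ∈ C := x'.out.2
    have h2 : ((u' : G) * c')⁻¹ * ((u : G) * c) ∈ normalizer (Q : Set G) := by
      rw [← Sylow.smul_eq_iff_mem_normalizer, mul_smul, h1, ← mul_smul, inv_mul_cancel, one_smul]
    have h3 : ((u' : G) * c')⁻¹ * ((u : G) * c) = ((u' : G)⁻¹ * u) * (c'⁻¹ * c) := by
      have h4 : c'⁻¹ * ((u' : G)⁻¹ * u) = ((u' : G)⁻¹ * u) * c'⁻¹ := by
        have h5 := mem_centralizer_iff.1 (inv_mem (hC hcC')) ((u' : G)⁻¹ * u)
          (mul_mem (inv_mem u'.2) u.2)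
        exact h5.symm
      calc ((u' : G) * c')⁻¹ * ((u : G) * c) = (c'⁻¹ * ((u' : G)⁻¹ * u)) * c := by group
        _ = (((u' : G)⁻¹ * u) * c'⁻¹) * c := by rw [h4]
        _ = _ := by group
    rw [h3] at h2
    have hcc : c'⁻¹ * c ∈ C := mul_mem (inv_mem hcC') hcC
    have h4 : (u' : G)⁻¹ * u = 1 := eq_one_of_mem_normalizer hP hPQ
      (mul_mem (inv_mem u'.2) u.2) (hC hcc) hCp (hpow _ hcc) h2
    rw [h4, one_mul] at h2
    have h5 : u = u' := Subtype.ext (by
      have := inv_mul_eq_one.1 h4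
      exact this.symm)
    have h6 : x = x' := by
      rw [← Quotient.out_eq x, ← Quotient.out_eq x']
      symm
      refine QuotientGroup.eq.2 ?_
      rw [Subgroup.mem_subgroupOf]
      exact h2
    rw [h5, h6]
  have h1 := Nat.card_le_card_of_injective f hf
  rw [Nat.card_prod] at h1
  have h2 : Nat.card {R : Sylow p G // R ≠ P} = k * p := by
    have := Fintype.ofFinite (Sylow p G)
    rw [Nat.card_eq_fintype_card, Fintype.card_subtype_compl, Fintype.card_subtype_eq,
      ← Nat.card_eq_fintype_card, hn]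
    omega
  rw [h2] at h1
  have h3 : Nat.card P = p := hP
  rw [h3] at h1
  exact Nat.le_of_mul_le_mul_right h1 hp.out.pos

theorem relIndex_le {P : Sylow p G} (hP : Nat.card P = p) {e k : ℕ} {K : Subgroup G}
    (hloc : PrimeLocal.IsLocal p P e K) (hk : 1 ≤ k)
    {C : Subgroup G} (hC : C ≤ centralizer (P : Set G)) (hCp : ¬ p ∣ Nat.card C)
    (hn : Nat.card (Sylow p G) = 1 + k * p) (Q : Sylow p G) :
    (centralizer (Q : Set G)).relIndex C ≤ k * e := by
  have he := hloc.one_lt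
  by_cases hPQ : P = Q
  · subst hPQ
    rw [Subgroup.relIndex_eq_one.2 hC]
    exact Nat.mul_pos hk (by omega)
  · have h1 := relIndex_normalizer_le hP hPQ hC hCp hn
    have h2 : (centralizer (Q : Set G)).relIndex (normalizer (Q : Set G) ⊓ C) ≤ e := by
      have h3 : (centralizer (Q : Set G)).relIndex (normalizer (Q : Set G)) = e := by
        rw [relIndex_eq P Q]
        exact LargePrime.relIndex_eq hloc hp.out.pos
      rw [← h3]
      exact Subgroup.relIndex_le_of_le_right inf_le_left (relIndex_ne_zero _ _)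
    have h4 : (centralizer (Q : Set G)).relIndex C =
        (centralizer (Q : Set G)).relIndex (normalizer (Q : Set G) ⊓ C) *
          (normalizer (Q : Set G)).relIndex C := by
      have h5 : centralizer (Q : Set G) ⊓ C ≤ normalizer (Q : Set G) ⊓ C :=
        inf_le_inf_right _ (Subgroup.centralizer_le_normalizer _)
      have h6 := Subgroup.relIndex_mul_relIndex _ _ _ h5 inf_le_right
      rw [Subgroup.inf_relIndex_right, Subgroup.inf_relIndex_right] at h6
      rw [← h6]
      congr 1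
      rw [← Subgroup.inf_relIndex_right (centralizer (Q : Set G)) (normalizer (Q : Set G) ⊓ C)]
      congr 1
      apply le_antisymm
      · exact le_inf inf_le_left h5
      · exact le_inf inf_le_left (inf_le_right.trans inf_le_right)
    rw [h4, mul_comm k e]
    exact Nat.mul_le_mul h2 h1

theorem card_K_le [IsSimpleGroup G] (hG : ¬ IsMulCommutative G) {P : Sylow p G}
    (hP : Nat.card P = p) {e k : ℕ} {K : Subgroup G}
    (hloc : PrimeLocal.IsLocal p P e K) (hk : 1 ≤ k)
    (hn : Nat.card (Sylow p G) = 1 + k * p) (Q R : Sylow p G)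
    (hgen : (P : Subgroup G) ⊔ Q ⊔ R = ⊤) : Nat.card K ≤ (k * e) ^ 2 := by
  let C₁ : Subgroup G := centralizer (Q : Set G) ⊓ K
  let C₂ : Subgroup G := centralizer (R : Set G) ⊓ C₁
  have hK := hloc.le_centralizer
  have hC₁K : C₁ ≤ K := inf_le_right
  have hC₁p : ¬ p ∣ Nat.card C₁ := fun h => hloc.not_dvd (h.trans (Subgroup.card_dvd_of_le hC₁K))
  have h1 := relIndex_le hP hloc hk hK hloc.not_dvd hn Q
  have h2 := relIndex_le hP hloc hk (hC₁K.trans hK) hC₁p hn R
  have h3 : Nat.card C₁ * (centralizer (Q : Set G)).relIndex K = Nat.card K := by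
    have h3 := card_mul_relIndex (G := G) (inf_le_right : C₁ ≤ K)
    rwa [Subgroup.inf_relIndex_right] at h3
  have h4 : Nat.card C₂ * (centralizer (R : Set G)).relIndex C₁ = Nat.card C₁ := by
    have h4 := card_mul_relIndex (G := G) (inf_le_right : C₂ ≤ C₁)
    rwa [Subgroup.inf_relIndex_right] at h4
  have h5 : C₂ = ⊥ := by
    rw [eq_bot_iff]
    intro x hx
    have hxR : x ∈ centralizer (R : Set G) := hx.1
    have hxQ : x ∈ centralizer (Q : Set G) := hx.2.1
    have hxP : x ∈ centralizer (P : Set G) := hK hx.2.2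
    have h6 : (P : Subgroup G) ⊔ Q ⊔ R ≤ centralizer ({x} : Set G) := by
      have key : ∀ S : Sylow p G, x ∈ centralizer (S : Set G) →
          (S : Subgroup G) ≤ centralizer ({x} : Set G) := by
        intro S hS y hy
        rw [mem_centralizer_singleton_iff]
        exact mem_centralizer_iff.1 hS y hy
      exact sup_le (sup_le (key P hxP) (key Q hxQ)) (key R hxR)
    rw [hgen, top_le_iff] at h6
    have h7 : x ∈ Subgroup.center G := by
      rw [Subgroup.mem_center_iff]
      intro g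
      have : g ∈ centralizer ({x} : Set G) := h6 ▸ Subgroup.mem_top g
      exact mem_centralizer_singleton_iff.1 this
    have h8 : (Subgroup.center G).Normal := inferInstance
    rcases h8.eq_bot_or_eq_top with h9 | h9
    · rwa [h9] at h7
    · exfalso
      apply hG
      refine ⟨⟨fun a b => ?_⟩⟩
      have : a ∈ Subgroup.center G := h9 ▸ Subgroup.mem_top a
      exact (Subgroup.mem_center_iff.1 this b).symm
  rw [h5, Subgroup.card_bot, one_mul] at h4
  rw [← h3, ← h4, sq]
  exact Nat.mul_le_mul h2 h1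

end Cfsg.Agent.H570.Cent
end

-- part: H570/Data
section
/-!
The numerical data of a simple group with less than `p ^ 2` Sylow `p`-subgroups.
-/

set_option autoImplicit false

namespace Cfsg.Agent.H570.Data

open Subgroup Cfsg.Agent.H570.PNil Cfsg.Agent.H570.Gen Cfsg.Agent.H570.PartB
  Cfsg.Agent.SmallSimple Cfsg.Agent.H570.Numbers Cfsg.Agent.H570.Arith

universe u

/-- Numerical data: `o` is the order of the group, `e = |N(P) : C(P)|`. -/
def Num (p e o : ℕ) : Prop :=
  ∃ n κ, 2 ≤ e ∧ e ∣ p - 1 ∧ o = n * (p * (e * κ)) ∧ p + 1 ≤ n ∧ n < p ^ 2 ∧ n ≡ 1 [MOD p] ∧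
    0 < κ ∧ (κ = 1 ∨ (17 ≤ p ∧ ∃ a b k, n = 1 + k * p ∧ AB p k a b ∧ 3 ≤ a ∧ b ∣ e ∧
      κ ≤ (k * e) ^ 2))

variable {G : Type u} [Group G] [Finite G] [IsSimpleGroup G] {p : ℕ} [hp : Fact p.Prime]

/-- If `n_p(G) < p ^ 2` then `p ^ 2` does not divide the order of `G`. -/
theorem not_sq_dvd (hG : ¬ IsMulCommutative G) (hd : p ∣ Nat.card G)
    (hn : Nat.card (Sylow p G) < p ^ 2) : ¬ p ^ 2 ∣ Nat.card G := by
  obtain ⟨P⟩ : Nonempty (Sylow p G) := inferInstance
  have h1 : Nat.card P = p := S4343.result hG p hd hn P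
  intro h
  have h2 : p ^ 2 ∣ Nat.card P := by
    rw [P.card_eq_multiplicity]
    exact pow_dvd_pow _ ((hp.out.pow_dvd_iff_le_factorization Nat.card_pos.ne').1 h)
  rw [h1] at h2
  have h3 := Nat.le_of_dvd hp.out.pos h2
  have h4 : p * 2 ≤ p * p := Nat.mul_le_mul_left _ hp.out.two_le
  have := hp.out.pos
  rw [sq] at h3
  omega

theorem ne_two (hG : ¬ IsMulCommutative G) (hd : p ∣ Nat.card G)
    (hn : Nat.card (Sylow p G) < p ^ 2) : p ≠ 2 := by
  rintro rfl
  exact not_sq_dvd hG hd hn (EvenOrder.four_dvd_card hG hd)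

theorem exists_num (hG : ¬ IsMulCommutative G) (hd : p ∣ Nat.card G)
    (hn : Nat.card (Sylow p G) < p ^ 2)
    (IH : ∀ (S : Type u) [Group S] [Finite S] [IsSimpleGroup S], ¬ IsMulCommutative S →
      Nat.card S < Nat.card G → p ∣ Nat.card S → Nat.card (Sylow p S) < p ^ 2 →
      OrdList p (Nat.card S)) :
    ∃ e, (∀ P : Sylow p G, (centralizer (P : Set G)).relIndex (normalizer (P : Set G)) = e) ∧
      Num p e (Nat.card G) := by
  have hsq := not_sq_dvd hG hd hn
  have hp2 := ne_two hG hd hn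
  have hord : ∀ P : Sylow p G, Nat.card P = p := fun P => S4343.result hG p hd hn P
  have hmod := card_sylow_modEq_one p G
  have hq5 : 5 ≤ Nat.card (Sylow p G) := Embed.five_le_card_sylow hG hd
  have h3 : p ∣ Nat.card (Sylow p G) - 1 := (Nat.modEq_iff_dvd' (by omega)).1 hmod.symm
  have h4 := Nat.le_of_dvd (by omega) h3
  obtain ⟨k, hk⟩ := h3
  have hk' : Nat.card (Sylow p G) = 1 + k * p := by
    rw [mul_comm k p, ← hk]; omega
  have hk1 : 1 ≤ k := by
    rcases Nat.eq_zero_or_pos k with h | h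
    · rw [h] at hk'; omega
    · exact h
  have hkp : k < p := by
    by_contra hcon
    push Not at hcon
    have : p * p ≤ k * p := Nat.mul_le_mul_right _ hcon
    have h5 : p ^ 2 = p * p := sq p
    omega
  have hfin : ∀ (P : Sylow p G) (e : ℕ) (K : Subgroup G), PrimeLocal.IsLocal p P e K →
      (Nat.card K = 1 ∨ (17 ≤ p ∧ ∃ a b, AB p k a b ∧ 3 ≤ a ∧ b ∣ e ∧
        Nat.card K ≤ (k * e) ^ 2)) →
      ∃ e, (∀ P : Sylow p G, (centralizer (P : Set G)).relIndex (normalizer (P : Set G)) = e) ∧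
      Num p e (Nat.card G) := by
    intro P e K hloc h
    refine ⟨e, fun Q => ?_, Nat.card (Sylow p G), Nat.card K, hloc.one_lt, hloc.dvd_pred, ?_,
      by omega, hn, hmod, Nat.card_pos, ?_⟩
    · rw [Cent.relIndex_eq P Q]
      exact LargePrime.relIndex_eq hloc hp.out.pos
    · rw [hloc.card_eq]; ring
    · rcases h with h | ⟨h, a, b, h5, h6, h7, h8⟩
      · exact Or.inl h
      · exact Or.inr ⟨h, a, b, k, hk', h5, h6, h7, h8⟩
  obtain ⟨P₀⟩ : Nonempty (Sylow p G) := inferInstance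
  obtain ⟨e₀, K₀, hloc₀⟩ := PrimeLocal.exists_local hG hd hsq P₀
  by_cases hK : Nat.card K₀ = 1
  · exact hfin P₀ e₀ K₀ hloc₀ (Or.inl hK)
  · obtain ⟨h17, -⟩ := PartA.partA hG hp2 (hord P₀) hloc₀ hk' hkp hK
    obtain ⟨P, Q, R, hPQR⟩ := exists_three hG h17 hd hord hn IH
    obtain ⟨e, K, hloc⟩ := PrimeLocal.exists_local hG hd hsq P
    apply hfin P e K hloc
    by_cases hK1 : Nat.card K = 1
    · exact Or.inl hK1
    · obtain ⟨-, a, b, h5, h6, h7⟩ := PartA.partA hG hp2 (hord P) hloc hk' hkp hK1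
      exact Or.inr ⟨h17, a, b, h5, h6, h7, Cent.card_K_le hG (hord P) hloc hk1 hk' Q R hPQR⟩

end Cfsg.Agent.H570.Data
end

-- part: H570/Chk
section
/-!
Elimination of numerical data: small linear dimension versus the order.
-/

set_option autoImplicit false

namespace Cfsg.Agent.H570.Chk

open Cfsg.Agent.H570.Data Cfsg.Agent.H570.Arith

/-- small prime divisors -/
def comp (p : ℕ) : Bool :=
  Nat.beq (p % 2) 0 || Nat.beq (p % 3) 0 || Nat.beq (p % 5) 0 || Nat.beq (p % 7) 0 ||
    Nat.beq (p % 11) 0 || Nat.beq (p % 13) 0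

theorem not_comp {p : ℕ} (hp : p.Prime) (h : 17 ≤ p) : comp p = false := by
  have key : ∀ r, r.Prime → r < 17 → Nat.beq (p % r) 0 = false := by
    intro r hr hr17
    rw [← Bool.not_eq_true, Nat.beq_eq]
    intro h0
    have := (Nat.prime_dvd_prime_iff_eq hr hp).1 (Nat.dvd_of_mod_eq_zero h0)
    omega
  unfold comp
  rw [key 2 (by norm_num) (by norm_num), key 3 (by norm_num) (by norm_num),
    key 5 (by norm_num) (by norm_num), key 7 (by norm_num) (by norm_num),
    key 11 (by norm_num) (by norm_num), key 13 (by norm_num) (by norm_num)]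
  rfl

/-- one triple `(a, b, c)`: no data with `p = a b + 1` and `e = b c` -/
def chk1 (o a b c : ℕ) : Bool :=
  Nat.blt a 3 || Nat.blt (a * b + 1) 17 || comp (a * b + 1) || !(Nat.beq (a * b % (b * c)) 0) ||
    !(Nat.beq (o % ((a * b + 1 - b) * (a * b + 1 + a) * ((a * b + 1) * (b * c)))) 0) ||
    Nat.blt ((a * b + 1 - b) * (a * b + 1 + a) * ((a * b + 1) * (b * c)) *
      ((a * b + a - b) * (b * c)) ^ 2) o

/-- all triples with `a ≤ b`, `b c ≤ N` -/
def chk (N o : ℕ) : Bool :=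
  (List.range (N + 1)).all fun b => (List.range (b + 1)).all fun a =>
    (List.range (N / b + 1)).all fun c => chk1 o a b c

theorem of_chk {N o a b c : ℕ} (h : chk N o = true) (hab : a ≤ b) (hb : 0 < b) (hc : 0 < c)
    (hbc : b * c ≤ N) : chk1 o a b c = true := by
  unfold chk at h
  rw [List.all_eq_true] at h
  have hbN : b ≤ N := le_trans (Nat.le_mul_of_pos_right b hc) hbc
  have h1 := h b (List.mem_range.2 (by omega))
  rw [List.all_eq_true] at h1
  have h2 := h1 a (List.mem_range.2 (by omega))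
  rw [List.all_eq_true] at h2
  refine h2 c (List.mem_range.2 ?_)
  have : c ≤ N / b := (Nat.le_div_iff_mul_le hb).2 (by rw [mul_comm]; exact hbc)
  omega

/-- the consequences of the numerical data -/
theorem cases_of {p e o : ℕ} (hp : p.Prime) (h : Num p e o) :
    (∃ n, o = n * (p * e) ∧ p + 1 ≤ n ∧ n < p ^ 2 ∧ n ≡ 1 [MOD p] ∧ 2 ≤ e ∧ e ∣ p - 1) ∨
    (17 ≤ p ∧ ∃ a b c, p = a * b + 1 ∧ e = b * c ∧ 3 ≤ a ∧ a ≤ b ∧ 0 < c ∧ o < p ^ 5 * e ^ 3 ∧
      chk1 o a b c = false) := by
  obtain ⟨n, κ, he2, hed, ho, hn1, hn2, hmod, hκ, h1 | ⟨hp17, a, b, k, hnk, hAB, ha3, hbe, hκ2⟩⟩ := h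
  · left
    exact ⟨n, by rw [ho, h1, mul_one], hn1, hn2, hmod, he2, hed⟩
  · right
    have hab := hAB.le
    have hmul := hAB.mul
    have heq := hAB.eq
    have hpab : p = a * b + 1 := by omega
    obtain ⟨c, rfl⟩ := hbe
    have hc : 0 < c := by
      rcases Nat.eq_zero_or_pos c with hc | hc
      · rw [hc] at he2; omega
      · exact hc
    have hneq : n = (p - b) * (p + a) := by rw [hnk]; exact hAB.n_eq hp.two_le
    have hbp : b ≤ a * b := Nat.le_mul_of_pos_left b (by omega)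
    have hk : k = a * b + a - b := by omega
    have hkp : k ≤ p := by omega
    refine ⟨hp17, a, b, c, hpab, rfl, ha3, hab, hc, ?_, ?_⟩
    · rw [ho]
      have hp0 := hp.pos
      have hpos : 0 < p * (b * c * κ) := by (clear * - hκ hp17 he2; positivity)
      calc n * (p * (b * c * κ)) < p ^ 2 * (p * (b * c * κ)) := Nat.mul_lt_mul_of_pos_right hn2 hpos
        _ ≤ p ^ 2 * (p * (b * c * (k * (b * c)) ^ 2)) := by gcongr
        _ ≤ p ^ 2 * (p * (b * c * (p * (b * c)) ^ 2)) := by gcongr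
        _ = p ^ 5 * (b * c) ^ 3 := by ring
    · have hdvd : o % ((a * b + 1 - b) * (a * b + 1 + a) * ((a * b + 1) * (b * c))) = 0 := by
        apply Nat.mod_eq_zero_of_dvd
        rw [← hpab, ← hneq, ho]
        exact Dvd.intro κ (by ring)
      have hle : o ≤ (a * b + 1 - b) * (a * b + 1 + a) * ((a * b + 1) * (b * c)) *
          ((a * b + a - b) * (b * c)) ^ 2 := by
        rw [← hpab, ← hneq, ho, ← hk]
        calc n * (p * (b * c * κ)) ≤ n * (p * (b * c * (k * (b * c)) ^ 2)) := by gcongr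
          _ = _ := by ring
      rw [← Bool.not_eq_true]
      intro h
      unfold chk1 at h
      rw [← hpab, not_comp hp hp17, hpab] at h
      rw [Bool.or_eq_true, Bool.or_eq_true, Bool.or_eq_true, Bool.or_eq_true, Bool.or_eq_true,
        Nat.blt_eq, Nat.blt_eq, Nat.blt_eq, Bool.not_eq_true', ← Bool.not_eq_true, Nat.beq_eq,
        Bool.not_eq_true', ← Bool.not_eq_true, Nat.beq_eq] at h
      rcases h with ((((h | h) | h) | h) | h) | h
      · omega
      · omega
      · exact Bool.noConfusion h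
      · apply h
        apply Nat.mod_eq_zero_of_dvd
        rw [show a * b = p - 1 by omega]
        exact hed
      · exact h hdvd
      · omega

/-- **Elimination.** -/
theorem no_num {p e o N X : ℕ} (hp : p.Prime) (h : Num p e o) (he : e ≤ N) (hpX : p ≤ X)
    (h1 : N * X ^ 3 ≤ o) (h2 : (N ^ 2 + 1) ^ 5 * N ^ 3 ≤ o ∨ chk N o = true) : False := by
  rcases cases_of hp h with ⟨n, ho, hn1, hn2, -, he2, -⟩ | ⟨hp17, a, b, c, hpab, rfl, ha3, hab, hc, hlt, hck⟩
  · have hp0 := hp.pos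
    have : o < p ^ 2 * (p * e) := by
      rw [ho]
      exact Nat.mul_lt_mul_of_pos_right hn2 (by positivity)
    have h3 : p ^ 2 * (p * e) ≤ N * X ^ 3 := by
      calc p ^ 2 * (p * e) = e * p ^ 3 := by ring
        _ ≤ N * X ^ 3 := by gcongr
    omega
  · rcases h2 with h2 | h2
    · have hbN : b ≤ N := le_trans (Nat.le_mul_of_pos_right b hc) he
      have hpN : p ≤ N ^ 2 + 1 := by
        rw [hpab, sq]
        have : a * b ≤ N * N := Nat.mul_le_mul (hab.trans hbN) hbN
        omega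
      have h3 : p ^ 5 * (b * c) ^ 3 ≤ (N ^ 2 + 1) ^ 5 * N ^ 3 := by gcongr
      omega
    · rw [of_chk h2 hab (by omega) hc he] at hck
      exact Bool.noConfusion hck

/-- for dimension at most `3` only the first inequality matters -/
theorem no_num3 {p e o X : ℕ} (hp : p.Prime) (h : Num p e o) (he : e ≤ 3) (hpX : p ≤ X)
    (h1 : 3 * X ^ 3 ≤ o) : False := by
  refine no_num hp h he hpX h1 (Or.inr ?_)
  rfl

/-- the prime does not divide `q` -/
theorem cop_of {p q E d o : ℕ} (hsq : ¬ p ^ 2 ∣ o) (hE : 2 ≤ E)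
    (hd : d.Coprime q) (h : q ^ E ∣ d * o) : ¬ p ∣ q := by
  intro hpq
  have h1 : q ^ E ∣ o := (Nat.Coprime.pow_left E hd.symm).dvd_of_dvd_mul_left h
  exact hsq ((pow_dvd_pow p hE).trans ((pow_dvd_pow_of_dvd hpq E).trans h1))

end Cfsg.Agent.H570.Chk
end
end

-- part: H570/List
section
prune_inst 0x1044011022100000040000020002a11100000000208001610603040b0181000000810000000002004002801000002000000030400000000a0004000005002080a2020030100c00040007800004000000000000000000000000000000000000000000000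
set_option linter.all false
open scoped Cfsg.Agent.FastGrp

-- part: H570/Ineq
section
/-!
General inequalities for the orders of the classical groups.
-/

set_option autoImplicit false

namespace Cfsg.Agent.H570.Ineq

theorem pow_two_ge (n : ℕ) (hn : 5 ≤ n) : 33 ^ 3 * (n * n) ≤ 32 ^ 3 * 2 ^ n := by
  induction n, hn using Nat.le_induction with
  | base => norm_num
  | succ n hn ih =>
    have h1 : (n + 1) * (n + 1) ≤ 2 * (n * n) := by nlinarith
    calc 33 ^ 3 * ((n + 1) * (n + 1)) ≤ 33 ^ 3 * (2 * (n * n)) := by gcongr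
      _ = 2 * (33 ^ 3 * (n * n)) := by ring
      _ ≤ 2 * (32 ^ 3 * 2 ^ n) := by gcongr
      _ = 32 ^ 3 * 2 ^ (n + 1) := by rw [pow_succ]; ring

/-- (I1) -/
theorem i1 {n q : ℕ} (hn : 5 ≤ n) (hq : 2 ≤ q) : n * (n * (q ^ n + 1) ^ 3) ≤ q ^ (n * (n - 1)) := by
  have h1 : 32 ≤ q ^ n := by
    calc 32 = 2 ^ 5 := by norm_num
      _ ≤ 2 ^ n := Nat.pow_le_pow_right (by norm_num) hn
      _ ≤ q ^ n := Nat.pow_le_pow_left hq n
  have h2 : 32 * (q ^ n + 1) ≤ 33 * q ^ n := by omega
  have h3 : 32 ^ 3 * (q ^ n + 1) ^ 3 ≤ 33 ^ 3 * (q ^ n) ^ 3 := by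
    rw [← mul_pow, ← mul_pow]; gcongr
  have h4 : 33 ^ 3 * (n * n) ≤ 32 ^ 3 * q ^ n :=
    (pow_two_ge n hn).trans (Nat.mul_le_mul_left _ (Nat.pow_le_pow_left hq n))
  have h5 : q ^ (4 * n) ≤ q ^ (n * (n - 1)) := by
    apply Nat.pow_le_pow_right (by omega)
    rw [mul_comm]
    exact Nat.mul_le_mul_left _ (by omega)
  refine le_trans ?_ h5
  have h6 : 32 ^ 3 * (n * (n * (q ^ n + 1) ^ 3)) ≤ 32 ^ 3 * q ^ (4 * n) := by
    calc 32 ^ 3 * (n * (n * (q ^ n + 1) ^ 3)) = (n * n) * (32 ^ 3 * (q ^ n + 1) ^ 3) := by ring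
      _ ≤ (n * n) * (33 ^ 3 * (q ^ n) ^ 3) := by gcongr
      _ = (33 ^ 3 * (n * n)) * (q ^ n) ^ 3 := by ring
      _ ≤ (32 ^ 3 * q ^ n) * (q ^ n) ^ 3 := by gcongr
      _ = 32 ^ 3 * q ^ (4 * n) := by
        rw [mul_assoc, ← pow_succ', ← pow_mul, mul_comm n (3 + 1)]
  exact Nat.le_of_mul_le_mul_left h6 (by norm_num)

theorem sq_add_one_le (n : ℕ) (hn : 7 ≤ n) : n ^ 2 + 1 ≤ 2 ^ (n - 1) := by
  induction n, hn using Nat.le_induction with
  | base => norm_num
  | succ n hn ih =>
    have h1 : (n + 1) ^ 2 + 1 ≤ 2 * (n ^ 2 + 1) := by nlinarith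
    have h2 : 2 ^ (n + 1 - 1) = 2 * 2 ^ (n - 1) := by
      rw [← pow_succ']; congr 1; omega
    rw [h2]
    omega

/-- (I2) -/
theorem i2 {n q : ℕ} (hn : 7 ≤ n) (hq : 2 ≤ q) :
    n * ((n ^ 2 + 1) ^ 5 * n ^ 3) ≤ q ^ (n * (n - 1)) := by
  have h1 := sq_add_one_le n hn
  have h2 : 2 ^ (n * (n - 1)) ≤ q ^ (n * (n - 1)) := Nat.pow_le_pow_left hq _
  refine le_trans ?_ h2
  calc n * ((n ^ 2 + 1) ^ 5 * n ^ 3) = (n ^ 2 + 1) ^ 5 * (n ^ 2) ^ 2 := by ring
    _ ≤ (n ^ 2 + 1) ^ 5 * (n ^ 2 + 1) ^ 2 := by gcongr; omega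
    _ = (n ^ 2 + 1) ^ 7 := by rw [← pow_add]
    _ ≤ (n ^ 2 + 1) ^ n := Nat.pow_le_pow_right (by omega) hn
    _ ≤ (2 ^ (n - 1)) ^ n := Nat.pow_le_pow_left h1 _
    _ = 2 ^ (n * (n - 1)) := by rw [← pow_mul, mul_comm]

theorem lin_le (m : ℕ) (hm : 3 ≤ m) : 16 * (2 * m + 1) ≤ 2 ^ (3 * m) := by
  induction m, hm using Nat.le_induction with
  | base => norm_num
  | succ m hm ih =>
    have : 2 ^ (3 * (m + 1)) = 8 * 2 ^ (3 * m) := by
      rw [show 3 * (m + 1) = 3 + 3 * m by ring, pow_add]; norm_num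
    rw [this]
    omega

theorem lin_le' (m : ℕ) (hm : 4 ≤ m) : 64 * m ≤ 2 ^ (3 * m) := by
  induction m, hm using Nat.le_induction with
  | base => norm_num
  | succ m hm ih =>
    have : 2 ^ (3 * (m + 1)) = 8 * 2 ^ (3 * m) := by
      rw [show 3 * (m + 1) = 3 + 3 * m by ring, pow_add]; norm_num
    rw [this]
    omega

theorem add_one_cube {m q : ℕ} (hq : 1 ≤ q) : (q ^ m + 1) ^ 3 ≤ 8 * q ^ (3 * m) := by
  have h1 : 1 ≤ q ^ m := Nat.one_le_pow _ _ hq
  calc (q ^ m + 1) ^ 3 ≤ (2 * q ^ m) ^ 3 := by gcongr; omega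
    _ = 8 * q ^ (3 * m) := by rw [mul_pow, ← pow_mul, mul_comm m 3]; norm_num

/-- (I3) symplectic and odd orthogonal, first inequality -/
theorem i3 {m q N : ℕ} (hm : 3 ≤ m) (hq : 2 ≤ q) (hN : N ≤ 2 * m + 1) :
    2 * (N * (q ^ m + 1) ^ 3) ≤ q ^ (m ^ 2) * q ^ (m ^ 2) := by
  calc 2 * (N * (q ^ m + 1) ^ 3) ≤ 2 * ((2 * m + 1) * (8 * q ^ (3 * m))) := by
        gcongr; exact add_one_cube (by omega)
    _ = (16 * (2 * m + 1)) * q ^ (3 * m) := by ring
    _ ≤ 2 ^ (3 * m) * q ^ (3 * m) := Nat.mul_le_mul_right _ (lin_le m hm)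
    _ ≤ q ^ (3 * m) * q ^ (3 * m) := by gcongr
    _ ≤ q ^ (m ^ 2) * q ^ (m ^ 2) := by
      have : 3 * m ≤ m ^ 2 := by nlinarith only [hm]
      gcongr <;> omega

/-- (I3') even orthogonal, first inequality -/
theorem i3' {m q : ℕ} (hm : 4 ≤ m) (hq : 2 ≤ q) :
    4 * (2 * m * (q ^ m + 1) ^ 3) ≤ q ^ (2 * (m * (m - 1))) := by
  calc 4 * (2 * m * (q ^ m + 1) ^ 3) ≤ 4 * (2 * m * (8 * q ^ (3 * m))) := by
        gcongr; exact add_one_cube (by omega)
    _ = (64 * m) * q ^ (3 * m) := by ring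
    _ ≤ 2 ^ (3 * m) * q ^ (3 * m) := Nat.mul_le_mul_right _ (lin_le' m hm)
    _ ≤ q ^ (3 * m) * q ^ (3 * m) := by gcongr
    _ = q ^ (6 * m) := by rw [← pow_add]; congr 1; ring
    _ ≤ q ^ (2 * (m * (m - 1))) := by
      apply Nat.pow_le_pow_right (by omega)
      obtain ⟨k, rfl⟩ : ∃ k, m = k + 4 := ⟨m - 4, by omega⟩
      rw [show k + 4 - 1 = k + 3 by omega]
      nlinarith

theorem four_sq_le (m : ℕ) (hm : 5 ≤ m) : 4 * m ^ 2 + 1 ≤ 2 ^ (m + 2) := by
  induction m, hm using Nat.le_induction with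
  | base => norm_num
  | succ m hm ih =>
    have h1 : 4 * (m + 1) ^ 2 + 1 ≤ 2 * (4 * m ^ 2 + 1) := by nlinarith
    have h2 : 2 ^ (m + 1 + 2) = 2 * 2 ^ (m + 2) := by rw [← pow_succ']
    rw [h2]
    omega

/-- (I4) symplectic, second inequality -/
theorem i4 {m q : ℕ} (hm : 5 ≤ m) (hq : 2 ≤ q) :
    2 * (((2 * m) ^ 2 + 1) ^ 5 * (2 * m) ^ 3) ≤ q ^ (m ^ 2) * q ^ (m ^ 2) := by
  have h1 := four_sq_le m hm
  have h0 : 2 * (2 * m) ^ 3 ≤ (4 * m ^ 2 + 1) ^ 2 := by nlinarith only [hm]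
  calc 2 * (((2 * m) ^ 2 + 1) ^ 5 * (2 * m) ^ 3) = (4 * m ^ 2 + 1) ^ 5 * (2 * (2 * m) ^ 3) := by ring
    _ ≤ (4 * m ^ 2 + 1) ^ 5 * (4 * m ^ 2 + 1) ^ 2 := by gcongr
    _ = (4 * m ^ 2 + 1) ^ 7 := by rw [← pow_add]
    _ ≤ (2 ^ (m + 2)) ^ 7 := by gcongr
    _ = 2 ^ (7 * m + 14) := by rw [← pow_mul]; congr 1; ring
    _ ≤ 2 ^ (m ^ 2 + m ^ 2) := by
      apply Nat.pow_le_pow_right (by norm_num)
      nlinarith only [hm]
    _ ≤ q ^ (m ^ 2 + m ^ 2) := Nat.pow_le_pow_left hq _
    _ = q ^ (m ^ 2) * q ^ (m ^ 2) := pow_add _ _ _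

/-- (I4'') even orthogonal, second inequality -/
theorem i4'' {m q : ℕ} (hm : 6 ≤ m) (hq : 2 ≤ q) :
    4 * (((2 * m) ^ 2 + 1) ^ 5 * (2 * m) ^ 3) ≤ q ^ (2 * (m * (m - 1))) := by
  have h1 := four_sq_le m (by omega)
  have h0 : 4 * (2 * m) ^ 3 ≤ (4 * m ^ 2 + 1) ^ 2 := by nlinarith only [hm]
  calc 4 * (((2 * m) ^ 2 + 1) ^ 5 * (2 * m) ^ 3) = (4 * m ^ 2 + 1) ^ 5 * (4 * (2 * m) ^ 3) := by ring
    _ ≤ (4 * m ^ 2 + 1) ^ 5 * (4 * m ^ 2 + 1) ^ 2 := by gcongr
    _ = (4 * m ^ 2 + 1) ^ 7 := by rw [← pow_add]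
    _ ≤ (2 ^ (m + 2)) ^ 7 := by gcongr
    _ = 2 ^ (7 * m + 14) := by rw [← pow_mul]; congr 1; ring
    _ ≤ 2 ^ (2 * (m * (m - 1))) := by
      apply Nat.pow_le_pow_right (by norm_num)
      obtain ⟨k, rfl⟩ : ∃ k, m = k + 6 := ⟨m - 6, by omega⟩
      rw [show k + 6 - 1 = k + 5 by omega]
      nlinarith only []
    _ ≤ q ^ (2 * (m * (m - 1))) := Nat.pow_le_pow_left hq _

theorem odd_sq_le (m : ℕ) (hm : 4 ≤ m) : (2 * m + 1) ^ 2 + 1 ≤ 3 ^ (m + 1) := by
  induction m, hm using Nat.le_induction with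
  | base => norm_num
  | succ m hm ih =>
    have h1 : (2 * (m + 1) + 1) ^ 2 + 1 ≤ 3 * ((2 * m + 1) ^ 2 + 1) := by nlinarith
    have h2 : 3 ^ (m + 1 + 1) = 3 * 3 ^ (m + 1) := by rw [← pow_succ']
    rw [h2]
    omega

/-- (I4') odd orthogonal, second inequality -/
theorem i4' {m q : ℕ} (hm : 4 ≤ m) (hq : 3 ≤ q) :
    2 * (((2 * m + 1) ^ 2 + 1) ^ 5 * (2 * m + 1) ^ 3) ≤ q ^ (m ^ 2) * q ^ (m ^ 2) := by
  rcases eq_or_lt_of_le hm with rfl | hm5
  · calc _ ≤ 3 ^ (4 ^ 2) * 3 ^ (4 ^ 2) := by norm_num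
      _ ≤ q ^ (4 ^ 2) * q ^ (4 ^ 2) := by gcongr
  have h1 := odd_sq_le m hm
  have h0 : 2 * (2 * m + 1) ^ 3 ≤ ((2 * m + 1) ^ 2 + 1) ^ 2 := by
    have : 9 ≤ 2 * m + 1 := by omega
    nlinarith only [hm5]
  calc 2 * (((2 * m + 1) ^ 2 + 1) ^ 5 * (2 * m + 1) ^ 3)
      = ((2 * m + 1) ^ 2 + 1) ^ 5 * (2 * (2 * m + 1) ^ 3) := by ring
    _ ≤ ((2 * m + 1) ^ 2 + 1) ^ 5 * ((2 * m + 1) ^ 2 + 1) ^ 2 := by gcongr
    _ = ((2 * m + 1) ^ 2 + 1) ^ 7 := by rw [← pow_add]
    _ ≤ (3 ^ (m + 1)) ^ 7 := by gcongr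
    _ = 3 ^ (7 * m + 7) := by rw [← pow_mul]; congr 1; ring
    _ ≤ 3 ^ (m ^ 2 + m ^ 2) := by
      apply Nat.pow_le_pow_right (by norm_num)
      nlinarith only [hm5]
    _ ≤ q ^ (m ^ 2 + m ^ 2) := Nat.pow_le_pow_left hq _
    _ = q ^ (m ^ 2) * q ^ (m ^ 2) := pow_add _ _ _

/-! ### products -/

/-- `∏ (q ^ n - q ^ i) ≥ q ^ (n (n - 1)) (q - 1)` -/
theorem prod_gl_ge {n q : ℕ} (hn : 1 ≤ n) (hq : 2 ≤ q) :
    q ^ (n * (n - 1)) * (q - 1) ≤ ∏ i ∈ Finset.range n, (q ^ n - q ^ i) := by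
  obtain ⟨m, rfl⟩ : ∃ m, n = m + 1 := ⟨n - 1, by omega⟩
  rw [Finset.prod_range_succ, Nat.add_sub_cancel]
  have h1 : q ^ (m + 1) - q ^ m = q ^ m * (q - 1) := by
    rw [pow_succ, Nat.mul_sub, mul_one]
  have h2 : (q ^ m) ^ m ≤ ∏ i ∈ Finset.range m, (q ^ (m + 1) - q ^ i) := by
    have : ∏ _i ∈ Finset.range m, q ^ m = (q ^ m) ^ m := by
      rw [Finset.prod_const, Finset.card_range]
    rw [← this]
    apply Finset.prod_le_prod' 
    intro i hi
    rw [Finset.mem_range] at hi
    have h3 : q ^ i ≤ q ^ m := Nat.pow_le_pow_right (by omega) hi.le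
    have h4 : q ^ (m + 1) = q ^ m * q := pow_succ _ _
    have h5 : q ^ m * 2 ≤ q ^ m * q := Nat.mul_le_mul_left _ hq
    omega
  rw [h1]
  calc q ^ ((m + 1) * m) * (q - 1) = (q ^ m) ^ m * (q ^ m * (q - 1)) := by
        rw [← pow_mul, ← mul_assoc, ← pow_add]; congr 2; ring
    _ ≤ _ := Nat.mul_le_mul_right _ h2

theorem prod_b_ge {m q : ℕ} (hq : 2 ≤ q) :
    q ^ (m ^ 2) ≤ ∏ i ∈ Finset.range m, (q ^ (2 * (i + 1)) - 1) := by
  induction m with
  | zero => simp
  | succ m ih =>
    rw [Finset.prod_range_succ]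
    have h1 : q ^ (2 * m + 1) ≤ q ^ (2 * (m + 1)) - 1 := by
      have h2 : q ^ (2 * (m + 1)) = q ^ (2 * m + 1) * q := by rw [← pow_succ]; rfl
      have h3 : q ^ (2 * m + 1) * 2 ≤ q ^ (2 * m + 1) * q := Nat.mul_le_mul_left _ hq
      have h4 : 1 ≤ q ^ (2 * m + 1) := Nat.one_le_pow _ _ (by omega)
      omega
    calc q ^ ((m + 1) ^ 2) = q ^ (m ^ 2) * q ^ (2 * m + 1) := by rw [← pow_add]; congr 1; ring
      _ ≤ _ := Nat.mul_le_mul ih h1

/-- the unitary factor -/
def uf (q i : ℕ) : ℕ := if Even i then q ^ (i + 1) + 1 else q ^ (i + 1) - 1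

theorem uf_ge {q i : ℕ} (hq : 2 ≤ q) : q ^ i ≤ uf q i := by
  unfold uf
  have h2 : q ^ (i + 1) = q ^ i * q := pow_succ _ _
  have h3 : q ^ i * 2 ≤ q ^ i * q := Nat.mul_le_mul_left _ hq
  have h4 : 1 ≤ q ^ i := Nat.one_le_pow _ _ (by omega)
  split_ifs <;> omega

theorem prod_u_ge {n q : ℕ} (hn : 1 ≤ n) (hq : 2 ≤ q) :
    q ^ (n * (n - 1) / 2) * (q + 1) ≤ ∏ i ∈ Finset.range n, uf q i := by
  obtain ⟨m, rfl⟩ : ∃ m, n = m + 1 := ⟨n - 1, by omega⟩
  rw [Finset.prod_range_succ']
  have h0 : uf q 0 = q + 1 := by simp only [uf, _root_.Even.zero, ↓ _root_.reduceIte, _root_.zero_add, _root_.pow_one, _root_.Nat.add_left_cancel_iff]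
  rw [h0]
  apply Nat.mul_le_mul_right
  rw [← Finset.sum_range_id, ← Finset.prod_pow_eq_pow_sum, Finset.prod_range_succ']
  simp only [pow_zero, mul_one]
  exact Finset.prod_le_prod' fun i _ => uf_ge hq

theorem prime_le_of_dvd_sub_one {p q k : ℕ} (hp : p.Prime) (hq : 2 ≤ q) (hk : 1 ≤ k)
    (h : p ∣ q ^ (2 * k) - 1) : p ≤ q ^ k + 1 := by
  have h1 : q ^ (2 * k) - 1 = (q ^ k + 1) * (q ^ k - 1) := by
    rw [mul_comm 2 k, pow_mul, ← Nat.sq_sub_sq, one_pow]
  have h2 : 2 ≤ q ^ k := by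
    calc 2 ≤ q := hq
      _ = q ^ 1 := (pow_one q).symm
      _ ≤ q ^ k := Nat.pow_le_pow_right (by omega) hk
  rw [h1] at h
  rcases (hp.dvd_mul).1 h with h | h
  · exact Nat.le_of_dvd (by omega) h
  · have := Nat.le_of_dvd (by omega) h
    omega

end Cfsg.Agent.H570.Ineq
end

-- part: H570/FamA
section
/-!
Elimination of the classical groups, numerical part.
-/

set_option autoImplicit false

namespace Cfsg.Agent.H570.Fam

open Cfsg.Agent.H570.Data Cfsg.Agent.H570.Chk Cfsg.Agent.H570.Ineq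

theorem coprime_gcd_sub {n q : ℕ} (hq : 2 ≤ q) : (Nat.gcd n (q - 1)).Coprime q := by
  have h1 : (q - 1).Coprime q := by
    have := Nat.coprime_self_sub_left (m := 1) (n := q) (by omega)
    rw [this]
    exact Nat.coprime_one_left _
  exact Nat.Coprime.coprime_dvd_left (Nat.gcd_dvd_right _ _) h1

theorem coprime_sub {q : ℕ} (hq : 2 ≤ q) : (q - 1).Coprime q := by
  have := Nat.coprime_self_sub_left (m := 1) (n := q) (by omega)
  rw [this]
  exact Nat.coprime_one_left _

theorem coprime_add {q : ℕ} : (q + 1).Coprime q := by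
  rw [Nat.coprime_comm]
  exact (Nat.coprime_self_add_right).2 (Nat.coprime_one_right _)

theorem pow_dvd_gl (n q : ℕ) : q ^ (n * (n - 1) / 2) ∣ ∏ i ∈ Finset.range n, (q ^ n - q ^ i) := by
  rw [← Finset.sum_range_id, ← Finset.prod_pow_eq_pow_sum]
  apply Finset.prod_dvd_prod_of_dvd
  intro i hi
  rw [Finset.mem_range] at hi
  obtain ⟨m, rfl⟩ : ∃ m, n = i + m := ⟨n - i, by omega⟩
  rw [pow_add]
  exact Nat.dvd_sub (Dvd.intro _ rfl) dvd_rfl

/-- prime divisors of the order of `GL_n(q)` -/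
theorem dvd_gl {p n q : ℕ} (hp : p.Prime) (hpq : ¬ p ∣ q)
    (h : p ∣ ∏ i ∈ Finset.range n, (q ^ n - q ^ i)) : ∃ j, 1 ≤ j ∧ j ≤ n ∧ p ∣ q ^ j - 1 := by
  obtain ⟨i, hi, h1⟩ := (hp.prime.dvd_finsetProd_iff _).1 h
  rw [Finset.mem_range] at hi
  refine ⟨n - i, by omega, by omega, ?_⟩
  have h2 : q ^ n - q ^ i = q ^ i * (q ^ (n - i) - 1) := by
    rw [Nat.mul_sub, mul_one, ← pow_add]
    congr 2
    omega
  rw [h2] at h1
  rcases (hp.dvd_mul).1 h1 with h3 | h3
  · exact absurd (hp.dvd_of_dvd_pow h3) hpq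
  · exact h3

theorem q_list {q : ℕ} (hq : IsPrimePow q) (h : q < 13) :
    q = 2 ∨ q = 3 ∨ q = 4 ∨ q = 5 ∨ q = 7 ∨ q = 8 ∨ q = 9 ∨ q = 11 := by
  have h0 : q ≠ 0 := hq.ne_zero
  have h1 : q ≠ 1 := hq.one_lt.ne'
  have h6 : q ≠ 6 := by
    rintro rfl
    exact absurd hq (by
      rw [isPrimePow_nat_iff_bounded]
      decide)
  have h10 : q ≠ 10 := by
    rintro rfl
    exact absurd hq (by
      rw [isPrimePow_nat_iff_bounded]
      decide)
  have h12 : q ≠ 12 := by
    rintro rfl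
    exact absurd hq (by
      rw [isPrimePow_nat_iff_bounded]
      decide +kernel)
  omega

/-- linear groups, `n ≥ 3` -/
theorem psl {p e n q o : ℕ} (hp : p.Prime) (hq : IsPrimePow q) (hn : 3 ≤ n)
    (ho : Nat.gcd n (q - 1) * ((q - 1) * o) = ∏ i ∈ Finset.range n, (q ^ n - q ^ i))
    (hd : p ∣ o) (hsq : ¬ p ^ 2 ∣ o) (h : Num p e o) (he : ¬ p ∣ q → e ≤ n) :
    n = 3 ∧ ((q = 2 ∧ o = 168) ∨ (q = 3 ∧ o = 5616)) := by
  have hq2 : 2 ≤ q := hq.two_le
  -- the prime is not the characteristic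
  have hpq : ¬ p ∣ q := by
    have h1 : 3 ≤ n * (n - 1) / 2 := by
      have : 3 * 2 ≤ n * (n - 1) := Nat.mul_le_mul hn (by omega)
      omega
    refine cop_of (E := n * (n - 1) / 2) (d := Nat.gcd n (q - 1) * (q - 1)) hsq (by omega)
      (Nat.Coprime.mul_left (coprime_gcd_sub hq2) (coprime_sub hq2)) ?_
    rw [mul_assoc, ho]
    exact pow_dvd_gl n q
  replace he := he hpq
  have hdiv : p ∣ ∏ i ∈ Finset.range n, (q ^ n - q ^ i) := by
    rw [← ho]
    exact dvd_mul_of_dvd_right (dvd_mul_of_dvd_right hd _) _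
  obtain ⟨j, hj1, hjn, hj⟩ := dvd_gl hp hpq hdiv
  have hlow : q ^ (n * (n - 1)) ≤ n * o := by
    have h1 := prod_gl_ge (n := n) (q := q) (by omega) hq2
    rw [← ho] at h1
    have h2 : Nat.gcd n (q - 1) ≤ n := Nat.le_of_dvd (by omega) (Nat.gcd_dvd_left _ _)
    have h3 : q ^ (n * (n - 1)) * (q - 1) ≤ (n * o) * (q - 1) := by
      calc _ ≤ _ := h1
        _ ≤ n * ((q - 1) * o) := Nat.mul_le_mul_right _ h2
        _ = _ := by ring
    exact Nat.le_of_mul_le_mul_right h3 (by omega)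
  rcases Nat.lt_or_ge n 5 with hn5 | hn5
  · obtain rfl | rfl : n = 3 ∨ n = 4 := by omega
    · -- `n = 3`
      rw [Finset.prod_range_succ, Finset.prod_range_succ, Finset.prod_range_succ, Finset.prod_range_zero,
        one_mul, pow_zero, pow_one] at ho
      obtain ⟨t, rfl⟩ : ∃ t, q = t + 1 := ⟨q - 1, by omega⟩
      have e1 : (t + 1) ^ 3 - 1 = t * ((t + 1) ^ 2 + (t + 1) + 1) := by
        have : (t + 1) ^ 3 = t * ((t + 1) ^ 2 + (t + 1) + 1) + 1 := by ring
        omega
      have e2 : (t + 1) ^ 3 - (t + 1) = (t + 1) * t * (t + 2) := by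
        have : (t + 1) ^ 3 = (t + 1) * t * (t + 2) + (t + 1) := by ring
        omega
      have e3 : (t + 1) ^ 3 - (t + 1) ^ 2 = (t + 1) ^ 2 * t := by
        have : (t + 1) ^ 3 = (t + 1) ^ 2 * t + (t + 1) ^ 2 := by ring
        omega
      rw [e1, e2, e3, Nat.add_sub_cancel] at ho
      have ho' : Nat.gcd 3 t * o = (t + 1) ^ 3 * t ^ 2 * (t + 2) * ((t + 1) ^ 2 + (t + 1) + 1) := by
        have ht : 0 < t := by omega
        apply Nat.eq_of_mul_eq_mul_left ht
        calc t * (Nat.gcd 3 t * o) = Nat.gcd 3 t * (t * o) := by ring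
          _ = _ := ho
          _ = _ := by ring
      -- bound for the prime
      have hpX : p ≤ (t + 1) ^ 2 + (t + 1) + 1 := by
        obtain rfl | rfl | rfl : j = 1 ∨ j = 2 ∨ j = 3 := by omega
        · rw [pow_one, Nat.add_sub_cancel] at hj
          have := Nat.le_of_dvd (by omega) hj
          linarith only [this, _root_.sq_nonneg (↑t : ℤ)]
        · have e4 : (t + 1) ^ 2 - 1 = t * (t + 2) := by
            have : (t + 1) ^ 2 = t * (t + 2) + 1 := by ring
            omega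
          rw [e4] at hj
          rcases (hp.dvd_mul).1 hj with h5 | h5
          · have := Nat.le_of_dvd (by omega) h5
            linarith only [this, _root_.sq_nonneg (↑t : ℤ)]
          · have := Nat.le_of_dvd (by omega) h5
            linarith only [this, _root_.sq_nonneg (↑t : ℤ)]
        · rw [e1] at hj
          rcases (hp.dvd_mul).1 hj with h5 | h5
          · have := Nat.le_of_dvd (by omega) h5
            linarith only [this, _root_.sq_nonneg (↑t : ℤ)]
          · exact Nat.le_of_dvd (by (clear * -; positivity)) h5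
      rcases Nat.lt_or_ge t 4 with ht4 | ht4
      · obtain rfl | rfl | rfl : t = 1 ∨ t = 2 ∨ t = 3 := by omega
        · norm_num at ho'
          exact ⟨rfl, Or.inl ⟨rfl, ho'⟩⟩
        · have : Nat.gcd 3 2 = 1 := by norm_num
          rw [this] at ho'
          norm_num at ho'
          exact ⟨rfl, Or.inr ⟨rfl, ho'⟩⟩
        · exfalso
          have : Nat.gcd 3 3 = 3 := by norm_num
          rw [this] at ho'
          have ho2 : o = 20160 := by omega
          have hp7 : p ≤ 7 := by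
            rw [ho2, show 20160 = 2 ^ 6 * (3 ^ 2 * (5 * 7)) by norm_num] at hd
            rcases (hp.dvd_mul).1 hd with h5 | h5
            · exact (Nat.le_of_dvd (by norm_num) (hp.dvd_of_dvd_pow h5)).trans (by norm_num)
            rcases (hp.dvd_mul).1 h5 with h5 | h5
            · exact (Nat.le_of_dvd (by norm_num) (hp.dvd_of_dvd_pow h5)).trans (by norm_num)
            rcases (hp.dvd_mul).1 h5 with h5 | h5
            · exact (Nat.le_of_dvd (by norm_num) h5).trans (by norm_num)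
            · exact Nat.le_of_dvd (by norm_num) h5
          exact no_num3 hp h he hp7 (by rw [ho2]; norm_num)
      · exfalso
        refine no_num3 hp h he hpX ?_
        have h6 : Nat.gcd 3 t ≤ 3 := Nat.le_of_dvd (by norm_num) (Nat.gcd_dvd_left _ _)
        have h7 : 3 * (3 * ((t + 1) ^ 2 + (t + 1) + 1) ^ 3) ≤ 3 * o := by
          calc 3 * (3 * ((t + 1) ^ 2 + (t + 1) + 1) ^ 3)
              = (9 * ((t + 1) ^ 2 + (t + 1) + 1) ^ 2) * ((t + 1) ^ 2 + (t + 1) + 1) := by ring
            _ ≤ ((t + 1) ^ 3 * t ^ 2 * (t + 2)) * ((t + 1) ^ 2 + (t + 1) + 1) := by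
              apply Nat.mul_le_mul_right
              obtain ⟨s, rfl⟩ : ∃ s, t = s + 4 := ⟨t - 4, by omega⟩
              ring_nf
              nlinarith only [_root_.sq_nonneg (↑s ^ 3 : ℤ), _root_.sq_nonneg (↑s : ℤ), _root_.Nat.cast_nonneg (α := ℤ) (s), _root_.Nat.cast_nonneg (α := ℤ) ((s + 4 + 1) ^ 3 - (s + 4 + 1) ^ 2), _root_.sq_nonneg (↑s ^ 2 : ℤ), _root_.sq_nonneg (↑s + 4 + 1 : ℤ)]
            _ = Nat.gcd 3 t * o := by rw [ho']
            _ ≤ 3 * o := Nat.mul_le_mul_right _ h6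
        omega
    · -- `n = 4`
      exfalso
      have hpX : p ≤ q ^ 2 + q + 1 := by
        obtain ⟨t, rfl⟩ : ∃ t, q = t + 1 := ⟨q - 1, by omega⟩
        obtain rfl | rfl | rfl | rfl : j = 1 ∨ j = 2 ∨ j = 3 ∨ j = 4 := by omega
        · rw [pow_one, Nat.add_sub_cancel] at hj
          have := Nat.le_of_dvd (by omega) hj
          linarith only [this, _root_.sq_nonneg (↑t + 1 : ℤ)]
        · have e4 : (t + 1) ^ 2 - 1 = t * (t + 2) := by
            have : (t + 1) ^ 2 = t * (t + 2) + 1 := by ring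
            omega
          rw [e4] at hj
          rcases (hp.dvd_mul).1 hj with h5 | h5
          · have := Nat.le_of_dvd (by omega) h5
            linarith only [e4, this]
          · have := Nat.le_of_dvd (by omega) h5
            linarith only [e4, this]
        · have e1 : (t + 1) ^ 3 - 1 = t * ((t + 1) ^ 2 + (t + 1) + 1) := by
            have : (t + 1) ^ 3 = t * ((t + 1) ^ 2 + (t + 1) + 1) + 1 := by ring
            omega
          rw [e1] at hj
          rcases (hp.dvd_mul).1 hj with h5 | h5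
          · have := Nat.le_of_dvd (by omega) h5
            linarith only [this, _root_.sq_nonneg (↑t + 1 : ℤ)]
          · exact Nat.le_of_dvd (by (clear * -; positivity)) h5
        · have := prime_le_of_dvd_sub_one (k := 2) hp hq2 (by norm_num) (by simpa only [_root_.Nat.reduceMul] using hj)
          omega
      rcases Nat.lt_or_ge q 6 with hq6 | hq6
      · have hprod : ∏ i ∈ Finset.range 4, (q ^ 4 - q ^ i) =
            (q ^ 4 - 1) * (q ^ 4 - q) * (q ^ 4 - q ^ 2) * (q ^ 4 - q ^ 3) := by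
          rw [Finset.prod_range_succ, Finset.prod_range_succ, Finset.prod_range_succ,
            Finset.prod_range_succ, Finset.prod_range_zero, one_mul, pow_zero, pow_one]
        rw [hprod] at ho
        rcases q_list hq (by omega) with rfl | rfl | rfl | rfl | rfl | rfl | rfl | rfl
        · have ho2 : o = 20160 := by norm_num at ho; omega
          exact no_num hp h he hpX (by rw [ho2]; norm_num) (Or.inr (by rw [ho2]; decide +kernel))
        · have ho2 : o = 6065280 := by norm_num at ho; omega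
          exact no_num hp h he hpX (by rw [ho2]; norm_num) (Or.inr (by rw [ho2]; decide +kernel))
        · have ho2 : o = 987033600 := by norm_num at ho; omega
          exact no_num hp h he hpX (by rw [ho2]; norm_num) (Or.inr (by rw [ho2]; decide +kernel))
        · have ho2 : o = 7254000000 := by norm_num at ho; omega
          exact no_num hp h he hpX (by rw [ho2]; norm_num) (Or.inr (by rw [ho2]; decide +kernel))
        all_goals omega
      · refine no_num hp h he hpX ?_ (Or.inl ?_)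
        · have h7 : 4 * (4 * (q ^ 2 + q + 1) ^ 3) ≤ 4 * o := by
            refine le_trans ?_ hlow
            calc 4 * (4 * (q ^ 2 + q + 1) ^ 3) ≤ 4 * (4 * (2 * q ^ 2) ^ 3) := by
                  gcongr; nlinarith only [hq6]
              _ = 128 * q ^ 6 := by ring
              _ ≤ 6 ^ 6 * q ^ 6 := by gcongr; norm_num
              _ ≤ q ^ 6 * q ^ 6 := by gcongr
              _ = q ^ (4 * (4 - 1)) := by rw [← pow_add]
          omega
        · have h7 : 4 * ((4 ^ 2 + 1) ^ 5 * 4 ^ 3) ≤ 4 * o := by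
            refine le_trans ?_ hlow
            calc 4 * ((4 ^ 2 + 1) ^ 5 * 4 ^ 3) ≤ 6 ^ (4 * (4 - 1)) := by norm_num
              _ ≤ q ^ (4 * (4 - 1)) := Nat.pow_le_pow_left hq6 _
          omega
  · exfalso
    have hpX : p ≤ q ^ n + 1 := by
      have h1 : q ^ j ≤ q ^ n := Nat.pow_le_pow_right (by omega) hjn
      have h2 : 2 ≤ q ^ j := by
        calc 2 ≤ q := hq2
          _ = q ^ 1 := (pow_one q).symm
          _ ≤ q ^ j := Nat.pow_le_pow_right (by omega) hj1
      have := Nat.le_of_dvd (by omega) hj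
      omega
    have hN : n * (q ^ n + 1) ^ 3 ≤ o := by
      have := (i1 hn5 hq2).trans hlow
      exact Nat.le_of_mul_le_mul_left this (by omega)
    rcases Nat.lt_or_ge n 7 with hn7 | hn7
    · obtain rfl | rfl : n = 5 ∨ n = 6 := by omega
      · rcases Nat.lt_or_ge q 4 with hq4 | hq4
        · have hprod : ∏ i ∈ Finset.range 5, (q ^ 5 - q ^ i) =
              (q ^ 5 - 1) * (q ^ 5 - q) * (q ^ 5 - q ^ 2) * (q ^ 5 - q ^ 3) * (q ^ 5 - q ^ 4) := by
            rw [Finset.prod_range_succ, Finset.prod_range_succ, Finset.prod_range_succ,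
              Finset.prod_range_succ, Finset.prod_range_succ, Finset.prod_range_zero, one_mul, pow_zero,
              pow_one]
          rw [hprod] at ho
          obtain rfl | rfl : q = 2 ∨ q = 3 := by omega
          · have ho2 : o = 9999360 := by norm_num at ho; omega
            exact no_num hp h he hpX hN (Or.inr (by rw [ho2]; decide +kernel))
          · have ho2 : o = 237783237120 := by norm_num at ho; omega
            exact no_num hp h he hpX hN (Or.inr (by rw [ho2]; decide +kernel))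
        · refine no_num hp h he hpX hN (Or.inl ?_)
          have h7 : 5 * ((5 ^ 2 + 1) ^ 5 * 5 ^ 3) ≤ 5 * o := by
            refine le_trans ?_ hlow
            calc 5 * ((5 ^ 2 + 1) ^ 5 * 5 ^ 3) ≤ 4 ^ (5 * (5 - 1)) := by norm_num
              _ ≤ q ^ (5 * (5 - 1)) := Nat.pow_le_pow_left hq4 _
          omega
      · rcases Nat.lt_or_ge q 3 with hq4 | hq4
        · obtain rfl : q = 2 := by omega
          have hprod : ∏ i ∈ Finset.range 6, (2 ^ 6 - 2 ^ i) = 20158709760 := by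
            simp only [Finset.prod_range_succ, _root_.Nat.reducePow, _root_.Finset.range_one, _root_.Finset.prod_singleton, _root_.pow_zero, _root_.Nat.add_one_sub_one, _root_.pow_one, _root_.Nat.reduceSub, _root_.Nat.reduceMul]
          rw [hprod] at ho
          have ho2 : o = 20158709760 := by norm_num at ho; omega
          exact no_num hp h he hpX hN (Or.inr (by rw [ho2]; decide +kernel))
        · refine no_num hp h he hpX hN (Or.inl ?_)
          have h7 : 6 * ((6 ^ 2 + 1) ^ 5 * 6 ^ 3) ≤ 6 * o := by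
            refine le_trans ?_ hlow
            calc 6 * ((6 ^ 2 + 1) ^ 5 * 6 ^ 3) ≤ 3 ^ (6 * (6 - 1)) := by norm_num
              _ ≤ q ^ (6 * (6 - 1)) := Nat.pow_le_pow_left hq4 _
          omega
    · refine no_num hp h he hpX hN (Or.inl ?_)
      have := (i2 hn7 hq2).trans hlow
      exact Nat.le_of_mul_le_mul_left this (by omega)

end Cfsg.Agent.H570.Fam
end

-- part: H570/FamB
section
/-!
Elimination of the symplectic, orthogonal and unitary groups, numerical part; `PSL_2`.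
-/

set_option autoImplicit false

namespace Cfsg.Agent.H570.Fam

open Cfsg.Agent.H570.Data Cfsg.Agent.H570.Chk Cfsg.Agent.H570.Ineq

theorem dvd_b {p m q : ℕ} (hp : p.Prime) (hq : 2 ≤ q)
    (h : p ∣ ∏ i ∈ Finset.range m, (q ^ (2 * (i + 1)) - 1)) : p ≤ q ^ m + 1 := by
  obtain ⟨i, hi, h1⟩ := (hp.prime.dvd_finsetProd_iff _).1 h
  rw [Finset.mem_range] at hi
  have h2 := prime_le_of_dvd_sub_one hp hq (by omega) h1
  have h3 : q ^ (i + 1) ≤ q ^ m := Nat.pow_le_pow_right (by omega) (by omega)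
  omega

/-- symplectic groups -/
theorem psp {p e m q o : ℕ} (hp : p.Prime) (hq : IsPrimePow q) (hm : 2 ≤ m) (hm2 : m = 2 → 3 ≤ q)
    (ho : Nat.gcd 2 (q - 1) * o = q ^ (m ^ 2) * ∏ i ∈ Finset.range m, (q ^ (2 * (i + 1)) - 1))
    (hd : p ∣ o) (hsq : ¬ p ^ 2 ∣ o) (h : Num p e o) (he : ¬ p ∣ q → e ≤ 2 * m) : False := by
  have hq2 : 2 ≤ q := hq.two_le
  have hpq : ¬ p ∣ q := by
    have h1 : 2 * 2 ≤ m ^ 2 := by rw [sq]; exact Nat.mul_le_mul hm hm
    refine cop_of (E := m ^ 2) hsq (by omega) (coprime_gcd_sub (n := 2) hq2) ?_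
    rw [ho]
    exact Dvd.intro _ rfl
  replace he := he hpq
  have hpX : p ≤ q ^ m + 1 := by
    have h1 : p ∣ q ^ (m ^ 2) * ∏ i ∈ Finset.range m, (q ^ (2 * (i + 1)) - 1) := by
      rw [← ho]; exact dvd_mul_of_dvd_right hd _
    rcases (hp.dvd_mul).1 h1 with h2 | h2
    · exact absurd (hp.dvd_of_dvd_pow h2) hpq
    · exact dvd_b hp hq2 h2
  have hlow : q ^ (m ^ 2) * q ^ (m ^ 2) ≤ 2 * o := by
    calc q ^ (m ^ 2) * q ^ (m ^ 2) ≤ q ^ (m ^ 2) * ∏ i ∈ Finset.range m, (q ^ (2 * (i + 1)) - 1) :=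
          Nat.mul_le_mul_left _ (prod_b_ge hq2)
      _ = Nat.gcd 2 (q - 1) * o := ho.symm
      _ ≤ 2 * o := Nat.mul_le_mul_right _ (Nat.le_of_dvd (by norm_num) (Nat.gcd_dvd_left _ _))
  rcases Nat.lt_or_ge m 3 with hm3 | hm3
  · obtain rfl : m = 2 := by omega
    have hq3 := hm2 rfl
    rcases Nat.lt_or_ge q 10 with hq10 | hq10
    · rw [Finset.prod_range_succ, Finset.prod_range_succ, Finset.prod_range_zero] at ho
      rcases q_list hq (by omega) with rfl | rfl | rfl | rfl | rfl | rfl | rfl | rfl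
      · omega
      · have ho2 : o = 25920 := by norm_num at ho; omega
        exact no_num hp h he hpX (by rw [ho2]; norm_num) (Or.inr (by rw [ho2]; decide +kernel))
      · have ho2 : o = 979200 := by norm_num at ho; omega
        exact no_num hp h he hpX (by rw [ho2]; norm_num) (Or.inr (by rw [ho2]; decide +kernel))
      · have ho2 : o = 4680000 := by norm_num at ho; omega
        exact no_num hp h he hpX (by rw [ho2]; norm_num) (Or.inr (by rw [ho2]; decide +kernel))
      · have ho2 : o = 138297600 := by norm_num at ho; omega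
        exact no_num hp h he hpX (by rw [ho2]; norm_num) (Or.inr (by rw [ho2]; decide +kernel))
      · have ho2 : o = 1056706560 := by norm_num at ho; omega
        exact no_num hp h he hpX (by rw [ho2]; norm_num) (Or.inr (by rw [ho2]; decide +kernel))
      · have ho2 : o = 1721606400 := by norm_num at ho; omega
        exact no_num hp h he hpX (by rw [ho2]; norm_num) (Or.inr (by rw [ho2]; decide +kernel))
      · omega
    · have hq11 : 11 ≤ q := by
        rcases Nat.lt_or_ge q 11 with h5 | h5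
        · rcases q_list hq (by omega) with rfl | rfl | rfl | rfl | rfl | rfl | rfl | rfl <;> omega
        · exact h5
      refine no_num hp h he hpX ?_ (Or.inl ?_)
      · have h7 : 2 * (2 * 2 * (q ^ 2 + 1) ^ 3) ≤ 2 * o := by
          refine le_trans ?_ hlow
          calc 2 * (2 * 2 * (q ^ 2 + 1) ^ 3) ≤ 2 * (2 * 2 * (8 * q ^ (3 * 2))) := by
                gcongr; exact add_one_cube (by omega)
            _ = 64 * q ^ 6 := by ring
            _ ≤ (11 ^ 2) * q ^ 6 := by gcongr; norm_num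
            _ ≤ q ^ 2 * q ^ 6 := by gcongr
            _ = q ^ (2 ^ 2) * q ^ (2 ^ 2) := by ring
        omega
      · have h7 : 2 * (((2 * 2) ^ 2 + 1) ^ 5 * (2 * 2) ^ 3) ≤ 2 * o := by
          refine le_trans ?_ hlow
          calc 2 * (((2 * 2) ^ 2 + 1) ^ 5 * (2 * 2) ^ 3) ≤ 11 ^ (2 ^ 2) * 11 ^ (2 ^ 2) := by norm_num
            _ ≤ q ^ (2 ^ 2) * q ^ (2 ^ 2) := by gcongr
        omega
  · have hN : 2 * m * (q ^ m + 1) ^ 3 ≤ o := by
      have := (i3 hm3 hq2 (N := 2 * m) (by omega)).trans hlow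
      omega
    rcases Nat.lt_or_ge m 5 with hm5 | hm5
    · obtain rfl | rfl : m = 3 ∨ m = 4 := by omega
      · rcases Nat.lt_or_ge q 4 with hq4 | hq4
        · obtain rfl | rfl : q = 2 ∨ q = 3 := by omega
          · have hprod : ∏ i ∈ Finset.range 3, (2 ^ (2 * (i + 1)) - 1) = 2835 := by
              simp only [Finset.prod_range_succ, _root_.Finset.range_one, _root_.Finset.prod_singleton, _root_.zero_add, _root_.mul_one, _root_.Nat.reducePow, _root_.Nat.add_one_sub_one, _root_.Nat.reduceAdd, _root_.Nat.reduceMul]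
            rw [hprod] at ho
            have ho2 : o = 1451520 := by norm_num at ho; omega
            exact no_num hp h he hpX hN (Or.inr (by rw [ho2]; decide +kernel))
          · have hprod : ∏ i ∈ Finset.range 3, (3 ^ (2 * (i + 1)) - 1) = 465920 := by
              simp only [Finset.prod_range_succ, _root_.Finset.range_one, _root_.Finset.prod_singleton, _root_.zero_add, _root_.mul_one, _root_.Nat.reducePow, _root_.Nat.add_one_sub_one, _root_.Nat.reduceAdd, _root_.Nat.reduceMul]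
            rw [hprod] at ho
            have ho2 : o = 4585351680 := by norm_num at ho; omega
            exact no_num hp h he hpX hN (Or.inr (by rw [ho2]; decide +kernel))
        · refine no_num hp h he hpX hN (Or.inl ?_)
          have h7 : 2 * (((2 * 3) ^ 2 + 1) ^ 5 * (2 * 3) ^ 3) ≤ 2 * o := by
            refine le_trans ?_ hlow
            calc 2 * (((2 * 3) ^ 2 + 1) ^ 5 * (2 * 3) ^ 3) ≤ 4 ^ (3 ^ 2) * 4 ^ (3 ^ 2) := by norm_num
              _ ≤ q ^ (3 ^ 2) * q ^ (3 ^ 2) := by gcongr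
          omega
      · rcases Nat.lt_or_ge q 3 with hq4 | hq4
        · obtain rfl : q = 2 := by omega
          have hprod : ∏ i ∈ Finset.range 4, (2 ^ (2 * (i + 1)) - 1) = 722925 := by
            simp only [Finset.prod_range_succ, _root_.Finset.range_one, _root_.Finset.prod_singleton, _root_.zero_add, _root_.mul_one, _root_.Nat.reducePow, _root_.Nat.add_one_sub_one, _root_.Nat.reduceAdd, _root_.Nat.reduceMul]
          rw [hprod] at ho
          have ho2 : o = 47377612800 := by norm_num at ho; omega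
          exact no_num hp h he hpX hN (Or.inr (by rw [ho2]; decide +kernel))
        · refine no_num hp h he hpX hN (Or.inl ?_)
          have h7 : 2 * (((2 * 4) ^ 2 + 1) ^ 5 * (2 * 4) ^ 3) ≤ 2 * o := by
            refine le_trans ?_ hlow
            calc 2 * (((2 * 4) ^ 2 + 1) ^ 5 * (2 * 4) ^ 3) ≤ 3 ^ (4 ^ 2) * 3 ^ (4 ^ 2) := by norm_num
              _ ≤ q ^ (4 ^ 2) * q ^ (4 ^ 2) := by gcongr
          omega
    · refine no_num hp h he hpX hN (Or.inl ?_)
      have := (i4 hm5 hq2).trans hlow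
      exact Nat.le_of_mul_le_mul_left this (by norm_num)

/-- odd-dimensional orthogonal groups -/
theorem oodd {p e m q o : ℕ} (hp : p.Prime) (hq : IsPrimePow q) (hm : 3 ≤ m) (hq1 : Odd q)
    (ho : 2 * o = q ^ (m ^ 2) * ∏ i ∈ Finset.range m, (q ^ (2 * (i + 1)) - 1))
    (hd : p ∣ o) (hsq : ¬ p ^ 2 ∣ o) (h : Num p e o) (he : ¬ p ∣ q → e ≤ 2 * m + 1) : False := by
  have hq2 : 2 ≤ q := hq.two_le
  have hq3 : 3 ≤ q := by
    obtain ⟨k, hk⟩ := hq1
    omega
  have hpq : ¬ p ∣ q := by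
    have h1 : 2 * 2 ≤ m ^ 2 := by rw [sq]; exact Nat.mul_le_mul (by omega) (by omega)
    refine cop_of (E := m ^ 2) (d := 2) hsq (by omega) ((Nat.coprime_two_left).2 hq1) ?_
    rw [ho]
    exact Dvd.intro _ rfl
  replace he := he hpq
  have hpX : p ≤ q ^ m + 1 := by
    have h1 : p ∣ q ^ (m ^ 2) * ∏ i ∈ Finset.range m, (q ^ (2 * (i + 1)) - 1) := by
      rw [← ho]; exact dvd_mul_of_dvd_right hd _
    rcases (hp.dvd_mul).1 h1 with h2 | h2
    · exact absurd (hp.dvd_of_dvd_pow h2) hpq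
    · exact dvd_b hp hq2 h2
  have hlow : q ^ (m ^ 2) * q ^ (m ^ 2) ≤ 2 * o := by
    rw [ho]
    exact Nat.mul_le_mul_left _ (prod_b_ge hq2)
  have hN : (2 * m + 1) * (q ^ m + 1) ^ 3 ≤ o := by
    have := (i3 hm hq2 (N := 2 * m + 1) (by omega)).trans hlow
    exact Nat.le_of_mul_le_mul_left this (by norm_num)
  rcases Nat.lt_or_ge m 4 with hm4 | hm4
  · obtain rfl : m = 3 := by omega
    rcases Nat.lt_or_ge q 5 with hq5 | hq5
    · obtain rfl : q = 3 := by
        obtain ⟨k, hk⟩ := hq1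
        omega
      have hprod : ∏ i ∈ Finset.range 3, (3 ^ (2 * (i + 1)) - 1) = 465920 := by
        simp only [Finset.prod_range_succ, _root_.Finset.range_one, _root_.Finset.prod_singleton, _root_.zero_add, _root_.mul_one, _root_.Nat.reducePow, _root_.Nat.add_one_sub_one, _root_.Nat.reduceAdd, _root_.Nat.reduceMul]
      rw [hprod] at ho
      have ho2 : o = 4585351680 := by norm_num at ho; omega
      exact no_num hp h he hpX hN (Or.inr (by rw [ho2]; decide +kernel))
    · refine no_num hp h he hpX hN (Or.inl ?_)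
      have h7 : 2 * (((2 * 3 + 1) ^ 2 + 1) ^ 5 * (2 * 3 + 1) ^ 3) ≤ 2 * o := by
        refine le_trans ?_ hlow
        calc 2 * (((2 * 3 + 1) ^ 2 + 1) ^ 5 * (2 * 3 + 1) ^ 3) ≤ 5 ^ (3 ^ 2) * 5 ^ (3 ^ 2) := by norm_num
          _ ≤ q ^ (3 ^ 2) * q ^ (3 ^ 2) := by gcongr
      omega
  · refine no_num hp h he hpX hN (Or.inl ?_)
    have := (i4' hm4 hq3).trans hlow
    exact Nat.le_of_mul_le_mul_left this (by norm_num)

theorem low_d {m q x : ℕ} (hm : 4 ≤ m) (hq : 2 ≤ q) (hx : q ^ m ≤ x + 1) :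
    q ^ (2 * (m * (m - 1))) ≤ q ^ (m * (m - 1)) * (x * ∏ i ∈ Finset.range (m - 1), (q ^ (2 * (i + 1)) - 1)) := by
  obtain ⟨k, rfl⟩ : ∃ k, m = k + 1 := ⟨m - 1, by omega⟩
  rw [Nat.add_sub_cancel]
  have h1 : q ^ k ≤ x := by
    have h2 : q ^ (k + 1) = q ^ k * q := pow_succ _ _
    have h3 : q ^ k * 2 ≤ q ^ k * q := Nat.mul_le_mul_left _ hq
    have h4 : 1 ≤ q ^ k := Nat.one_le_pow _ _ (by omega)
    omega
  have h2 := prod_b_ge (m := k) hq
  calc q ^ (2 * ((k + 1) * k)) = q ^ ((k + 1) * k) * (q ^ k * q ^ (k ^ 2)) := by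
        rw [← pow_add, ← pow_add]; congr 1; ring
    _ ≤ _ := Nat.mul_le_mul_left _ (Nat.mul_le_mul h1 h2)

/-- even-dimensional orthogonal groups; `x = q ^ m ± 1` -/
theorem oeven {p e m q x o : ℕ} (hp : p.Prime) (hq : IsPrimePow q) (hm : 4 ≤ m)
    (hx : x + 1 = q ^ m ∨ x = q ^ m + 1)
    (ho : Nat.gcd 4 x * o = q ^ (m * (m - 1)) * (x * ∏ i ∈ Finset.range (m - 1), (q ^ (2 * (i + 1)) - 1)))
    (hd : p ∣ o) (hsq : ¬ p ^ 2 ∣ o) (h : Num p e o) (he : ¬ p ∣ q → e ≤ 2 * m) : False := by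
  have hq2 : 2 ≤ q := hq.two_le
  have hqm : 2 ≤ q ^ m := by
    calc 2 ≤ q := hq2
      _ = q ^ 1 := (pow_one q).symm
      _ ≤ q ^ m := Nat.pow_le_pow_right (by omega) (by omega)
  have hx0 : 0 < x := by omega
  have hxq : x.Coprime q := by
    have h1 : x.Coprime (q ^ m) := by
      rcases hx with hx | hx
      · rw [← hx]; exact (Nat.coprime_self_add_right).2 (Nat.coprime_one_right _)
      · rw [hx, Nat.coprime_comm]; exact (Nat.coprime_self_add_right).2 (Nat.coprime_one_right _)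
    exact Nat.Coprime.coprime_dvd_right (dvd_pow_self q (by omega)) h1
  have hpq : ¬ p ∣ q := by
    have h1 : 4 * 3 ≤ m * (m - 1) := Nat.mul_le_mul hm (by omega)
    refine cop_of (E := m * (m - 1)) hsq (by omega)
      (Nat.Coprime.coprime_dvd_left (Nat.gcd_dvd_right 4 x) hxq) ?_
    rw [ho]
    exact Dvd.intro _ rfl
  replace he := he hpq
  have hpX : p ≤ q ^ m + 1 := by
    have h1 : p ∣ q ^ (m * (m - 1)) * (x * ∏ i ∈ Finset.range (m - 1), (q ^ (2 * (i + 1)) - 1)) := by
      rw [← ho]; exact dvd_mul_of_dvd_right hd _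
    rcases (hp.dvd_mul).1 h1 with h2 | h2
    · exact absurd (hp.dvd_of_dvd_pow h2) hpq
    rcases (hp.dvd_mul).1 h2 with h2 | h2
    · have := Nat.le_of_dvd hx0 h2
      omega
    · have h3 := dvd_b hp hq2 h2
      have h4 : q ^ (m - 1) ≤ q ^ m := Nat.pow_le_pow_right (by omega) (by omega)
      omega
  have hlow : q ^ (2 * (m * (m - 1))) ≤ 4 * o := by
    calc _ ≤ _ := low_d hm hq2 (by omega : q ^ m ≤ x + 1)
      _ = Nat.gcd 4 x * o := ho.symm
      _ ≤ 4 * o := Nat.mul_le_mul_right _ (Nat.le_of_dvd (by norm_num) (Nat.gcd_dvd_left _ _))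
  have hN : 2 * m * (q ^ m + 1) ^ 3 ≤ o := by
    have := (i3' hm hq2).trans hlow
    exact Nat.le_of_mul_le_mul_left this (by norm_num)
  rcases Nat.lt_or_ge m 6 with hm6 | hm6
  · obtain rfl | rfl : m = 4 ∨ m = 5 := by omega
    · rcases Nat.lt_or_ge q 4 with hq4 | hq4
      · obtain rfl | rfl : q = 2 ∨ q = 3 := by omega
        · have hprod : ∏ i ∈ Finset.range (4 - 1), (2 ^ (2 * (i + 1)) - 1) = 2835 := by
            simp only [Finset.prod_range_succ, _root_.Nat.add_one_sub_one, _root_.Finset.range_one, _root_.Finset.prod_singleton, _root_.zero_add, _root_.mul_one, _root_.Nat.reducePow, _root_.Nat.reduceAdd, _root_.Nat.reduceMul]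
          rw [hprod] at ho
          rcases hx with hx | hx
          · obtain rfl : x = 15 := by omega
            have ho2 : o = 174182400 := by norm_num at ho; omega
            exact no_num hp h he hpX hN (Or.inr (by rw [ho2]; decide +kernel))
          · obtain rfl : x = 17 := by omega
            have ho2 : o = 197406720 := by norm_num at ho; omega
            exact no_num hp h he hpX hN (Or.inr (by rw [ho2]; decide +kernel))
        · have hprod : ∏ i ∈ Finset.range (4 - 1), (3 ^ (2 * (i + 1)) - 1) = 465920 := by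
            simp only [Finset.prod_range_succ, _root_.Nat.add_one_sub_one, _root_.Finset.range_one, _root_.Finset.prod_singleton, _root_.zero_add, _root_.mul_one, _root_.Nat.reducePow, _root_.Nat.reduceAdd, _root_.Nat.reduceMul]
          rw [hprod] at ho
          rcases hx with hx | hx
          · obtain rfl : x = 80 := by omega
            have ho2 : o = 4952179814400 := by norm_num at ho; omega
            exact no_num hp h he hpX hN (Or.inr (by rw [ho2]; decide +kernel))
          · obtain rfl : x = 82 := by omega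
            have ho2 : o = 10151968619520 := by norm_num at ho; omega
            exact no_num hp h he hpX hN (Or.inr (by rw [ho2]; decide +kernel))
      · refine no_num hp h he hpX hN (Or.inl ?_)
        have h7 : 4 * (((2 * 4) ^ 2 + 1) ^ 5 * (2 * 4) ^ 3) ≤ 4 * o := by
          refine le_trans ?_ hlow
          calc 4 * (((2 * 4) ^ 2 + 1) ^ 5 * (2 * 4) ^ 3) ≤ 4 ^ (2 * (4 * (4 - 1))) := by norm_num
            _ ≤ q ^ (2 * (4 * (4 - 1))) := by gcongr
        omega
    · rcases Nat.lt_or_ge q 3 with hq4 | hq4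
      · obtain rfl : q = 2 := by omega
        have hprod : ∏ i ∈ Finset.range (5 - 1), (2 ^ (2 * (i + 1)) - 1) = 722925 := by
          simp only [Finset.prod_range_succ, _root_.Nat.add_one_sub_one, _root_.Finset.range_one, _root_.Finset.prod_singleton, _root_.zero_add, _root_.mul_one, _root_.Nat.reducePow, _root_.Nat.reduceAdd, _root_.Nat.reduceMul]
        rw [hprod] at ho
        rcases hx with hx | hx
        · obtain rfl : x = 31 := by omega
          have ho2 : o = 23499295948800 := by norm_num at ho; omega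
          exact no_num hp h he hpX hN (Or.inr (by rw [ho2]; decide +kernel))
        · obtain rfl : x = 33 := by omega
          have ho2 : o = 25015379558400 := by norm_num at ho; omega
          exact no_num hp h he hpX hN (Or.inr (by rw [ho2]; decide +kernel))
      · refine no_num hp h he hpX hN (Or.inl ?_)
        have h7 : 4 * (((2 * 5) ^ 2 + 1) ^ 5 * (2 * 5) ^ 3) ≤ 4 * o := by
          refine le_trans ?_ hlow
          calc 4 * (((2 * 5) ^ 2 + 1) ^ 5 * (2 * 5) ^ 3) ≤ 3 ^ (2 * (5 * (5 - 1))) := by norm_num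
            _ ≤ q ^ (2 * (5 * (5 - 1))) := by gcongr
        omega
  · refine no_num hp h he hpX hN (Or.inl ?_)
    have := (i4'' hm6 hq2).trans hlow
    exact Nat.le_of_mul_le_mul_left this (by norm_num)

end Cfsg.Agent.H570.Fam
end

-- part: H570/FamC
section
/-!
Elimination of the unitary groups, numerical part; `PSL_2`.
-/

set_option autoImplicit false

namespace Cfsg.Agent.H570.Fam

open Cfsg.Agent.H570.Data Cfsg.Agent.H570.Chk Cfsg.Agent.H570.Ineq

theorem uf_le {q i n : ℕ} (hq : 2 ≤ q) (hi : i < n) : uf q i ≤ q ^ n + 1 := by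
  unfold uf
  have h3 : q ^ (i + 1) ≤ q ^ n := Nat.pow_le_pow_right (by omega) (by omega)
  split_ifs <;> omega

theorem uf_pos {q i : ℕ} (hq : 2 ≤ q) : 0 < uf q i :=
  lt_of_lt_of_le (pow_pos (by omega) i) (uf_ge hq)

set_option maxHeartbeats 1000000 in
/-- unitary groups -/
theorem psu {p e n q o : ℕ} (hp : p.Prime) (hq : IsPrimePow q) (hn : 3 ≤ n) (hn2 : ¬ (n = 3 ∧ q = 2))
    (ho : Nat.gcd n (q + 1) * ((q + 1) * o) = q ^ (n * (n - 1) / 2) * ∏ i ∈ Finset.range n, uf q i)
    (hd : p ∣ o) (hsq : ¬ p ^ 2 ∣ o) (h : Num p e o) (he : ¬ p ∣ q → e ≤ n) : False := by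
  have hq2 : 2 ≤ q := hq.two_le
  have hpq : ¬ p ∣ q := by
    have h1 : 3 ≤ n * (n - 1) / 2 := by
      have : 3 * 2 ≤ n * (n - 1) := Nat.mul_le_mul hn (by omega)
      omega
    refine cop_of (E := n * (n - 1) / 2) (d := Nat.gcd n (q + 1) * (q + 1)) hsq (by omega)
      (Nat.Coprime.mul_left (Nat.Coprime.coprime_dvd_left (Nat.gcd_dvd_right n (q + 1)) coprime_add)
        coprime_add) ?_
    rw [mul_assoc, ho]
    exact Dvd.intro _ rfl
  replace he := he hpq
  obtain ⟨i, hi, hpi⟩ : ∃ i, i < n ∧ p ∣ uf q i := by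
    have h1 : p ∣ q ^ (n * (n - 1) / 2) * ∏ i ∈ Finset.range n, uf q i := by
      rw [← ho]
      exact dvd_mul_of_dvd_right (dvd_mul_of_dvd_right hd _) _
    rcases (hp.dvd_mul).1 h1 with h2 | h2
    · exact absurd (hp.dvd_of_dvd_pow h2) hpq
    · obtain ⟨i, hi, h3⟩ := (hp.prime.dvd_finsetProd_iff _).1 h2
      exact ⟨i, Finset.mem_range.1 hi, h3⟩
  have hev : n * (n - 1) / 2 + n * (n - 1) / 2 = n * (n - 1) := by
    have := Nat.even_mul_pred_self n
    obtain ⟨k, hk⟩ := this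
    omega
  have hlow : q ^ (n * (n - 1)) ≤ n * o := by
    have h1 := prod_u_ge (n := n) (q := q) (by omega) hq2
    have h2 : Nat.gcd n (q + 1) ≤ n := Nat.le_of_dvd (by omega) (Nat.gcd_dvd_left _ _)
    have h3 : q ^ (n * (n - 1)) * (q + 1) ≤ (n * o) * (q + 1) := by
      calc q ^ (n * (n - 1)) * (q + 1) = q ^ (n * (n - 1) / 2) * (q ^ (n * (n - 1) / 2) * (q + 1)) := by
            rw [← mul_assoc, ← pow_add, hev]
        _ ≤ q ^ (n * (n - 1) / 2) * ∏ i ∈ Finset.range n, uf q i := Nat.mul_le_mul_left _ h1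
        _ = Nat.gcd n (q + 1) * ((q + 1) * o) := ho.symm
        _ ≤ n * ((q + 1) * o) := Nat.mul_le_mul_right _ h2
        _ = _ := by ring
    exact Nat.le_of_mul_le_mul_right h3 (by omega)
  rcases Nat.lt_or_ge n 5 with hn5 | hn5
  · obtain rfl | rfl : n = 3 ∨ n = 4 := by omega
    · -- `n = 3`
      have hq3 : 3 ≤ q := by
        rcases Nat.lt_or_ge q 3 with h5 | h5
        · exact absurd ⟨rfl, by omega⟩ hn2
        · exact h5
      have hu0 : uf q 0 = q + 1 := by simp only [uf, _root_.Even.zero, ↓ _root_.reduceIte, _root_.zero_add, _root_.pow_one, _root_.Nat.add_left_cancel_iff]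
      have hu1 : uf q 1 = q ^ 2 - 1 := by simp only [uf, _root_.Nat.not_even_one, ↓ _root_.reduceIte, _root_.Nat.reduceAdd]
      have hu2 : uf q 2 = q ^ 3 + 1 := by simp only [uf, _root_.even_two, ↓ _root_.reduceIte, _root_.Nat.reduceAdd, _root_.Nat.add_left_cancel_iff]
      rw [Finset.prod_range_succ, Finset.prod_range_succ, Finset.prod_range_succ, Finset.prod_range_zero,
        one_mul, hu0, hu1, hu2] at ho
      obtain ⟨t, rfl⟩ : ∃ t, q = t + 1 := ⟨q - 1, by omega⟩
      have e1 : (t + 1) ^ 3 + 1 = (t + 2) * (t * (t + 1) + 1) := by ring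
      have e2 : (t + 1) ^ 2 - 1 = t * (t + 2) := by
        have : (t + 1) ^ 2 = t * (t + 2) + 1 := by ring
        omega
      rw [e1, e2] at ho
      have ho' : Nat.gcd 3 (t + 2) * o = (t + 1) ^ 3 * t * (t + 2) ^ 2 * (t * (t + 1) + 1) := by
        have ht : 0 < t + 1 + 1 := by omega
        apply Nat.eq_of_mul_eq_mul_left ht
        calc (t + 1 + 1) * (Nat.gcd 3 (t + 2) * o) = Nat.gcd 3 (t + 1 + 1) * ((t + 1 + 1) * o) := by ring_nf
          _ = _ := ho
          _ = _ := by norm_num; ring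
      have hpX : p ≤ t * (t + 1) + 1 := by
        obtain rfl | rfl | rfl : i = 0 ∨ i = 1 ∨ i = 2 := by omega
        · rw [hu0] at hpi
          have := Nat.le_of_dvd (by omega) hpi
          nlinarith only [hq3, this]
        · rw [hu1, e2] at hpi
          rcases (hp.dvd_mul).1 hpi with h5 | h5
          · have := Nat.le_of_dvd (by omega) h5
            nlinarith only [this]
          · have := Nat.le_of_dvd (by omega) h5
            nlinarith only [hq3, this]
        · rw [hu2, e1] at hpi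
          rcases (hp.dvd_mul).1 hpi with h5 | h5
          · have := Nat.le_of_dvd (by omega) h5
            nlinarith only [hq3, this]
          · exact Nat.le_of_dvd (by (clear * -; positivity)) h5
      refine no_num3 hp h he hpX ?_
      have h6 : Nat.gcd 3 (t + 2) ≤ 3 := Nat.le_of_dvd (by norm_num) (Nat.gcd_dvd_left _ _)
      have h7 : 3 * (3 * (t * (t + 1) + 1) ^ 3) ≤ 3 * o := by
        calc 3 * (3 * (t * (t + 1) + 1) ^ 3)
            = (9 * (t * (t + 1) + 1) ^ 2) * (t * (t + 1) + 1) := by ring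
          _ ≤ ((t + 1) ^ 3 * t * (t + 2) ^ 2) * (t * (t + 1) + 1) := by
            apply Nat.mul_le_mul_right
            obtain ⟨s, rfl⟩ : ∃ s, t = s + 2 := ⟨t - 2, by omega⟩
            ring_nf
            nlinarith only [_root_.sq_nonneg (↑s ^ 3 : ℤ), _root_.sq_nonneg (↑s : ℤ), _root_.Nat.cast_nonneg (α := ℤ) (s), _root_.Nat.cast_nonneg (α := ℤ) (uf (s + 2 + 1) 2), _root_.sq_nonneg (↑s ^ 2 : ℤ), _root_.sq_nonneg (↑s + 2 + 2 : ℤ)]
          _ = Nat.gcd 3 (t + 2) * o := by rw [ho']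
          _ ≤ 3 * o := Nat.mul_le_mul_right _ h6
      omega
    · -- `n = 4`
      have hu0 : uf q 0 = q + 1 := by simp only [uf, _root_.Even.zero, ↓ _root_.reduceIte, _root_.zero_add, _root_.pow_one, _root_.Nat.add_left_cancel_iff]
      have hu1 : uf q 1 = q ^ 2 - 1 := by simp only [uf, _root_.Nat.not_even_one, ↓ _root_.reduceIte, _root_.Nat.reduceAdd]
      have hu2 : uf q 2 = q ^ 3 + 1 := by simp only [uf, _root_.even_two, ↓ _root_.reduceIte, _root_.Nat.reduceAdd, _root_.Nat.add_left_cancel_iff]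
      have hu3 : uf q 3 = q ^ 4 - 1 := by
        unfold uf
        rw [if_neg (by decide)]
      have hpX : p ≤ q ^ 2 + 1 := by
        obtain rfl | rfl | rfl | rfl : i = 0 ∨ i = 1 ∨ i = 2 ∨ i = 3 := by omega
        · rw [hu0] at hpi
          have := Nat.le_of_dvd (by omega) hpi
          nlinarith only [this]
        · rw [hu1] at hpi
          have h5 : 2 ≤ q ^ 2 := by nlinarith only [hq2]
          have := Nat.le_of_dvd (by omega) hpi
          omega
        · obtain ⟨t, rfl⟩ : ∃ t, q = t + 1 := ⟨q - 1, by omega⟩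
          have e1 : (t + 1) ^ 3 + 1 = (t + 2) * (t * (t + 1) + 1) := by ring
          rw [hu2, e1] at hpi
          rcases (hp.dvd_mul).1 hpi with h5 | h5
          · have := Nat.le_of_dvd (by omega) h5
            nlinarith only [this]
          · have := Nat.le_of_dvd (by (clear * -; positivity)) h5
            linarith only [this]
        · rw [hu3] at hpi
          exact prime_le_of_dvd_sub_one (k := 2) hp hq2 (by norm_num) (by simpa only [_root_.Nat.reduceMul] using hpi)
      have hN : 4 * (q ^ 2 + 1) ^ 3 ≤ o := by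
        have h7 : 4 * (4 * (q ^ 2 + 1) ^ 3) ≤ 4 * o := by
          refine le_trans ?_ hlow
          have h8 : 4 * (q ^ 2 + 1) ≤ 5 * q ^ 2 := by nlinarith only [hq2]
          have h9 : 64 * (q ^ 2 + 1) ^ 3 ≤ 125 * q ^ 6 := by
            calc 64 * (q ^ 2 + 1) ^ 3 = (4 * (q ^ 2 + 1)) ^ 3 := by ring
              _ ≤ (5 * q ^ 2) ^ 3 := Nat.pow_le_pow_left h8 3
              _ = 125 * q ^ 6 := by ring
          calc 4 * (4 * (q ^ 2 + 1) ^ 3) ≤ 64 * (q ^ 2 + 1) ^ 3 / 4 := by omega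
            _ ≤ 125 * q ^ 6 / 4 := Nat.div_le_div_right h9
            _ ≤ 2 ^ 6 * q ^ 6 := by
              have h10 : 0 < q ^ 6 := by positivity
              omega
            _ ≤ q ^ 6 * q ^ 6 := by gcongr
            _ = q ^ (4 * (4 - 1)) := by rw [← pow_add]
        omega
      rcases Nat.lt_or_ge q 6 with hq6 | hq6
      · rw [Finset.prod_range_succ, Finset.prod_range_succ, Finset.prod_range_succ, Finset.prod_range_succ,
          Finset.prod_range_zero, one_mul, hu0, hu1, hu2, hu3] at ho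
        rcases q_list hq (by omega) with rfl | rfl | rfl | rfl | rfl | rfl | rfl | rfl
        · have ho2 : o = 25920 := by norm_num at ho; omega
          exact no_num hp h he hpX hN (Or.inr (by rw [ho2]; decide +kernel))
        · have ho2 : o = 3265920 := by norm_num at ho; omega
          exact no_num hp h he hpX hN (Or.inr (by rw [ho2]; decide +kernel))
        · have ho2 : o = 1018368000 := by norm_num at ho; omega
          exact no_num hp h he hpX hN (Or.inr (by rw [ho2]; decide +kernel))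
        · have ho2 : o = 14742000000 := by norm_num at ho; omega
          exact no_num hp h he hpX hN (Or.inr (by rw [ho2]; decide +kernel))
        all_goals omega
      · refine no_num hp h he hpX hN (Or.inl ?_)
        have h7 : 4 * ((4 ^ 2 + 1) ^ 5 * 4 ^ 3) ≤ 4 * o := by
          refine le_trans ?_ hlow
          calc 4 * ((4 ^ 2 + 1) ^ 5 * 4 ^ 3) ≤ 6 ^ (4 * (4 - 1)) := by norm_num
            _ ≤ q ^ (4 * (4 - 1)) := Nat.pow_le_pow_left hq6 _
        omega
  · have hpX : p ≤ q ^ n + 1 := (Nat.le_of_dvd (uf_pos hq2) hpi).trans (uf_le hq2 hi)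
    have hN : n * (q ^ n + 1) ^ 3 ≤ o := by
      have := (i1 hn5 hq2).trans hlow
      exact Nat.le_of_mul_le_mul_left this (by omega)
    rcases Nat.lt_or_ge n 7 with hn7 | hn7
    · obtain rfl | rfl : n = 5 ∨ n = 6 := by omega
      · rcases Nat.lt_or_ge q 4 with hq4 | hq4
        · obtain rfl | rfl : q = 2 ∨ q = 3 := by omega
          · have hprod : ∏ i ∈ Finset.range 5, uf 2 i = 3 * 3 * 9 * 15 * 33 := by decide
            rw [hprod] at ho
            have ho2 : o = 13685760 := by norm_num at ho; omega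
            exact no_num hp h he hpX hN (Or.inr (by rw [ho2]; decide +kernel))
          · have hprod : ∏ i ∈ Finset.range 5, uf 3 i = 4 * 8 * 28 * 80 * 244 := by decide
            rw [hprod] at ho
            have ho2 : o = 258190571520 := by norm_num at ho; omega
            exact no_num hp h he hpX hN (Or.inr (by rw [ho2]; decide +kernel))
        · refine no_num hp h he hpX hN (Or.inl ?_)
          have h7 : 5 * ((5 ^ 2 + 1) ^ 5 * 5 ^ 3) ≤ 5 * o := by
            refine le_trans ?_ hlow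
            calc 5 * ((5 ^ 2 + 1) ^ 5 * 5 ^ 3) ≤ 4 ^ (5 * (5 - 1)) := by norm_num
              _ ≤ q ^ (5 * (5 - 1)) := Nat.pow_le_pow_left hq4 _
          omega
      · rcases Nat.lt_or_ge q 3 with hq4 | hq4
        · obtain rfl : q = 2 := by omega
          have hprod : ∏ i ∈ Finset.range 6, uf 2 i = 3 * 3 * 9 * 15 * 33 * 63 := by decide
          rw [hprod] at ho
          have ho2 : o = 9196830720 := by norm_num at ho; omega
          exact no_num hp h he hpX hN (Or.inr (by rw [ho2]; decide +kernel))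
        · refine no_num hp h he hpX hN (Or.inl ?_)
          have h7 : 6 * ((6 ^ 2 + 1) ^ 5 * 6 ^ 3) ≤ 6 * o := by
            refine le_trans ?_ hlow
            calc 6 * ((6 ^ 2 + 1) ^ 5 * 6 ^ 3) ≤ 3 ^ (6 * (6 - 1)) := by norm_num
              _ ≤ q ^ (6 * (6 - 1)) := Nat.pow_le_pow_left hq4 _
          omega
    · refine no_num hp h he hpX hN (Or.inl ?_)
      have := (i2 hn7 hq2).trans hlow
      exact Nat.le_of_mul_le_mul_left this (by omega)

/-- a power of two -/
theorem eq_two_pow {q : ℕ} (hq : IsPrimePow q) (h : Even q) : ∃ k, q = 2 ^ k := by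
  obtain ⟨r, k, hr, hk, rfl⟩ := (isPrimePow_nat_iff q).1 hq
  have h1 : 2 ∣ r := Nat.prime_two.dvd_of_dvd_pow h.two_dvd
  rw [(Nat.prime_dvd_prime_iff_eq Nat.prime_two hr).1 h1]
  exact ⟨k, rfl⟩

/-- `PSL_2` -/
theorem psl2 {p e q o : ℕ} (hp : p.Prime) (hq : IsPrimePow q) (hq4 : 4 ≤ q)
    (ho : Nat.gcd 2 (q - 1) * o = q * (q ^ 2 - 1))
    (hd : p ∣ o) (hsq : ¬ p ^ 2 ∣ o) (h : Num p e o) (he : ¬ p ∣ q → e ≤ 2) :
    q = p ∨ (3 < p ∧ (∃ k, p = 2 ^ k + 1) ∧ q = p - 1) ∨ (3 < p ∧ (∃ k, p + 1 = 2 ^ k) ∧ q = p + 1) := by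
  have hp2 := hp.two_le
  by_cases hpq : p ∣ q
  · left
    obtain ⟨r, k, hr, hk, rfl⟩ := (isPrimePow_nat_iff q).1 hq
    have h1 : p = r := (Nat.prime_dvd_prime_iff_eq hp hr).1 (hp.dvd_of_dvd_pow hpq)
    subst h1
    rcases Nat.lt_or_ge k 2 with hk2 | hk2
    · obtain rfl : k = 1 := by omega
      rw [pow_one]
    · exfalso
      apply hsq
      have h2 : p ^ 2 ∣ Nat.gcd 2 (p ^ k - 1) * o := by
        rw [ho]
        exact dvd_mul_of_dvd_left (pow_dvd_pow p hk2) _
      have h3 : (p ^ 2).Coprime (Nat.gcd 2 (p ^ k - 1)) := by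
        have h4 := (coprime_gcd_sub (n := 2) (q := p ^ k) (by omega)).symm
        exact Nat.Coprime.coprime_dvd_left (pow_dvd_pow p hk2) h4
      exact h3.dvd_of_dvd_mul_left h2
  · right
    rcases cases_of hp h with ⟨n, ho2, hn1, hn2, hmod, he2, hed⟩ |
      ⟨hp17, a, b, c, hpab, rfl, ha3, hab, hc, -, -⟩
    swap
    · exfalso
      have h1 := he hpq
      have h2 : b ≤ b * c := Nat.le_mul_of_pos_right b hc
      omega
    obtain rfl : e = 2 := le_antisymm (he hpq) he2
    have hq1 : q ^ 2 - 1 = (q + 1) * (q - 1) := by rw [← Nat.sq_sub_sq, one_pow]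
    rw [hq1] at ho
    have h1 : p ∣ q * ((q + 1) * (q - 1)) := by rw [← ho]; exact dvd_mul_of_dvd_right hd _
    have h2 : p ∣ (q + 1) * (q - 1) := ((hp.dvd_mul).1 h1).resolve_left hpq
    rcases (hp.dvd_mul).1 h2 with ⟨t, ht⟩ | ⟨t, ht⟩
    · -- `q + 1 = p t`
      left
      have ht0 : 0 < t := by
        rcases Nat.eq_zero_or_pos t with h3 | h3
        · rw [h3] at ht; omega
        · exact h3
      rcases Nat.even_or_odd q with hev | hodd
      · have hg : Nat.gcd 2 (q - 1) = 1 := by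
          obtain ⟨s, hs⟩ := hev
          have : Odd (q - 1) := ⟨s - 1, by (clear * - hq4 hs; omega)⟩
          exact (Nat.coprime_two_left).2 this
        rw [hg, one_mul, ho2, ht] at ho
        have h4 : 2 * n = q * (q - 1) * t := by
          apply Nat.eq_of_mul_eq_mul_left hp.pos
          calc p * (2 * n) = n * (p * 2) := by ring
            _ = _ := ho
            _ = _ := by ring
        rcases Nat.lt_or_ge t 2 with ht2 | ht2
        · obtain rfl : t = 1 := by omega
          obtain ⟨k, hk⟩ := eq_two_pow hq hev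
          exact ⟨by omega, ⟨k, by omega⟩, by (clear * - ht; omega)⟩
        · exfalso
          have h5 : 2 * p ≤ q + 1 := by rw [ht, mul_comm]; exact Nat.mul_le_mul_left _ ht2
          have h6 : (2 * p - 1) * (2 * p - 2) * 2 ≤ q * (q - 1) * t :=
            Nat.mul_le_mul (Nat.mul_le_mul (by omega) (by omega)) ht2
          obtain ⟨r, rfl⟩ : ∃ r, p = r + 2 := ⟨p - 2, by omega⟩
          rw [show 2 * (r + 2) - 1 = 2 * r + 3 by omega, show 2 * (r + 2) - 2 = 2 * r + 2 by omega] at h6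
          nlinarith only [h4, hn2, h6]
      · exfalso
        have hg : Nat.gcd 2 (q - 1) = 2 := by
          obtain ⟨s, hs⟩ := hodd
          exact Nat.gcd_eq_left ⟨s, by omega⟩
        rw [hg, ho2, ht] at ho
        have h4 : 4 * n = q * (q - 1) * t := by
          apply Nat.eq_of_mul_eq_mul_left hp.pos
          calc p * (4 * n) = 2 * (n * (p * 2)) := by ring
            _ = _ := ho
            _ = _ := by ring
        have hp3 : 3 ≤ p := by
          by_contra hcon
          obtain rfl : p = 2 := by omega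
          rw [sq] at hn2
          obtain rfl : n = 3 := by omega
          obtain ⟨s, hs⟩ := hodd
          have : 5 * 4 * 1 ≤ q * (q - 1) * t :=
            Nat.mul_le_mul (Nat.mul_le_mul (by omega) (by omega)) (by omega)
          omega
        rcases Nat.lt_or_ge t 2 with ht2 | ht2
        · obtain rfl : t = 1 := by omega
          rcases hp.eq_two_or_odd' with h5 | h5
          · omega
          · obtain ⟨s, hs⟩ := hodd
            obtain ⟨s', hs'⟩ := h5
            omega
        · have h5 : 2 * p ≤ q + 1 := by rw [ht, mul_comm]; exact Nat.mul_le_mul_left _ ht2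
          have h6 : (2 * p - 1) * (2 * p - 2) * 2 ≤ q * (q - 1) * t :=
            Nat.mul_le_mul (Nat.mul_le_mul (by omega) (by omega)) ht2
          obtain ⟨r, rfl⟩ : ∃ r, p = r + 3 := ⟨p - 3, by omega⟩
          rw [show 2 * (r + 3) - 1 = 2 * r + 5 by omega, show 2 * (r + 3) - 2 = 2 * r + 4 by omega] at h6
          nlinarith only [h4, hn2, h6]
    · -- `q - 1 = p t`
      right
      have hqt : q = p * t + 1 := by omega
      have ht0 : 0 < t := by
        rcases Nat.eq_zero_or_pos t with h3 | h3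
        · rw [h3] at ht; omega
        · exact h3
      rcases Nat.even_or_odd q with hev | hodd
      · have hg : Nat.gcd 2 (q - 1) = 1 := by
          obtain ⟨s, hs⟩ := hev
          have : Odd (q - 1) := ⟨s - 1, by omega⟩
          exact (Nat.coprime_two_left).2 this
        rw [hg, one_mul, ho2, ht] at ho
        have h4 : 2 * n = q * (q + 1) * t := by
          apply Nat.eq_of_mul_eq_mul_left hp.pos
          calc p * (2 * n) = n * (p * 2) := by ring
            _ = _ := ho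
            _ = _ := by ring
        rcases Nat.lt_or_ge t 2 with ht2 | ht2
        · obtain rfl : t = 1 := by omega
          obtain ⟨k, hk⟩ := eq_two_pow hq hev
          have hp3 : p ≠ 3 := by
            rintro rfl
            obtain rfl : q = 4 := by omega
            omega
          exact ⟨by omega, ⟨k, by omega⟩, by omega⟩
        · exfalso
          have h5 : p * 2 ≤ p * t := Nat.mul_le_mul_left _ ht2
          have h6 : (p * 2) * (p * 2) * 2 ≤ q * (q + 1) * t :=
            Nat.mul_le_mul (Nat.mul_le_mul (by omega) (by omega)) ht2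
          linarith only [hn2, h4, h6]
      · exfalso
        have hg : Nat.gcd 2 (q - 1) = 2 := by
          obtain ⟨s, hs⟩ := hodd
          exact Nat.gcd_eq_left ⟨s, by omega⟩
        rw [hg, ho2, ht] at ho
        have h4 : 4 * n = q * (q + 1) * t := by
          apply Nat.eq_of_mul_eq_mul_left hp.pos
          calc p * (4 * n) = 2 * (n * (p * 2)) := by ring
            _ = _ := ho
            _ = _ := by ring
        rcases Nat.lt_or_ge t 2 with ht2 | ht2
        · obtain rfl : t = 1 := by omega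
          rcases hp.eq_two_or_odd' with h5 | h5
          · omega
          · obtain ⟨s, hs⟩ := hodd
            obtain ⟨s', hs'⟩ := h5
            omega
        · have h5 : p * 2 ≤ p * t := Nat.mul_le_mul_left _ ht2
          have h6 : (p * 2) * (p * 2) * 2 ≤ q * (q + 1) * t :=
            Nat.mul_le_mul (Nat.mul_le_mul (by omega) (by omega)) ht2
          linarith only [hn2, h4, h6]

end Cfsg.Agent.H570.Fam
end

-- part: H570/FamD
section
/-!
Elimination of the exceptional groups, numerical part.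
-/

set_option autoImplicit false

namespace Cfsg.Agent.H570.Fam

open Cfsg.Agent.H570.Data Cfsg.Agent.H570.Chk Cfsg.Agent.H570.Ineq

theorem sub_ge {q : ℕ} (k : ℕ) (hq : 2 ≤ q) : q ^ k ≤ q ^ (k + 1) - 1 := by
  have h2 : q ^ (k + 1) = q ^ k * q := pow_succ _ _
  have h3 : q ^ k * 2 ≤ q ^ k * q := Nat.mul_le_mul_left _ hq
  have h4 : 1 ≤ q ^ k := Nat.one_le_pow _ _ (by omega)
  omega

theorem add_ge {q : ℕ} (k : ℕ) (hq : 2 ≤ q) : q ^ k ≤ q ^ (k + 1) + 1 := by
  have := sub_ge k hq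
  omega

theorem le_X {p q : ℕ} (k K : ℕ) (hk1 : 1 ≤ k) (hk : k ≤ K) (hq : 2 ≤ q)
    (h : p ∣ q ^ k - 1) : p ≤ q ^ K := by
  have h1 : q ^ k ≤ q ^ K := Nat.pow_le_pow_right (by omega) hk
  have h2 : 2 ≤ q ^ k := by
    calc 2 ≤ q := hq
      _ = q ^ 1 := (pow_one q).symm
      _ ≤ q ^ k := Nat.pow_le_pow_right (by omega) hk1
  have := Nat.le_of_dvd (by omega) h
  omega

theorem le_X' {p q : ℕ} (k K : ℕ) (hk : k < K) (hq : 2 ≤ q)
    (h : p ∣ q ^ k + 1) : p ≤ q ^ K := by
  have h1 : q ^ (k + 1) ≤ q ^ K := Nat.pow_le_pow_right (by omega) hk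
  have h2 : q ^ (k + 1) = q ^ k * q := pow_succ _ _
  have h3 : q ^ k * 2 ≤ q ^ k * q := Nat.mul_le_mul_left _ hq
  have h4 : 1 ≤ q ^ k := Nat.one_le_pow _ _ (by omega)
  have := Nat.le_of_dvd (by omega) h
  omega

theorem f4 {p e q o : ℕ} (hp : p.Prime) (hq2 : 2 ≤ q)
    (ho : o = q ^ 24 * (q ^ 2 - 1) * (q ^ 6 - 1) * (q ^ 8 - 1) * (q ^ 12 - 1))
    (hd : p ∣ o) (hsq : ¬ p ^ 2 ∣ o) (h : _root_.Cfsg.Agent.H570.Data.Num p e o) (he : ¬ p ∣ q → e ≤ 52) : False := by
  have hpq : ¬ p ∣ q := by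
    refine cop_of (E := 24) (d := 1) hsq (by omega) (Nat.coprime_one_left _) ?_
    rw [ho, one_mul]
    exact Dvd.intro ((q ^ 2 - 1) * (q ^ 6 - 1) * (q ^ 8 - 1) * (q ^ 12 - 1)) (by ring)
  replace he := he hpq
  have hpX : p ≤ q ^ 12 := by
    rw [ho, hp.dvd_mul, hp.dvd_mul, hp.dvd_mul, hp.dvd_mul] at hd
    rcases hd with (((hd | hd) | hd) | hd) | hd
    · exact absurd (hp.dvd_of_dvd_pow hd) hpq
    · exact le_X 2 12 (by norm_num) (by norm_num) hq2 hd
    · exact le_X 6 12 (by norm_num) (by norm_num) hq2 hd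
    · exact le_X 8 12 (by norm_num) (by norm_num) hq2 hd
    · exact le_X 12 12 (by norm_num) (by norm_num) hq2 hd
  have hlow : q ^ 48 ≤ o := by
    rw [ho]
    calc q ^ 48 = q ^ 24 * q ^ 1 * q ^ 5 * q ^ 7 * q ^ 11 := by ring
      _ ≤ _ := by
        gcongr
        · exact sub_ge 1 hq2
        · exact sub_ge 5 hq2
        · exact sub_ge 7 hq2
        · exact sub_ge 11 hq2
  refine no_num hp h he hpX ?_ ?_
  · refine le_trans ?_ hlow
    calc 52 * (q ^ 12) ^ 3 ≤ 2 ^ 12 * (q ^ 12) ^ 3 := by gcongr; norm_num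
      _ ≤ q ^ 12 * (q ^ 12) ^ 3 := by gcongr
      _ = q ^ 48 := by ring
  · rcases Nat.lt_or_ge q 3 with hq3 | hq3
    · obtain rfl : q = 2 := by omega
      right
      have ho2 : o = 3311126603366400 := by rw [ho]; norm_num
      rw [ho2]; decide +kernel
    · left
      refine le_trans ?_ hlow
      calc (52 ^ 2 + 1) ^ 5 * 52 ^ 3 ≤ 3 ^ 48 := by norm_num
        _ ≤ q ^ 48 := by gcongr

theorem e6 {p e q o : ℕ} (hp : p.Prime) (hq2 : 2 ≤ q)
    (ho : Nat.gcd 3 (q - 1) * o =
      q ^ 36 * (q ^ 2 - 1) * (q ^ 5 - 1) * (q ^ 6 - 1) * (q ^ 8 - 1) * (q ^ 9 - 1) * (q ^ 12 - 1))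
    (hd : p ∣ o) (hsq : ¬ p ^ 2 ∣ o) (h : _root_.Cfsg.Agent.H570.Data.Num p e o) (he : ¬ p ∣ q → e ≤ 78) : False := by
  have hpq : ¬ p ∣ q := by
    refine cop_of (E := 36) (d := Nat.gcd 3 (q - 1)) hsq (by omega) (coprime_gcd_sub hq2) ?_
    rw [ho]
    exact Dvd.intro ((q ^ 2 - 1) * (q ^ 5 - 1) * (q ^ 6 - 1) * (q ^ 8 - 1) * (q ^ 9 - 1) * (q ^ 12 - 1))
      (by ring)
  replace he := he hpq
  have hpX : p ≤ q ^ 12 := by
    have hd2 : p ∣ Nat.gcd 3 (q - 1) * o := dvd_mul_of_dvd_right hd _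
    rw [ho, hp.dvd_mul, hp.dvd_mul, hp.dvd_mul, hp.dvd_mul, hp.dvd_mul, hp.dvd_mul] at hd2
    rcases hd2 with (((((hd | hd) | hd) | hd) | hd) | hd) | hd
    · exact absurd (hp.dvd_of_dvd_pow hd) hpq
    · exact le_X 2 12 (by norm_num) (by norm_num) hq2 hd
    · exact le_X 5 12 (by norm_num) (by norm_num) hq2 hd
    · exact le_X 6 12 (by norm_num) (by norm_num) hq2 hd
    · exact le_X 8 12 (by norm_num) (by norm_num) hq2 hd
    · exact le_X 9 12 (by norm_num) (by norm_num) hq2 hd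
    · exact le_X 12 12 (by norm_num) (by norm_num) hq2 hd
  have hlow : q ^ 72 ≤ 3 * o := by
    calc q ^ 72 = q ^ 36 * q ^ 1 * q ^ 4 * q ^ 5 * q ^ 7 * q ^ 8 * q ^ 11 := by ring
      _ ≤ Nat.gcd 3 (q - 1) * o := by
        rw [ho]
        gcongr
        · exact sub_ge 1 hq2
        · exact sub_ge 4 hq2
        · exact sub_ge 5 hq2
        · exact sub_ge 7 hq2
        · exact sub_ge 8 hq2
        · exact sub_ge 11 hq2
      _ ≤ 3 * o := Nat.mul_le_mul_right _ (Nat.le_of_dvd (by norm_num) (Nat.gcd_dvd_left _ _))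
  refine no_num hp h he hpX ?_ ?_
  · have : 3 * (78 * (q ^ 12) ^ 3) ≤ 3 * o := by
      refine le_trans ?_ hlow
      calc 3 * (78 * (q ^ 12) ^ 3) = 234 * q ^ 36 := by ring
        _ ≤ 2 ^ 36 * q ^ 36 := by gcongr; norm_num
        _ ≤ q ^ 36 * q ^ 36 := by gcongr
        _ = q ^ 72 := by ring
    omega
  · rcases Nat.lt_or_ge q 3 with hq3 | hq3
    · obtain rfl : q = 2 := by omega
      right
      have ho2 : o = 214841575522005575270400 := by norm_num at ho; omega
      rw [ho2]; decide +kernel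
    · left
      have : 3 * ((78 ^ 2 + 1) ^ 5 * 78 ^ 3) ≤ 3 * o := by
        refine le_trans ?_ hlow
        calc 3 * ((78 ^ 2 + 1) ^ 5 * 78 ^ 3) ≤ 3 ^ 72 := by norm_num
          _ ≤ q ^ 72 := by gcongr
      omega

theorem te6 {p e q o : ℕ} (hp : p.Prime) (hq2 : 2 ≤ q)
    (ho : Nat.gcd 3 (q + 1) * o =
      q ^ 36 * (q ^ 2 - 1) * (q ^ 5 + 1) * (q ^ 6 - 1) * (q ^ 8 - 1) * (q ^ 9 + 1) * (q ^ 12 - 1))
    (hd : p ∣ o) (hsq : ¬ p ^ 2 ∣ o) (h : _root_.Cfsg.Agent.H570.Data.Num p e o) (he : ¬ p ∣ q → e ≤ 78) : False := by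
  have hpq : ¬ p ∣ q := by
    refine cop_of (E := 36) (d := Nat.gcd 3 (q + 1)) hsq (by omega)
      (Nat.Coprime.coprime_dvd_left (Nat.gcd_dvd_right 3 (q + 1)) coprime_add) ?_
    rw [ho]
    exact Dvd.intro ((q ^ 2 - 1) * (q ^ 5 + 1) * (q ^ 6 - 1) * (q ^ 8 - 1) * (q ^ 9 + 1) * (q ^ 12 - 1))
      (by ring)
  replace he := he hpq
  have hpX : p ≤ q ^ 12 := by
    have hd2 : p ∣ Nat.gcd 3 (q + 1) * o := dvd_mul_of_dvd_right hd _
    rw [ho, hp.dvd_mul, hp.dvd_mul, hp.dvd_mul, hp.dvd_mul, hp.dvd_mul, hp.dvd_mul] at hd2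
    rcases hd2 with (((((hd | hd) | hd) | hd) | hd) | hd) | hd
    · exact absurd (hp.dvd_of_dvd_pow hd) hpq
    · exact le_X 2 12 (by norm_num) (by norm_num) hq2 hd
    · exact le_X' 5 12 (by norm_num) hq2 hd
    · exact le_X 6 12 (by norm_num) (by norm_num) hq2 hd
    · exact le_X 8 12 (by norm_num) (by norm_num) hq2 hd
    · exact le_X' 9 12 (by norm_num) hq2 hd
    · exact le_X 12 12 (by norm_num) (by norm_num) hq2 hd
  have hlow : q ^ 72 ≤ 3 * o := by
    calc q ^ 72 = q ^ 36 * q ^ 1 * q ^ 4 * q ^ 5 * q ^ 7 * q ^ 8 * q ^ 11 := by ring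
      _ ≤ Nat.gcd 3 (q + 1) * o := by
        rw [ho]
        gcongr
        · exact sub_ge 1 hq2
        · exact add_ge 4 hq2
        · exact sub_ge 5 hq2
        · exact sub_ge 7 hq2
        · exact add_ge 8 hq2
        · exact sub_ge 11 hq2
      _ ≤ 3 * o := Nat.mul_le_mul_right _ (Nat.le_of_dvd (by norm_num) (Nat.gcd_dvd_left _ _))
  refine no_num hp h he hpX ?_ ?_
  · have : 3 * (78 * (q ^ 12) ^ 3) ≤ 3 * o := by
      refine le_trans ?_ hlow
      calc 3 * (78 * (q ^ 12) ^ 3) = 234 * q ^ 36 := by ring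
        _ ≤ 2 ^ 36 * q ^ 36 := by gcongr; norm_num
        _ ≤ q ^ 36 * q ^ 36 := by gcongr
        _ = q ^ 72 := by ring
    omega
  · rcases Nat.lt_or_ge q 3 with hq3 | hq3
    · obtain rfl : q = 2 := by omega
      right
      have ho2 : o = 76532479683774853939200 := by norm_num at ho; omega
      rw [ho2]; decide +kernel
    · left
      have : 3 * ((78 ^ 2 + 1) ^ 5 * 78 ^ 3) ≤ 3 * o := by
        refine le_trans ?_ hlow
        calc 3 * ((78 ^ 2 + 1) ^ 5 * 78 ^ 3) ≤ 3 ^ 72 := by norm_num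
          _ ≤ q ^ 72 := by gcongr
      omega

theorem e7 {p e q o : ℕ} (hp : p.Prime) (hq2 : 2 ≤ q)
    (ho : Nat.gcd 2 (q - 1) * o = q ^ 63 * (q ^ 2 - 1) * (q ^ 6 - 1) * (q ^ 8 - 1) *
      (q ^ 10 - 1) * (q ^ 12 - 1) * (q ^ 14 - 1) * (q ^ 18 - 1))
    (hd : p ∣ o) (hsq : ¬ p ^ 2 ∣ o) (h : _root_.Cfsg.Agent.H570.Data.Num p e o) (he : ¬ p ∣ q → e ≤ 133) : False := by
  have hpq : ¬ p ∣ q := by
    refine cop_of (E := 63) (d := Nat.gcd 2 (q - 1)) hsq (by omega) (coprime_gcd_sub hq2) ?_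
    rw [ho]
    exact Dvd.intro ((q ^ 2 - 1) * (q ^ 6 - 1) * (q ^ 8 - 1) *
      (q ^ 10 - 1) * (q ^ 12 - 1) * (q ^ 14 - 1) * (q ^ 18 - 1)) (by ring)
  replace he := he hpq
  have hpX : p ≤ q ^ 18 := by
    have hd2 : p ∣ Nat.gcd 2 (q - 1) * o := dvd_mul_of_dvd_right hd _
    rw [ho, hp.dvd_mul, hp.dvd_mul, hp.dvd_mul, hp.dvd_mul, hp.dvd_mul, hp.dvd_mul, hp.dvd_mul] at hd2
    rcases hd2 with ((((((hd | hd) | hd) | hd) | hd) | hd) | hd) | hd
    · exact absurd (hp.dvd_of_dvd_pow hd) hpq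
    · exact le_X 2 18 (by norm_num) (by norm_num) hq2 hd
    · exact le_X 6 18 (by norm_num) (by norm_num) hq2 hd
    · exact le_X 8 18 (by norm_num) (by norm_num) hq2 hd
    · exact le_X 10 18 (by norm_num) (by norm_num) hq2 hd
    · exact le_X 12 18 (by norm_num) (by norm_num) hq2 hd
    · exact le_X 14 18 (by norm_num) (by norm_num) hq2 hd
    · exact le_X 18 18 (by norm_num) (by norm_num) hq2 hd
  have hlow : q ^ 126 ≤ 2 * o := by
    calc q ^ 126 = q ^ 63 * q ^ 1 * q ^ 5 * q ^ 7 * q ^ 9 * q ^ 11 * q ^ 13 * q ^ 17 := by ring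
      _ ≤ Nat.gcd 2 (q - 1) * o := by
        rw [ho]
        gcongr
        · exact sub_ge 1 hq2
        · exact sub_ge 5 hq2
        · exact sub_ge 7 hq2
        · exact sub_ge 9 hq2
        · exact sub_ge 11 hq2
        · exact sub_ge 13 hq2
        · exact sub_ge 17 hq2
      _ ≤ 2 * o := Nat.mul_le_mul_right _ (Nat.le_of_dvd (by norm_num) (Nat.gcd_dvd_left _ _))
  refine no_num hp h he hpX ?_ (Or.inl ?_)
  · have : 2 * (133 * (q ^ 18) ^ 3) ≤ 2 * o := by
      refine le_trans ?_ hlow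
      calc 2 * (133 * (q ^ 18) ^ 3) = 266 * q ^ 54 := by ring
        _ ≤ 2 ^ 72 * q ^ 54 := by gcongr; norm_num
        _ ≤ q ^ 72 * q ^ 54 := by gcongr
        _ = q ^ 126 := by ring
    omega
  · have : 2 * ((133 ^ 2 + 1) ^ 5 * 133 ^ 3) ≤ 2 * o := by
      refine le_trans ?_ hlow
      calc 2 * ((133 ^ 2 + 1) ^ 5 * 133 ^ 3) ≤ 2 ^ 126 := by norm_num
        _ ≤ q ^ 126 := by gcongr
    omega

theorem e8 {p e q o : ℕ} (hp : p.Prime) (hq2 : 2 ≤ q)
    (ho : o = q ^ 120 * (q ^ 2 - 1) * (q ^ 8 - 1) * (q ^ 12 - 1) * (q ^ 14 - 1) *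
      (q ^ 18 - 1) * (q ^ 20 - 1) * (q ^ 24 - 1) * (q ^ 30 - 1))
    (hd : p ∣ o) (hsq : ¬ p ^ 2 ∣ o) (h : _root_.Cfsg.Agent.H570.Data.Num p e o) (he : ¬ p ∣ q → e ≤ 248) : False := by
  have hpq : ¬ p ∣ q := by
    refine cop_of (E := 120) (d := 1) hsq (by omega) (Nat.coprime_one_left _) ?_
    rw [ho, one_mul]
    exact Dvd.intro ((q ^ 2 - 1) * (q ^ 8 - 1) * (q ^ 12 - 1) * (q ^ 14 - 1) *
      (q ^ 18 - 1) * (q ^ 20 - 1) * (q ^ 24 - 1) * (q ^ 30 - 1)) (by ring)
  replace he := he hpq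
  have hpX : p ≤ q ^ 30 := by
    rw [ho, hp.dvd_mul, hp.dvd_mul, hp.dvd_mul, hp.dvd_mul, hp.dvd_mul, hp.dvd_mul, hp.dvd_mul,
      hp.dvd_mul] at hd
    rcases hd with (((((((hd | hd) | hd) | hd) | hd) | hd) | hd) | hd) | hd
    · exact absurd (hp.dvd_of_dvd_pow hd) hpq
    · exact le_X 2 30 (by norm_num) (by norm_num) hq2 hd
    · exact le_X 8 30 (by norm_num) (by norm_num) hq2 hd
    · exact le_X 12 30 (by norm_num) (by norm_num) hq2 hd
    · exact le_X 14 30 (by norm_num) (by norm_num) hq2 hd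
    · exact le_X 18 30 (by norm_num) (by norm_num) hq2 hd
    · exact le_X 20 30 (by norm_num) (by norm_num) hq2 hd
    · exact le_X 24 30 (by norm_num) (by norm_num) hq2 hd
    · exact le_X 30 30 (by norm_num) (by norm_num) hq2 hd
  have hlow : q ^ 240 ≤ o := by
    rw [ho]
    calc q ^ 240 = q ^ 120 * q ^ 1 * q ^ 7 * q ^ 11 * q ^ 13 * q ^ 17 * q ^ 19 * q ^ 23 * q ^ 29 := by
          rw [← pow_add, ← pow_add, ← pow_add, ← pow_add, ← pow_add, ← pow_add, ← pow_add, ← pow_add]
      _ ≤ _ := by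
        gcongr
        · exact sub_ge 1 hq2
        · exact sub_ge 7 hq2
        · exact sub_ge 11 hq2
        · exact sub_ge 13 hq2
        · exact sub_ge 17 hq2
        · exact sub_ge 19 hq2
        · exact sub_ge 23 hq2
        · exact sub_ge 29 hq2
  refine no_num hp h he hpX ?_ (Or.inl ?_)
  · refine le_trans ?_ hlow
    calc 248 * (q ^ 30) ^ 3 = 248 * q ^ 90 := by rw [← pow_mul]
      _ ≤ 2 ^ 150 * q ^ 90 := by gcongr; norm_num
      _ ≤ q ^ 150 * q ^ 90 := by gcongr
      _ = q ^ 240 := by rw [← pow_add]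
  · refine le_trans ?_ hlow
    calc (248 ^ 2 + 1) ^ 5 * 248 ^ 3 ≤ 2 ^ 240 := by norm_num
      _ ≤ q ^ 240 := by gcongr

theorem g2 {p e q o : ℕ} (hp : p.Prime) (hq : IsPrimePow q) (hq3 : 3 ≤ q)
    (ho : o = q ^ 6 * (q ^ 2 - 1) * (q ^ 6 - 1))
    (hd : p ∣ o) (hsq : ¬ p ^ 2 ∣ o) (h : Num p e o) (he : ¬ p ∣ q → e ≤ 14) : False := by
  have hpq : ¬ p ∣ q := by
    refine cop_of (E := 6) (d := 1) hsq (by omega) (Nat.coprime_one_left _) ?_
    rw [ho, one_mul]
    exact Dvd.intro ((q ^ 2 - 1) * (q ^ 6 - 1)) (by ring)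
  replace he := he hpq
  have hpX : p ≤ q ^ 3 + 1 := by
    rw [ho, hp.dvd_mul, hp.dvd_mul] at hd
    rcases hd with (hd | hd) | hd
    · exact absurd (hp.dvd_of_dvd_pow hd) hpq
    · have := le_X 2 3 (by norm_num) (by norm_num) (by omega) hd
      omega
    · exact prime_le_of_dvd_sub_one (k := 3) hp (by omega) (by norm_num) hd
  have hN : 14 * (q ^ 3 + 1) ^ 3 ≤ o := by
    rw [ho]
    have h1 : 8 ≤ q ^ 2 - 1 := by
      have : 3 ^ 2 ≤ q ^ 2 := Nat.pow_le_pow_left hq3 2
      omega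
    have h2 : 14 * q ^ 3 ≤ q ^ 6 - 1 := by
      have h3 : 3 ^ 3 ≤ q ^ 3 := Nat.pow_le_pow_left hq3 3
      have h4 : q ^ 6 = q ^ 3 * q ^ 3 := by ring
      have h5 : 27 * q ^ 3 ≤ q ^ 3 * q ^ 3 := Nat.mul_le_mul_right _ h3
      omega
    calc 14 * (q ^ 3 + 1) ^ 3 ≤ 14 * (8 * q ^ (3 * 3)) := by gcongr; exact add_one_cube (by omega)
      _ = q ^ 6 * 8 * (14 * q ^ 3) := by ring
      _ ≤ _ := Nat.mul_le_mul (Nat.mul_le_mul_left _ h1) h2
  rcases Nat.lt_or_ge q 13 with hq13 | hq13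
  · rcases q_list hq hq13 with rfl | rfl | rfl | rfl | rfl | rfl | rfl | rfl
    · omega
    all_goals
      refine no_num hp h he hpX hN (Or.inr ?_)
      norm_num at ho
      rw [ho]
      decide +kernel
  · refine no_num hp h he hpX hN (Or.inl ?_)
    rw [ho]
    calc (14 ^ 2 + 1) ^ 5 * 14 ^ 3 ≤ 13 ^ 6 * (13 ^ 2 - 1) * (13 ^ 6 - 1) := by norm_num
      _ ≤ _ := by gcongr

theorem td4 {p e q o : ℕ} (hp : p.Prime) (hq2 : 2 ≤ q)
    (ho : o = q ^ 12 * (q ^ 2 - 1) * (q ^ 6 - 1) * (q ^ 8 + q ^ 4 + 1))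
    (hd : p ∣ o) (hsq : ¬ p ^ 2 ∣ o) (h : _root_.Cfsg.Agent.H570.Data.Num p e o) (he : ¬ p ∣ q → e ≤ 28) : False := by
  have hpq : ¬ p ∣ q := by
    refine cop_of (E := 12) (d := 1) hsq (by omega) (Nat.coprime_one_left _) ?_
    rw [ho, one_mul]
    exact Dvd.intro ((q ^ 2 - 1) * (q ^ 6 - 1) * (q ^ 8 + q ^ 4 + 1)) (by ring)
  replace he := he hpq
  have hpX : p ≤ 2 * q ^ 4 := by
    have e0 : 2 * q ^ 2 ≤ q ^ 4 := by
      have : 2 ^ 2 ≤ q ^ 2 := Nat.pow_le_pow_left hq2 2
      nlinarith only [this]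
    have e1 : 2 ^ 2 ≤ q ^ 2 := Nat.pow_le_pow_left hq2 2
    rw [ho, hp.dvd_mul, hp.dvd_mul, hp.dvd_mul] at hd
    rcases hd with ((hd | hd) | hd) | hd
    · exact absurd (hp.dvd_of_dvd_pow hd) hpq
    · have := le_X 2 4 (by norm_num) (by norm_num) hq2 hd
      omega
    · have h1 := prime_le_of_dvd_sub_one (k := 3) hp hq2 (by norm_num) hd
      have h2 : q ^ 3 * 2 ≤ q ^ 3 * q := Nat.mul_le_mul_left _ hq2
      have h3 : q ^ 4 = q ^ 3 * q := by ring
      omega
    · have h1 : q ^ 8 + q ^ 4 + 1 = (q ^ 4 + q ^ 2 + 1) * (q ^ 4 - q ^ 2 + 1) := by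
        obtain ⟨t, ht⟩ : ∃ t, q ^ 4 = q ^ 2 + t := ⟨q ^ 4 - q ^ 2, by omega⟩
        have h8 : q ^ 8 = q ^ 4 * q ^ 4 := by ring
        have h4 : q ^ 4 = q ^ 2 * q ^ 2 := by ring
        rw [h8, ht, show q ^ 2 + t - q ^ 2 = t by omega]
        rw [h4] at ht
        generalize q ^ 2 = x at *
        linarith only [ht]
      rw [h1] at hd
      rcases (hp.dvd_mul).1 hd with h2 | h2
      · have := Nat.le_of_dvd (by omega) h2
        omega
      · have := Nat.le_of_dvd (by omega) h2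
        omega
  have hN : 28 * (2 * q ^ 4) ^ 3 ≤ o := by
    rw [ho]
    have h1 : 3 ≤ q ^ 2 - 1 := by
      have : 2 ^ 2 ≤ q ^ 2 := Nat.pow_le_pow_left hq2 2
      omega
    have h2 : 63 ≤ q ^ 6 - 1 := by
      have : 2 ^ 6 ≤ q ^ 6 := Nat.pow_le_pow_left hq2 6
      omega
    have h3 : 256 ≤ q ^ 8 + q ^ 4 + 1 := by
      have : 2 ^ 8 ≤ q ^ 8 := Nat.pow_le_pow_left hq2 8
      omega
    calc 28 * (2 * q ^ 4) ^ 3 = q ^ 12 * 224 := by ring
      _ ≤ q ^ 12 * (3 * 63 * 256) := by gcongr; norm_num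
      _ = q ^ 12 * 3 * 63 * 256 := by ring
      _ ≤ _ := Nat.mul_le_mul (Nat.mul_le_mul (Nat.mul_le_mul_left _ h1) h2) h3
  rcases Nat.lt_or_ge q 5 with hq5 | hq5
  · obtain rfl | rfl | rfl : q = 2 ∨ q = 3 ∨ q = 4 := by omega
    all_goals
      refine no_num hp h he hpX hN (Or.inr ?_)
      norm_num at ho
      rw [ho]
      decide +kernel
  · refine no_num hp h he hpX hN (Or.inl ?_)
    rw [ho]
    calc (28 ^ 2 + 1) ^ 5 * 28 ^ 3 ≤ 5 ^ 12 * (5 ^ 2 - 1) * (5 ^ 6 - 1) * (5 ^ 8 + 5 ^ 4 + 1) := by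
          norm_num
      _ ≤ _ := by gcongr

theorem sz {p e m o : ℕ} (hp : p.Prime) (hm : 1 ≤ m)
    (ho : o = (2 ^ (2 * m + 1)) ^ 2 * (2 ^ (2 * m + 1) - 1) * ((2 ^ (2 * m + 1)) ^ 2 + 1))
    (hd : p ∣ o) (hsq : ¬ p ^ 2 ∣ o) (h : Num p e o) (he : ¬ p ∣ 2 ^ (2 * m + 1) → e ≤ 4) : False := by
  set q := 2 ^ (2 * m + 1) with hq
  have hq8 : 8 ≤ q := by
    calc 8 = 2 ^ 3 := by norm_num
      _ ≤ q := Nat.pow_le_pow_right (by norm_num) (by omega)
  have hpq : ¬ p ∣ q := by
    refine cop_of (E := 2) (d := 1) hsq (by omega) (Nat.coprime_one_left _) ?_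
    rw [ho, one_mul]
    exact Dvd.intro ((q - 1) * (q ^ 2 + 1)) (by ring)
  replace he := he hpq
  obtain ⟨r, hr, hr2⟩ : ∃ r, r = 2 ^ (m + 1) ∧ r * r = 2 * q := by
    refine ⟨_, rfl, ?_⟩
    rw [hq, ← pow_add, ← pow_succ']
    congr 1
    ring
  have hr4 : 4 ≤ r := by
    rw [hr]
    calc 4 = 2 ^ 2 := by norm_num
      _ ≤ 2 ^ (m + 1) := Nat.pow_le_pow_right (by norm_num) (by omega)
  have hrq : 2 * r ≤ q := by nlinarith only [hr2, hr4]
  have hpX : p ≤ 2 * q := by
    rw [ho, hp.dvd_mul, hp.dvd_mul] at hd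
    rcases hd with (hd | hd) | hd
    · exact absurd (hp.dvd_of_dvd_pow hd) hpq
    · have := Nat.le_of_dvd (by omega) hd
      omega
    · have h1 : q ^ 2 + 1 = (q + 1 + r) * (q + 1 - r) := by
        obtain ⟨s, hs⟩ : ∃ s, q = r + s := ⟨q - r, by (clear * - hrq; omega)⟩
        rw [show q + 1 - r = s + 1 by omega]
        nlinarith only [hr2, hs]
      rw [h1] at hd
      rcases (hp.dvd_mul).1 hd with h2 | h2
      · have := Nat.le_of_dvd (by omega) h2
        (clear * - hr4 hrq this; omega)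
      · have := Nat.le_of_dvd (by omega) h2
        (clear * - hr4 this; omega)
  have hN : 4 * (2 * q) ^ 3 ≤ o := by
    rw [ho]
    have h1 : 7 ≤ q - 1 := by omega
    have h2 : 8 * q ≤ q ^ 2 + 1 := by nlinarith only [hq8]
    calc 4 * (2 * q) ^ 3 = q ^ 2 * 4 * (8 * q) := by ring
      _ ≤ q ^ 2 * 7 * (8 * q) := by gcongr; norm_num
      _ ≤ _ := Nat.mul_le_mul (Nat.mul_le_mul_left _ h1) h2
  rcases Nat.lt_or_ge m 3 with hm3 | hm3
  · obtain rfl | rfl : m = 1 ∨ m = 2 := by omega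
    all_goals
      refine no_num hp h he hpX hN (Or.inr ?_)
      rw [hq] at ho
      norm_num at ho
      rw [ho]
      decide +kernel
  · refine no_num hp h he hpX hN (Or.inl ?_)
    have hq128 : 128 ≤ q := by
      calc 128 = 2 ^ 7 := by norm_num
        _ ≤ q := Nat.pow_le_pow_right (by norm_num) (by omega)
    rw [ho]
    calc (4 ^ 2 + 1) ^ 5 * 4 ^ 3 ≤ 128 ^ 2 * (128 - 1) * (128 ^ 2 + 1) := by norm_num
      _ ≤ _ := by gcongr

theorem ree {p e m o : ℕ} (hp : p.Prime) (hm : 1 ≤ m)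
    (ho : o = (3 ^ (2 * m + 1)) ^ 3 * (3 ^ (2 * m + 1) - 1) * ((3 ^ (2 * m + 1)) ^ 3 + 1))
    (hd : p ∣ o) (hsq : ¬ p ^ 2 ∣ o) (h : Num p e o) (he : ¬ p ∣ 3 ^ (2 * m + 1) → e ≤ 14) : False := by
  set q := 3 ^ (2 * m + 1) with hq
  have hq8 : 27 ≤ q := by
    calc 27 = 3 ^ 3 := by norm_num
      _ ≤ q := Nat.pow_le_pow_right (by norm_num) (by omega)
  have hpq : ¬ p ∣ q := by
    refine cop_of (E := 3) (d := 1) hsq (by omega) (Nat.coprime_one_left _) ?_
    rw [ho, one_mul]
    exact Dvd.intro ((q - 1) * (q ^ 3 + 1)) (by ring)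
  replace he := he hpq
  have hpX : p ≤ q ^ 2 := by
    have h0 : 27 * q ≤ q ^ 2 := by nlinarith only [hq8]
    rw [ho, hp.dvd_mul, hp.dvd_mul] at hd
    rcases hd with (hd | hd) | hd
    · exact absurd (hp.dvd_of_dvd_pow hd) hpq
    · have := Nat.le_of_dvd (by omega) hd
      omega
    · have h1 : q ^ 3 + 1 = (q + 1) * (q ^ 2 - q + 1) := by
        obtain ⟨s, hs⟩ : ∃ s, q ^ 2 = q + s := ⟨q ^ 2 - q, by omega⟩
        rw [hs, show q + s - q + 1 = s + 1 by omega]
        have : q ^ 3 = q ^ 2 * q := by ring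
        rw [this, hs]
        linarith only [hs]
      rw [h1] at hd
      rcases (hp.dvd_mul).1 hd with h2 | h2
      · have := Nat.le_of_dvd (by omega) h2
        omega
      · have := Nat.le_of_dvd (by omega) h2
        omega
  have hN : 14 * (q ^ 2) ^ 3 ≤ o := by
    rw [ho]
    have h1 : 26 ≤ q - 1 := by omega
    calc 14 * (q ^ 2) ^ 3 = q ^ 3 * 14 * q ^ 3 := by ring
      _ ≤ q ^ 3 * 26 * (q ^ 3 + 1) := by gcongr <;> norm_num
      _ ≤ _ := Nat.mul_le_mul_right _ (Nat.mul_le_mul_left _ h1)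
  rcases Nat.lt_or_ge m 2 with hm3 | hm3
  · obtain rfl : m = 1 := by omega
    refine no_num hp h he hpX hN (Or.inr ?_)
    rw [hq] at ho
    norm_num at ho
    rw [ho]
    decide +kernel
  · refine no_num hp h he hpX hN (Or.inl ?_)
    have hq128 : 243 ≤ q := by
      calc 243 = 3 ^ 5 := by norm_num
        _ ≤ q := Nat.pow_le_pow_right (by norm_num) (by omega)
    rw [ho]
    calc (14 ^ 2 + 1) ^ 5 * 14 ^ 3 ≤ 243 ^ 3 * (243 - 1) * (243 ^ 3 + 1) := by norm_num
      _ ≤ _ := by gcongr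

theorem tf4 {p e m o : ℕ} (hp : p.Prime) (hm : 1 ≤ m)
    (ho : o = (2 ^ (2 * m + 1)) ^ 12 * (2 ^ (2 * m + 1) - 1) *
      ((2 ^ (2 * m + 1)) ^ 3 + 1) * ((2 ^ (2 * m + 1)) ^ 4 - 1) * ((2 ^ (2 * m + 1)) ^ 6 + 1))
    (hd : p ∣ o) (hsq : ¬ p ^ 2 ∣ o) (h : _root_.Cfsg.Agent.H570.Data.Num p e o) (he : ¬ p ∣ 2 ^ (2 * m + 1) → e ≤ 52) : False := by
  set q := 2 ^ (2 * m + 1) with hq
  have hq8 : 8 ≤ q := by
    calc 8 = 2 ^ 3 := by norm_num
      _ ≤ q := Nat.pow_le_pow_right (by norm_num) (by omega)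
  have hpq : ¬ p ∣ q := by
    refine cop_of (E := 12) (d := 1) hsq (by omega) (Nat.coprime_one_left _) ?_
    rw [ho, one_mul]
    exact Dvd.intro ((q - 1) * (q ^ 3 + 1) * (q ^ 4 - 1) * (q ^ 6 + 1)) (by ring)
  replace he := he hpq
  have hpX : p ≤ q ^ 6 + 1 := by
    rw [ho, hp.dvd_mul, hp.dvd_mul, hp.dvd_mul, hp.dvd_mul] at hd
    rcases hd with (((hd | hd) | hd) | hd) | hd
    · exact absurd (hp.dvd_of_dvd_pow hd) hpq
    · have h9 : p ∣ q ^ 1 - 1 := by rw [pow_one]; exact hd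
      have h10 := le_X (p := p) (q := q) 1 6 (by norm_num) (by norm_num) (by omega) h9
      omega
    · have := le_X' 3 6 (by norm_num) (by omega : 2 ≤ q) hd
      omega
    · have := le_X 4 6 (by norm_num) (by norm_num) (by omega : 2 ≤ q) hd
      omega
    · exact Nat.le_of_dvd (by omega) hd
  have hlow : q ^ 24 * 7 ≤ o := by
    rw [ho]
    calc q ^ 24 * 7 = q ^ 12 * 7 * q ^ 3 * q ^ 3 * q ^ 6 := by ring
      _ ≤ _ := by
        gcongr
        · omega
        · omega
        · exact sub_ge 3 (by omega)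
        · omega
  refine no_num hp h he hpX ?_ (Or.inl ?_)
  · refine le_trans ?_ hlow
    calc 52 * (q ^ 6 + 1) ^ 3 ≤ 52 * (8 * q ^ (3 * 6)) := by gcongr; exact add_one_cube (by omega)
      _ = 416 * q ^ 18 := by ring
      _ ≤ 8 ^ 6 * q ^ 18 := by gcongr; norm_num
      _ ≤ q ^ 6 * q ^ 18 := by gcongr
      _ = q ^ 24 * 1 := by ring
      _ ≤ q ^ 24 * 7 := by gcongr; norm_num
  · refine le_trans ?_ hlow
    calc (52 ^ 2 + 1) ^ 5 * 52 ^ 3 ≤ 8 ^ 24 * 7 := by norm_num
      _ ≤ q ^ 24 * 7 := by gcongr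

end Cfsg.Agent.H570.Fam
end

-- part: H570/FamE
section
/-!
Elimination of the alternating and sporadic groups, numerical part.
-/

set_option autoImplicit false

namespace Cfsg.Agent.H570.Fam

open Cfsg.Agent.H570.Data Cfsg.Agent.H570.Chk Cfsg.Agent.OrdDiv

open scoped Nat

theorem fact_ge4 (m : ℕ) (hm : 7 ≤ m) : 2 * m ^ 4 ≤ m ! := by
  induction m, hm using Nat.le_induction with
  | base => decide
  | succ m hm ih =>
    rw [Nat.factorial_succ]
    have h1 : 2 * (m + 1) ^ 4 ≤ (m + 1) * (2 * m ^ 4) := by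
      have h2 : (m + 1) ^ 3 ≤ m ^ 4 := by
        have h3 : 7 * m ^ 3 ≤ m * m ^ 3 := Nat.mul_le_mul_right _ hm
        have h4 : (m + 1) ^ 3 ≤ 7 * m ^ 3 := by
          calc (m + 1) ^ 3 = m ^ 3 + 3 * m ^ 2 + 3 * m + 1 := by ring
            _ ≤ m ^ 3 + m * m ^ 2 + m ^ 2 * m + m ^ 3 := by
              gcongr
              · omega
              · nlinarith only [hm]
              · exact Nat.one_le_pow _ _ (by omega)
            _ ≤ 7 * m ^ 3 := by ring_nf; omega
        calc (m + 1) ^ 3 ≤ 7 * m ^ 3 := h4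
          _ ≤ m * m ^ 3 := h3
          _ = m ^ 4 := by ring
      calc 2 * (m + 1) ^ 4 = (m + 1) * (2 * (m + 1) ^ 3) := by ring
        _ ≤ (m + 1) * (2 * m ^ 4) := by gcongr
    exact h1.trans (Nat.mul_le_mul_left _ ih)

theorem pow_succ_le (m : ℕ) (hm : 16 ≤ m) : (m + 1) ^ 8 ≤ (m + 1) * m ^ 8 := by
  have h1 : 16 * (m + 1) ≤ 17 * m := by omega
  have h2 : 16 ^ 7 * (m + 1) ^ 7 ≤ 17 ^ 7 * m ^ 7 := by
    rw [← mul_pow, ← mul_pow]; exact Nat.pow_le_pow_left h1 7
  have h3 : 17 ^ 7 ≤ 16 ^ 7 * 16 := by norm_num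
  have h4 : 16 ^ 7 * (m + 1) ^ 7 ≤ 16 ^ 7 * m ^ 8 := by
    calc 16 ^ 7 * (m + 1) ^ 7 ≤ 17 ^ 7 * m ^ 7 := h2
      _ ≤ (16 ^ 7 * 16) * m ^ 7 := Nat.mul_le_mul_right _ h3
      _ ≤ (16 ^ 7 * m) * m ^ 7 := by gcongr
      _ = 16 ^ 7 * m ^ 8 := by ring
  have h5 : (m + 1) ^ 7 ≤ m ^ 8 := Nat.le_of_mul_le_mul_left h4 (by norm_num)
  calc (m + 1) ^ 8 = (m + 1) * (m + 1) ^ 7 := by ring
    _ ≤ _ := Nat.mul_le_mul_left _ h5

theorem fact_ge8 (m : ℕ) (hm : 17 ≤ m) : 2 * m ^ 8 ≤ m ! := by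
  induction m, hm using Nat.le_induction with
  | base => decide +kernel
  | succ m hm ih =>
    rw [Nat.factorial_succ]
    calc 2 * (m + 1) ^ 8 ≤ 2 * ((m + 1) * m ^ 8) := Nat.mul_le_mul_left _ (pow_succ_le m (by omega))
      _ = (m + 1) * (2 * m ^ 8) := by ring
      _ ≤ _ := Nat.mul_le_mul_left _ ih

theorem alt {p e m o : ℕ} (hp : p.Prime) (hm : 5 ≤ m) (ho : m ! = 2 * o)
    (hd : p ∣ o) (hsq : ¬ p ^ 2 ∣ o) (h : Num p e o) : m = 5 ∧ p = 5 := by
  have hpm : p ≤ m := by
    rw [← hp.dvd_factorial, ho]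
    exact dvd_mul_of_dvd_right hd _
  rcases cases_of hp h with ⟨n, ho2, hn1, hn2, hmod, he2, hed⟩ |
    ⟨hp17, a, b, c, hpab, rfl, ha3, hab, hc, hlt, hck⟩
  · have hep : e ≤ p - 1 := Nat.le_of_dvd (by have := hp.two_le; omega) hed
    have hlt : o < p ^ 4 := by
      have hp0 := hp.pos
      calc o < p ^ 2 * (p * e) := by
            rw [ho2]
            exact Nat.mul_lt_mul_of_pos_right hn2 (by positivity)
        _ ≤ p ^ 2 * (p * p) := by gcongr; omega
        _ = p ^ 4 := by ring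
    have hm6 : m ≤ 6 := by
      by_contra hcon
      have h1 := fact_ge4 m (by omega)
      have h2 : p ^ 4 ≤ m ^ 4 := Nat.pow_le_pow_left hpm 4
      omega
    obtain rfl | rfl : m = 5 ∨ m = 6 := by omega
    · have ho3 : o = 60 := by
        rw [show (5)! = 120 by decide] at ho
        omega
      subst ho3
      refine ⟨rfl, ?_⟩
      have hp5 : p = 2 ∨ p = 3 ∨ p = 4 ∨ p = 5 := by
        have := hp.two_le
        omega
      rcases hp5 with rfl | rfl | rfl | rfl
      · exact absurd (by norm_num) hsq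
      · exfalso
        obtain rfl : e = 2 := by omega
        omega
      · exact absurd hp (by norm_num)
      · rfl
    · exfalso
      have ho3 : o = 360 := by
        rw [show (6)! = 720 by decide] at ho
        omega
      subst ho3
      have hp5 : p = 2 ∨ p = 3 ∨ p = 4 ∨ p = 5 ∨ p = 6 := by
        have := hp.two_le
        omega
      rcases hp5 with rfl | rfl | rfl | rfl | rfl
      · exact absurd (by norm_num) hsq
      · exact absurd (by norm_num) hsq
      · exact absurd hp (by norm_num)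
      · obtain rfl | rfl | rfl : e = 2 ∨ e = 3 ∨ e = 4 := by omega
        · omega
        · omega
        · obtain rfl : n = 18 := by omega
          exact absurd hmod (by decide)
      · exact absurd hp (by norm_num)
  · exfalso
    have hep : b * c ≤ p := by
      have : o ≠ 0 := by
        rintro rfl
        have := Nat.factorial_pos m
        omega
      obtain ⟨n, κ, he2, hed, -⟩ := h
      have := Nat.le_of_dvd (by omega) hed
      omega
    have h1 := fact_ge8 m (by omega)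
    have h2 : p ^ 5 * (b * c) ^ 3 ≤ m ^ 8 := by
      calc p ^ 5 * (b * c) ^ 3 ≤ m ^ 5 * m ^ 3 := by gcongr; omega
        _ = m ^ 8 := by ring
    omega

/-- the check for a sporadic group -/
def sporOk (o P : ℕ) : Bool :=
  Nat.beq ((P !) ^ 50 % o) 0 && Nat.ble (P ^ 4) o && (Nat.ble (P ^ 8) o || chk (P - 1) o)

theorem of_sporOk {p e o P : ℕ} (h0 : sporOk o P = true) (hp : p.Prime)
    (hd : p ∣ o) (h : Num p e o) : False := by
  unfold sporOk at h0
  rw [Bool.and_eq_true, Bool.and_eq_true, Bool.or_eq_true, Nat.beq_eq, Nat.ble_eq, Nat.ble_eq] at h0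
  obtain ⟨⟨h1, h2⟩, h3⟩ := h0
  have hpP : p ≤ P := by
    rw [← hp.dvd_factorial]
    exact hp.dvd_of_dvd_pow (hd.trans (Nat.dvd_of_mod_eq_zero h1))
  rcases cases_of hp h with ⟨n, ho2, hn1, hn2, hmod, he2, hed⟩ |
    ⟨hp17, a, b, c, hpab, rfl, ha3, hab, hc, hlt, hck⟩
  · have hep : e ≤ p - 1 := Nat.le_of_dvd (by have := hp.two_le; omega) hed
    have hp0 := hp.pos
    have hlt : o < p ^ 4 := by
      calc o < p ^ 2 * (p * e) := by
            rw [ho2]
            exact Nat.mul_lt_mul_of_pos_right hn2 (by positivity)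
        _ ≤ p ^ 2 * (p * p) := by gcongr; omega
        _ = p ^ 4 := by ring
    have : p ^ 4 ≤ P ^ 4 := Nat.pow_le_pow_left hpP 4
    omega
  · have hep : b * c ≤ p - 1 := by
      obtain ⟨n, κ, he2, hed, -⟩ := h
      exact Nat.le_of_dvd (by omega) hed
    rcases h3 with h3 | h3
    · have h2 : p ^ 5 * (b * c) ^ 3 ≤ P ^ 8 := by
        calc p ^ 5 * (b * c) ^ 3 ≤ P ^ 5 * P ^ 3 := by gcongr; omega
          _ = P ^ 8 := by ring
      omega
    · rw [of_chk h3 hab (by omega) hc (by omega)] at hck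
      exact Bool.noConfusion hck

theorem spor_ok : ∀ x ∈ spor, x.2 = 7920 ∨
    (List.any [7, 11, 13, 17, 19, 23, 29, 31, 43, 47, 67, 71] fun P => sporOk x.2 P) = true := by
  decide +kernel

theorem spor_false {p e : ℕ} {x : Grp × ℕ} (hx : x ∈ spor) (hp : p.Prime) (hd : p ∣ x.2)
    (h : Num p e x.2) : False := by
  rcases spor_ok x hx with h1 | h1
  · rw [h1] at h hd
    have hp11 : p ≤ 11 := by
      rw [← hp.dvd_factorial]
      refine hp.dvd_of_dvd_pow (n := 4) (hd.trans ?_)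
      decide +kernel
    rcases cases_of hp h with ⟨n, ho2, hn1, hn2, hmod, he2, hed⟩ |
      ⟨hp17, a, b, c, hpab, rfl, ha3, hab, hc, hlt, hck⟩
    · have hep : e ≤ p - 1 := Nat.le_of_dvd (by have := hp.two_le; omega) hed
      have hp0 := hp.pos
      have hlt : 7920 < p ^ 4 := by
        calc 7920 < p ^ 2 * (p * e) := by
              rw [ho2]
              exact Nat.mul_lt_mul_of_pos_right hn2 (by positivity)
          _ ≤ p ^ 2 * (p * p) := by gcongr; omega
          _ = p ^ 4 := by ring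
      have h10 : 10 ≤ p := by
        by_contra hcon
        have : p ^ 4 ≤ 9 ^ 4 := Nat.pow_le_pow_left (by omega) 4
        omega
      obtain rfl | rfl : p = 10 ∨ p = 11 := by omega
      · exact absurd hp (by norm_num)
      · norm_num at hed
        have he3 : e = 2 ∨ e = 5 ∨ e = 10 := by
          have : e ≤ 10 := by omega
          interval_cases e <;> first | (clear * - hn1 hn2 ho2 hed; omega) | (exfalso; revert hed; decide)
        rcases he3 with rfl | rfl | rfl
        · omega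
        · omega
        · obtain rfl : n = 72 := by omega
          exact absurd hmod (by decide)
    · omega
  · rw [List.any_eq_true] at h1
    obtain ⟨P, -, h2⟩ := h1
    exact of_sporOk h2 hp hd h

end Cfsg.Agent.H570.Fam
end

-- part: H570/Known
section
/-!
The case split over the known simple groups.
-/

set_option autoImplicit false

namespace Cfsg.Agent.H570.Known

open Subgroup Cfsg.Agent.H570.Data Cfsg.Agent.OrdDiv Cfsg.Agent.SmallSimple

universe u

theorem cast_ne_zero {F : Type*} [Field F] [Fintype F] {p : ℕ} (hp : p.Prime)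
    (h : ¬ p ∣ Fintype.card F) : (p : F) ≠ 0 := by
  intro h0
  apply h
  have h1 : ringChar F ∣ p := (ringChar.spec F p).1 h0
  have h2 : ringChar F ∣ Fintype.card F := (ringChar.spec F _).1 (FiniteField.cast_card_eq_zero F)
  rcases (Nat.dvd_prime hp).1 h1 with h3 | h3
  · have : (1 : F) = 0 := by
      have := (ringChar.spec F 1).2 (by rw [h3])
      simp only [_root_.Nat.cast_one, _root_.one_ne_zero] at this
    exact absurd this one_ne_zero
  · rw [← h3]; exact h2

section lin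

variable {S : Type*} [Group S] [Finite S] [IsSimpleGroup S] {p : ℕ} [hp : Fact p.Prime]

/-- the linear bound for `S ≃ Γ / Z(Γ)` -/
theorem lin (hS : ¬ IsMulCommutative S) (hord : ∀ P : Sylow p S, Nat.card P = p) {e : ℕ}
    (he : ∀ P : Sylow p S, (centralizer (P : Set S)).relIndex (normalizer (P : Set S)) = e)
    {Γ : Type*} [Group Γ] [Finite Γ] (f : S ≃* Γ ⧸ center Γ) {F : Type*} [Field F] [Fintype F]
    {ι : Type*} [Fintype ι] [DecidableEq ι] (ρ : Γ →* GL ι F) (hρ : Function.Injective ρ)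
    (hpq : ¬ p ∣ Fintype.card F) : e ≤ Fintype.card ι := by
  obtain ⟨P⟩ : Nonempty (Sylow p S) := inferInstance
  rw [← he P]
  refine LinDim.relIndex_le_dim (LargePrime.commutator_eq_top hS)
    (π := f.symm.toMonoidHom.comp (QuotientGroup.mk' (center Γ))) ?_ ?_ hord
    (cast_ne_zero hp.out hpq) ρ hρ P
  · intro x hx
    rw [MonoidHom.mem_ker, MonoidHom.comp_apply] at hx
    have h1 : QuotientGroup.mk' (center Γ) x = 1 := by
      apply f.symm.injective
      rw [map_one]
      exact hx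
    rwa [← MonoidHom.mem_ker, QuotientGroup.ker_mk'] at h1
  · intro s
    obtain ⟨x, hx⟩ := QuotientGroup.mk'_surjective (center Γ) (f s)
    refine ⟨x, ?_⟩
    rw [MonoidHom.comp_apply, hx]
    exact f.symm_apply_apply s

/-- the linear bound for `S ≃ Γ` -/
theorem lin' (hS : ¬ IsMulCommutative S) (hord : ∀ P : Sylow p S, Nat.card P = p) {e : ℕ}
    (he : ∀ P : Sylow p S, (centralizer (P : Set S)).relIndex (normalizer (P : Set S)) = e)
    {F : Type*} [Field F] [Fintype F]
    {ι : Type*} [Fintype ι] [DecidableEq ι] {Γ : Subgroup (GL ι F)} (f : S ≃* Γ)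
    (hpq : ¬ p ∣ Fintype.card F) : e ≤ Fintype.card ι := by
  obtain ⟨P⟩ : Nonempty (Sylow p S) := inferInstance
  rw [← he P]
  refine LinDim.relIndex_le_dim (LargePrime.commutator_eq_top hS)
    (π := f.symm.toMonoidHom) ?_ f.symm.surjective hord
    (cast_ne_zero hp.out hpq) Γ.subtype Γ.subtype_injective P
  intro x hx
  have h1 : x = 1 := f.symm.injective (by rw [map_one]; exact hx)
  rw [h1]
  exact _root_.OneMemClass.one_mem _

end lin

/-- the list of S4340 -/
def List' (p : ℕ) (S : Type u) [Group S] : Prop :=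
  ((∃ (F : Type) (_ : Field F) (_ : Fintype F), Fintype.card F = p ∧
          Nonempty (S ≃* Matrix.ProjectiveSpecialLinearGroup (Fin 2) F)) ∨
       (p = 13 ∧ ∃ (F : Type) (_ : Field F) (_ : Fintype F), Fintype.card F = 3 ∧
          Nonempty (S ≃* Matrix.ProjectiveSpecialLinearGroup (Fin 3) F)) ∨
       (3 < p ∧ (∃ k : ℕ, p = 2 ^ k + 1) ∧ ∃ (F : Type) (_ : Field F) (_ : Fintype F), Fintype.card F = p - 1 ∧
          Nonempty (S ≃* Matrix.ProjectiveSpecialLinearGroup (Fin 2) F)) ∨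
       (3 < p ∧ (∃ k : ℕ, p + 1 = 2 ^ k) ∧ ∃ (F : Type) (_ : Field F) (_ : Fintype F), Fintype.card F = p + 1 ∧
          Nonempty (S ≃* Matrix.ProjectiveSpecialLinearGroup (Fin 2) F)))

/-- order of `PSL_2(q)` -/
theorem card_psl2 (F : Type) [Field F] [Fintype F] :
    Nat.gcd 2 (Fintype.card F - 1) * Nat.card (Matrix.ProjectiveSpecialLinearGroup (Fin 2) F) =
      Fintype.card F * (Fintype.card F ^ 2 - 1) := by
  have h := S0243.result (F := F) rfl 2 (by norm_num)
  set q := Fintype.card F with hq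
  have hq2 : 1 < q := Fintype.one_lt_card
  rw [Fin.prod_univ_two] at h
  simp only [Fin.val_zero, Fin.val_one, pow_zero, pow_one] at h
  have e1 : q ^ 2 - q = q * (q - 1) := by rw [sq, Nat.mul_sub, mul_one]
  rw [e1] at h
  have : (q - 1) * (Nat.gcd 2 (q - 1) * Nat.card (Matrix.ProjectiveSpecialLinearGroup (Fin 2) F)) =
      (q - 1) * (q * (q ^ 2 - 1)) := by
    calc _ = Nat.gcd 2 (q - 1) * ((q - 1) * Nat.card (Matrix.ProjectiveSpecialLinearGroup (Fin 2) F)) := by
          ring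
      _ = _ := h
      _ = _ := by ring
  exact Nat.eq_of_mul_eq_mul_left (by omega) this

variable {S : Type u} [Group S] [Finite S] [IsSimpleGroup S] {p : ℕ} [hp : Fact p.Prime]

/-- **The case split.** -/
theorem known (T : OrderTable.{u}) (hS : ¬ IsMulCommutative S) (h : IsKnownSimple' S)
    (hd : p ∣ Nat.card S) (hsq : ¬ p ^ 2 ∣ Nat.card S) (hord : ∀ P : Sylow p S, Nat.card P = p)
    {e : ℕ} (he : ∀ P : Sylow p S, (centralizer (P : Set S)).relIndex (normalizer (P : Set S)) = e)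
    (hnum : Num p e (Nat.card S)) : List' p S := by
  have hpp := hp.out
  have key : ∀ (g : Grp), g ∈ spor.map (fun x => x.1) → Real g S → False := fun g hg hr => by
    obtain ⟨x, hx, rfl⟩ := List.mem_map.1 hg
    have h1 := T.spor S x hx hr
    rw [h1] at hnum hd
    exact Fam.spor_false hx hpp hd hnum
  rcases h with h | h | h | h | h | h | h | h | h | h
  · exfalso
    have : Fact (Nat.card S).Prime := ⟨h⟩
    have : IsCyclic S := isCyclic_of_prime_card (p := Nat.card S) rfl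
    exact hS (IsCyclic.isMulCommutative (α := S))
  · obtain ⟨n, hn, ⟨f⟩⟩ := h
    obtain ⟨rfl, rfl⟩ := Fam.alt hpp hn (alt_card hn f) hd hsq hnum
    have hc : Nat.card S = 60 := by
      have := alt_card hn f
      rw [show Nat.factorial 5 = 120 by decide] at this
      omega
    have hcyc : ¬ IsCyclic S := fun hcy => hS (IsCyclic.isMulCommutative (α := S))
    rcases S0999.result hcyc 5 hpp hd (by rw [hc]; norm_num) with
      ⟨F, _, _, h1, -, h2⟩ | ⟨m, F, _, _, h1, h2, h3, h4⟩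
    · exact Or.inl ⟨F, inferInstance, inferInstance, h1, h2⟩
    · exact Or.inr (Or.inr (Or.inl ⟨h3, ⟨m, h2⟩, F, inferInstance, inferInstance, by rw [h1]; omega, h4⟩))
  · obtain ⟨F, _, _, n, hn, hn2, ⟨f⟩⟩ := h
    have hlin := lin hS hord he (Γ := Matrix.SpecialLinearGroup (Fin n) F) f
      Matrix.SpecialLinearGroup.toGL Matrix.SpecialLinearGroup.toGL_injective
    rw [Fintype.card_fin] at hlin
    have hq := Fintype.isPrimePow_card_of_field (α := F)
    rcases Nat.lt_or_ge n 3 with hn3 | hn3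
    · obtain rfl : n = 2 := by omega
      have ho := card_psl2 F
      rw [← Nat.card_congr f.toEquiv] at ho
      rcases Fam.psl2 hpp hq (hn2 rfl) ho hd hsq hnum hlin with h1 | ⟨h1, h2, h3⟩ | ⟨h1, h2, h3⟩
      · exact Or.inl ⟨F, inferInstance, inferInstance, h1, ⟨f⟩⟩
      · exact Or.inr (Or.inr (Or.inl ⟨h1, h2, F, inferInstance, inferInstance, h3, ⟨f⟩⟩))
      · exact Or.inr (Or.inr (Or.inr ⟨h1, h2, F, inferInstance, inferInstance, h3, ⟨f⟩⟩))
    · have ho := S0243.result (F := F) rfl n hn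
      rw [Fin.prod_univ_eq_prod_range (fun i => Fintype.card F ^ n - Fintype.card F ^ i) n,
        ← Nat.card_congr f.toEquiv] at ho
      obtain ⟨rfl, ⟨h2, h3⟩ | ⟨h2, h3⟩⟩ := Fam.psl hpp hq hn3 ho hd hsq hnum hlin
      · -- order 168
        have hcyc : ¬ IsCyclic S := fun hcy => hS (IsCyclic.isMulCommutative (α := S))
        have hp7 : p = 2 ∨ p = 3 ∨ p = 7 := by
          rw [h3, show 168 = 2 ^ 3 * (3 * 7) by norm_num] at hd
          rcases (hpp.dvd_mul).1 hd with h5 | h5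
          · exact Or.inl ((Nat.prime_dvd_prime_iff_eq hpp Nat.prime_two).1 (hpp.dvd_of_dvd_pow h5))
          rcases (hpp.dvd_mul).1 h5 with h5 | h5
          · exact Or.inr (Or.inl ((Nat.prime_dvd_prime_iff_eq hpp Nat.prime_three).1 h5))
          · exact Or.inr (Or.inr ((Nat.prime_dvd_prime_iff_eq hpp (by norm_num)).1 h5))
        rcases hp7 with rfl | rfl | rfl
        · rw [h3] at hsq
          exact absurd (by norm_num) hsq
        · exfalso
          rw [h3] at hnum
          rcases Chk.cases_of hpp hnum with ⟨n, ho2, hn1, hn2, hmod, he2, hed⟩ | ⟨hp17, -⟩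
          · have := Nat.le_of_dvd (by norm_num) hed
            obtain rfl : e = 2 := by omega
            omega
          · omega
        · rcases S0999.result hcyc 7 hpp hd (by rw [h3]; norm_num) with
            ⟨F', _, _, h1, -, h2⟩ | ⟨m, F', _, _, h1, h2, h3, h4⟩
          · exact Or.inl ⟨F', inferInstance, inferInstance, h1, h2⟩
          · exfalso
            have h6 : 2 ^ m = 6 := by omega
            rcases Nat.lt_or_ge m 3 with h7 | h7
            · interval_cases m <;> omega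
            · have : 2 ^ 3 ≤ 2 ^ m := Nat.pow_le_pow_right (by norm_num) h7
              omega
      · -- order 5616
        have hp7 : p = 2 ∨ p = 3 ∨ p = 13 := by
          rw [h3, show 5616 = 2 ^ 4 * (3 ^ 3 * 13) by norm_num] at hd
          rcases (hpp.dvd_mul).1 hd with h5 | h5
          · exact Or.inl ((Nat.prime_dvd_prime_iff_eq hpp Nat.prime_two).1 (hpp.dvd_of_dvd_pow h5))
          rcases (hpp.dvd_mul).1 h5 with h5 | h5
          · exact Or.inr (Or.inl ((Nat.prime_dvd_prime_iff_eq hpp Nat.prime_three).1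
              (hpp.dvd_of_dvd_pow h5)))
          · exact Or.inr (Or.inr ((Nat.prime_dvd_prime_iff_eq hpp (by norm_num)).1 h5))
        rcases hp7 with rfl | rfl | rfl
        · rw [h3] at hsq
          exact absurd (by norm_num) hsq
        · rw [h3] at hsq
          exact absurd (by norm_num) hsq
        · exact Or.inr (Or.inl ⟨rfl, F, inferInstance, inferInstance, h2, ⟨f⟩⟩)
  · -- symplectic
    exfalso
    obtain ⟨F, _, _, m, hm, hm2, ⟨f⟩⟩ := h
    have hlin := lin hS hord he (Γ := Matrix.symplecticGroup (Fin m) F) f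
      (MonoidHom.toHomUnits (Matrix.symplecticGroup (Fin m) F).subtype)
      (fun a b hab => Subtype.ext (congrArg Units.val hab))
    rw [Fintype.card_sum, Fintype.card_fin, ← two_mul] at hlin
    have ho : Nat.gcd 2 (Fintype.card F - 1) * Nat.card S =
        Fintype.card F ^ (m ^ 2) * ∏ i ∈ Finset.range m, (Fintype.card F ^ (2 * (i + 1)) - 1) := by
      have h1 := S0245.result (F := F) rfl m
      have h2 := S0246.result (F := F) rfl m (by omega)
      have h3 := Subgroup.card_eq_card_quotient_mul_card_subgroup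
        (Subgroup.center (Matrix.symplecticGroup (Fin m) F))
      rw [h1, h2] at h3
      rw [Nat.card_congr f.toEquiv, mul_comm]
      exact h3.symm
    exact Fam.psp hpp Fintype.isPrimePow_card_of_field hm hm2 ho hd hsq hnum hlin
  · -- unitary
    exfalso
    obtain ⟨F, _, _, n, q, hF, hn, hn2, ⟨f⟩⟩ := h
    have hlin := lin hS hord he (Γ := SU n F q) f
      (Matrix.SpecialLinearGroup.toGL.comp (SU n F q).subtype)
      (Matrix.SpecialLinearGroup.toGL_injective.comp (SU n F q).subtype_injective)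
    rw [Fintype.card_fin, hF] at hlin
    have hq2 : IsPrimePow (q ^ 2) := hF ▸ Fintype.isPrimePow_card_of_field
    have hqp : IsPrimePow q := (isPrimePow_pow_iff (by norm_num)).1 hq2
    have ho := S0280.result hF n (by omega)
    rw [← Nat.card_congr f.toEquiv] at ho
    exact Fam.psu hpp hqp hn hn2 ho hd hsq hnum (fun h => hlin fun h2 => h (hpp.dvd_of_dvd_pow h2))
  · -- odd orthogonal
    exfalso
    obtain ⟨F, _, _, m, hm, hodd, ⟨f⟩⟩ := h
    have hlin := lin hS hord he (Γ := Omega F (quadFormOdd m F)) f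
      ((isometryGroup F (quadFormOdd m F)).subtype.comp (Omega F (quadFormOdd m F)).subtype)
      ((isometryGroup F (quadFormOdd m F)).subtype_injective.comp
        (Omega F (quadFormOdd m F)).subtype_injective)
    have hc : Fintype.card (Unit ⊕ (Fin m ⊕ Fin m)) = 2 * m + 1 := by
      rw [Fintype.card_sum, Fintype.card_sum, Fintype.card_fin, Fintype.card_unit]; ring
    rw [hc] at hlin
    have ho := S0292.result (F := F) rfl hodd m hm
    rw [← Nat.card_congr f.toEquiv] at ho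
    exact Fam.oodd hpp Fintype.isPrimePow_card_of_field hm hodd ho hd hsq hnum hlin
  · -- plus orthogonal
    exfalso
    obtain ⟨F, _, _, m, hm, ⟨f⟩⟩ := h
    have hlin := lin hS hord he (Γ := Omega F (quadFormPlus m F)) f
      ((isometryGroup F (quadFormPlus m F)).subtype.comp (Omega F (quadFormPlus m F)).subtype)
      ((isometryGroup F (quadFormPlus m F)).subtype_injective.comp
        (Omega F (quadFormPlus m F)).subtype_injective)
    have hc : Fintype.card (Fin m ⊕ Fin m) = 2 * m := by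
      rw [Fintype.card_sum, Fintype.card_fin]; ring
    rw [hc] at hlin
    have ho := S0293.result (F := F) rfl m hm
    rw [← Nat.card_congr f.toEquiv, mul_assoc] at ho
    have hpos : 1 ≤ Fintype.card F ^ m := Nat.one_le_pow _ _ Fintype.card_pos
    exact Fam.oeven hpp Fintype.isPrimePow_card_of_field hm
      (x := Fintype.card F ^ m - 1) (Or.inl (by omega)) ho hd hsq hnum hlin
  · -- minus orthogonal
    exfalso
    obtain ⟨F, _, _, m, a, b, hm, hab, ⟨f⟩⟩ := h
    have hlin := lin hS hord he (Γ := Omega F (quadFormMinus (m - 1) F a b)) f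
      ((isometryGroup F (quadFormMinus (m - 1) F a b)).subtype.comp
        (Omega F (quadFormMinus (m - 1) F a b)).subtype)
      ((isometryGroup F (quadFormMinus (m - 1) F a b)).subtype_injective.comp
        (Omega F (quadFormMinus (m - 1) F a b)).subtype_injective)
    have hc : Fintype.card ((Fin (m - 1) ⊕ Fin (m - 1)) ⊕ Fin 2) = 2 * m := by
      rw [Fintype.card_sum, Fintype.card_sum, Fintype.card_fin, Fintype.card_fin]; omega
    rw [hc] at hlin
    have ho := S0294.result (F := F) rfl m hm a b hab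
    rw [← Nat.card_congr f.toEquiv, mul_assoc] at ho
    exact Fam.oeven hpp Fintype.isPrimePow_card_of_field hm
      (x := Fintype.card F ^ m + 1) (Or.inr rfl) ho hd hsq hnum hlin
  · exfalso
    rcases h with h | h | h | h | h | h | h | h | h | h | h
    · obtain ⟨F, _, _, hq, ⟨f⟩⟩ := h
      have hlin := lin' hS hord he f
      have hc : Fintype.card Lie.chevG2.Idx = 14 := by rfl
      rw [hc] at hlin
      have ho := T.g2 F
      rw [← Nat.card_congr f.toEquiv] at ho
      exact Fam.g2 hpp Fintype.isPrimePow_card_of_field hq ho hd hsq hnum hlin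
    · obtain ⟨F, _, _, ⟨f⟩⟩ := h
      have hlin := lin' hS hord he f
      have hc : Fintype.card Lie.chevF4.Idx = 52 := by rfl
      rw [hc] at hlin
      have ho := T.f4 F _ rfl
      rw [← Nat.card_congr f.toEquiv] at ho
      exact Fam.f4 hpp Fintype.one_lt_card ho hd hsq hnum hlin
    · obtain ⟨F, _, _, ⟨f⟩⟩ := h
      have hlin := lin' hS hord he f
      have hc : Fintype.card Lie.chevE6.Idx = 78 := by rfl
      rw [hc] at hlin
      have ho := T.e6 F _ rfl
      rw [← Nat.card_congr f.toEquiv] at ho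
      exact Fam.e6 hpp Fintype.one_lt_card ho hd hsq hnum hlin
    · obtain ⟨F, _, _, ⟨f⟩⟩ := h
      have hlin := lin' hS hord he f
      have hc : Fintype.card Lie.chevE7.Idx = 133 := by rfl
      rw [hc] at hlin
      have ho := T.e7 F _ rfl
      rw [← Nat.card_congr f.toEquiv] at ho
      exact Fam.e7 hpp Fintype.one_lt_card ho hd hsq hnum hlin
    · obtain ⟨F, _, _, ⟨f⟩⟩ := h
      have hlin := lin' hS hord he f
      have hc : Fintype.card Lie.chevE8.Idx = 248 := by
        rw [Fintype.card_sum, Fintype.card_fin, Fintype.card_fin]; rfl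
      rw [hc] at hlin
      have ho := T.e8 F _ rfl
      rw [← Nat.card_congr f.toEquiv] at ho
      exact Fam.e8 hpp Fintype.one_lt_card ho hd hsq hnum hlin
    · obtain ⟨F, _, _, q, hq, hF, ⟨f⟩⟩ := h
      have hlin := lin' hS hord he f
      have hc : Fintype.card Lie.chevE6.Idx = 78 := by rfl
      rw [hc, hF] at hlin
      have ho := T.te6 F q hq hF
      rw [← Nat.card_congr f.toEquiv] at ho
      exact Fam.te6 hpp hq.two_le ho hd hsq hnum (fun h => hlin fun h2 => h (hpp.dvd_of_dvd_pow h2))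
    · obtain ⟨F, _, _, q, hq, hF, ⟨f⟩⟩ := h
      have hlin := lin' hS hord he f
      have hc : Fintype.card Lie.chevD4.Idx = 28 := by rfl
      rw [hc, hF] at hlin
      have ho := T.td4 F q hq hF
      rw [← Nat.card_congr f.toEquiv] at ho
      exact Fam.td4 hpp hq.two_le ho hd hsq hnum (fun h => hlin fun h2 => h (hpp.dvd_of_dvd_pow h2))
    · obtain ⟨F, _, _, m, hm, hF, ⟨f⟩⟩ := h
      have hlin := lin' hS hord he f
      rw [Fintype.card_fin, hF] at hlin
      have ho := T.sz F m hm hF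
      rw [← Nat.card_congr f.toEquiv] at ho
      exact Fam.sz hpp hm ho hd hsq hnum hlin
    · obtain ⟨F, _, _, m, hm, hF, ⟨f⟩⟩ := h
      have hlin := lin' hS hord he f
      have hc : Fintype.card Lie.chevG2.Idx = 14 := by rfl
      rw [hc, hF] at hlin
      have ho := T.ree F m hm hF
      rw [← Nat.card_congr f.toEquiv] at ho
      exact Fam.ree hpp hm ho hd hsq hnum hlin
    · obtain ⟨F, _, _, m, hm, hF, ⟨f⟩⟩ := h
      have hlin := lin' hS hord he f
      have hc : Fintype.card Lie.chevF4.Idx = 52 := by rfl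
      rw [hc, hF] at hlin
      have ho := T.tf4 F m hm hF
      rw [← Nat.card_congr f.toEquiv] at ho
      exact Fam.tf4 hpp hm ho hd hsq hnum hlin
    · exact key .tits (by decide) h
  · exfalso
    rcases h with h | h | h | h | h | h | h | h | h | h | h | h | h | h | h | h | h | h | h | h | h | h | h | h | h | h
    · exact key .m11 (by decide) h
    · exact key .m12 (by decide) h
    · exact key .m22 (by decide) h
    · exact key .m23 (by decide) h
    · exact key .m24 (by decide) h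
    · exact key .j1 (by decide) h
    · exact key .j2 (by decide) h
    · exact key .j3 (by decide) h
    · exact key .j4 (by decide) h
    · exact key .co1 (by decide) h
    · exact key .co2 (by decide) h
    · exact key .co3 (by decide) h
    · exact key .mcl (by decide) h
    · exact key .hs (by decide) h
    · exact key .suz (by decide) h
    · exact key .he (by decide) h
    · exact key .ru (by decide) h
    · exact key .on (by decide) h
    · exact key .ly (by decide) h
    · exact key .fi22 (by decide) h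
    · exact key .fi23 (by decide) h
    · exact key .fi24 (by decide) h
    · exact key .hn (by decide) h
    · exact key .th (by decide) h
    · exact key .b (by decide) h
    · exact key .m (by decide) h

end Cfsg.Agent.H570.Known
end

-- part: H570/List
section
/-!
The simple groups with less than `p ^ 2` Sylow `p`-subgroups.
-/

set_option autoImplicit false

namespace Cfsg.Agent.H570.List

open Subgroup Cfsg.Agent.H570.Data Cfsg.Agent.H570.Numbers Cfsg.Agent.H570.Known Cfsg.Agent.OrdDiv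
  Cfsg.Agent.SmallSimple

universe u

section

variable {S : Type*} [Group S] [Finite S] [IsSimpleGroup S] {p : ℕ} [hp : Fact p.Prime]

/-- `PSL_2(p)` -/
theorem ord_a (hS : ¬ IsMulCommutative S) {F : Type} [Field F] [Fintype F] (hF : Fintype.card F = p)
    (f : S ≃* Matrix.ProjectiveSpecialLinearGroup (Fin 2) F) :
    5 ≤ p ∧ 2 * Nat.card S = p * (p ^ 2 - 1) := by
  have ho := card_psl2 F
  rw [← Nat.card_congr f.toEquiv, hF] at ho
  have hpp := hp.out
  have h5 : 5 ≤ p := by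
    by_contra hcon
    have h2 := hpp.two_le
    have h4 : p = 2 ∨ p = 3 ∨ p = 4 := by omega
    rcases h4 with rfl | rfl | rfl
    · norm_num at ho
      have := EvenOrder.four_dvd_card hS (by rw [ho]; norm_num)
      rw [ho] at this
      norm_num at this
    · norm_num at ho
      have ho2 : Nat.card S = 12 := by omega
      obtain ⟨e, κ, he2, hed, hκ, hcard, hn1, hmod, hA⟩ :=
        exists_data hS (p := 3) (by rw [ho2]; norm_num) (by rw [ho2]; norm_num)
      rw [ho2] at hcard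
      have h5 : 2 * 1 ≤ e * κ := Nat.mul_le_mul he2 hκ
      have h6 : 4 * (3 * 2) ≤ Nat.card (Sylow 3 S) * (3 * (e * κ)) := by
        apply Nat.mul_le_mul hn1; omega
      omega
    · exact absurd hpp (by norm_num)
  refine ⟨h5, ?_⟩
  have hodd : Odd p := hpp.odd_of_ne_two (by omega)
  have hg : Nat.gcd 2 (p - 1) = 2 := by
    obtain ⟨s, hs⟩ := hodd
    exact Nat.gcd_eq_left ⟨s, by omega⟩
  rw [hg] at ho
  exact ho

omit hp in
/-- `PSL_3(3)` -/
theorem ord_d {F : Type} [Field F] [Fintype F] (hF : Fintype.card F = 3)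
    (f : S ≃* Matrix.ProjectiveSpecialLinearGroup (Fin 3) F) : Nat.card S = 5616 := by
  have ho := S0243.result (F := F) hF 3 (by norm_num)
  rw [← Nat.card_congr f.toEquiv, Fin.prod_univ_three] at ho
  simp only [Fin.val_zero, Fin.val_one, Fin.val_two] at ho
  norm_num at ho
  omega

omit hp in
theorem ord_two_pow {F : Type} [Field F] [Fintype F] {q : ℕ} (hF : Fintype.card F = q) (hq : Even q)
    (hq0 : 0 < q) (f : S ≃* Matrix.ProjectiveSpecialLinearGroup (Fin 2) F) :
    Nat.card S = q * (q ^ 2 - 1) := by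
  have ho := card_psl2 F
  rw [← Nat.card_congr f.toEquiv, hF] at ho
  have hg : Nat.gcd 2 (q - 1) = 1 := by
    obtain ⟨s, hs⟩ := hq
    have : Odd (q - 1) := ⟨s - 1, by omega⟩
    exact (Nat.coprime_two_left).2 this
  rw [hg, one_mul] at ho
  exact ho

/-- `PSL_2(p - 1)` -/
theorem ord_b (h3 : 3 < p) {F : Type} [Field F] [Fintype F] (hF : Fintype.card F = p - 1)
    (f : S ≃* Matrix.ProjectiveSpecialLinearGroup (Fin 2) F) :
    Nat.card S = p * (p - 1) * (p - 2) := by
  have hodd : Odd p := hp.out.odd_of_ne_two (by omega)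
  have hev : Even (p - 1) := by
    obtain ⟨s, hs⟩ := hodd
    exact ⟨s, by omega⟩
  rw [ord_two_pow hF hev (by omega) f]
  obtain ⟨r, rfl⟩ : ∃ r, p = r + 2 := ⟨p - 2, by omega⟩
  rw [show r + 2 - 1 = r + 1 by omega, show r + 2 - 2 = r by omega]
  have : (r + 1) ^ 2 - 1 = r * (r + 2) := by
    have : (r + 1) ^ 2 = r * (r + 2) + 1 := by ring
    omega
  rw [this]
  ring

/-- `PSL_2(p + 1)` -/
theorem ord_c (h3 : 3 < p) {F : Type} [Field F] [Fintype F] (hF : Fintype.card F = p + 1)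
    (f : S ≃* Matrix.ProjectiveSpecialLinearGroup (Fin 2) F) :
    Nat.card S = p * (p + 1) * (p + 2) := by
  have hodd : Odd p := hp.out.odd_of_ne_two (by omega)
  have hev : Even (p + 1) := by
    obtain ⟨s, hs⟩ := hodd
    exact ⟨s + 1, by omega⟩
  rw [ord_two_pow hF hev (by omega) f]
  have : (p + 1) ^ 2 - 1 = p * (p + 2) := by
    have : (p + 1) ^ 2 = p * (p + 2) + 1 := by ring
    omega
  rw [this]
  ring

/-- the exact values -/
def Val (p n : ℕ) : Prop :=
  (5 ≤ p ∧ n = p + 1) ∨ (p = 13 ∧ n = 144) ∨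
    (5 ≤ p ∧ (∃ k : ℕ, p = 2 ^ k + 1) ∧ 2 * n = (p - 1) * (p - 2)) ∨
    (5 ≤ p ∧ (∃ k : ℕ, p + 1 = 2 ^ k) ∧ 2 * n = (p + 1) * (p + 2))

theorem five_le (h3 : 3 < p) : 5 ≤ p := by
  have h4 : p ≠ 4 := by
    rintro rfl
    exact absurd hp.out (by norm_num)
  omega

theorem val_of (hS : ¬ IsMulCommutative S) (h : List' p S) :
    OrdList p (Nat.card S) ∧ Val p (Nat.card (Sylow p S)) := by
  rcases h with ⟨F, _, _, hF, ⟨f⟩⟩ | ⟨h13, F, _, _, hF, ⟨f⟩⟩ | ⟨h3, hk, F, _, _, hF, ⟨f⟩⟩ |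
    ⟨h3, hk, F, _, _, hF, ⟨f⟩⟩
  · obtain ⟨h5, ho⟩ := ord_a hS hF f
    exact ⟨Or.inl ho, Or.inl ⟨h5, card_a hS h5 ho⟩⟩
  · have ho := ord_d hF f
    refine ⟨Or.inr (Or.inl ⟨h13, ho⟩), Or.inr (Or.inl ⟨h13, ?_⟩)⟩
    subst h13
    exact card_d hS ho
  · have ho := ord_b h3 hF f
    have h5 := five_le h3
    exact ⟨Or.inr (Or.inr (Or.inl ho)), Or.inr (Or.inr (Or.inl ⟨h5, hk, card_b hS h5 ho⟩))⟩
  · have ho := ord_c h3 hF f
    have h5 := five_le h3
    exact ⟨Or.inr (Or.inr (Or.inr ho)), Or.inr (Or.inr (Or.inr ⟨h5, hk, card_c hS h5 ho⟩))⟩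

omit hp in
theorem Val.lt {n : ℕ} (h : Val p n) : n < p ^ 2 := by
  rcases h with ⟨h5, h⟩ | ⟨h5, h⟩ | ⟨h5, -, h⟩ | ⟨h5, -, h⟩
  · nlinarith
  · rw [h, h5]; norm_num
  · obtain ⟨r, rfl⟩ : ∃ r, p = r + 5 := ⟨p - 5, by omega⟩
    rw [show r + 5 - 1 = r + 4 by omega, show r + 5 - 2 = r + 3 by omega] at h
    linarith only [h]
  · nlinarith

end

variable {p : ℕ} [hp : Fact p.Prime]

/-- **The theorem on simple groups.** -/
theorem list_of (T : OrderTable.{u})
    (hK : ∀ (X : Type u) [Group X] [Finite X] [IsSimpleGroup X], IsKnownSimple' X) :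
    ∀ (N : ℕ) (S : Type u) [Group S] [Finite S] [IsSimpleGroup S], ¬ IsMulCommutative S →
      Nat.card S = N → p ∣ Nat.card S → Nat.card (Sylow p S) < p ^ 2 → List' p S := by
  intro N
  induction N using Nat.strong_induction_on with
  | _ N ih =>
    intro S _ _ _ hS hN hd hn
    obtain ⟨e, he, hnum⟩ := exists_num hS hd hn (by
      intro X _ _ _ hX hlt hdX hnX
      exact (val_of hX (ih (Nat.card X) (by rw [← hN]; exact hlt) X hX rfl hdX hnX)).1)
    exact known T hS (hK S) hd (not_sq_dvd hS hd hn) (fun P => S4343.result hS p hd hn P) he hnum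

theorem iff_list (T : OrderTable.{u})
    (hK : ∀ (X : Type u) [Group X] [Finite X] [IsSimpleGroup X], IsKnownSimple' X)
    (S : Type u) [Group S] [Finite S] [IsSimpleGroup S] (hS : ¬ IsMulCommutative S)
    (hd : p ∣ Nat.card S) : Nat.card (Sylow p S) < p ^ 2 ↔ List' p S :=
  ⟨fun h => list_of T hK _ S hS rfl hd h, fun h => (val_of hS h).2.lt⟩

end Cfsg.Agent.H570.List
end

private theorem dce_50b900c09692 : _root_.True := by
  try have : _root_.True := by simp only [_root_.Matrix.ProjectiveSpecialLinearGroup.congr_simp]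
  try have : _root_.True := by simp only [_root_.Cfsg.Agent.H570.Ineq.uf.eq_1]
  exact _root_.True.intro
end

-- part: H570/HallP
section
set_option linter.all false
open scoped Cfsg.Agent.FastGrp

/-!
Sylow numbers below `p ^ 2` of arbitrary finite groups.
-/

set_option autoImplicit false

namespace Cfsg.Agent.H570.HallP

open Subgroup Cfsg.Agent.H571.SylowNumber Cfsg.Agent.H571.SylowParts Cfsg.Agent.H570.List
  Cfsg.Agent.H570.Quot

universe u

variable {p : ℕ} [hp : Fact p.Prime]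

omit hp in
theorem card_sylow_of_subsingleton {G : Type*} [Group G] [Subsingleton G] :
    Nat.card (Sylow p G) = 1 := by
  have : Subsingleton (Sylow p G) := ⟨fun P Q => Sylow.ext (Subsingleton.elim _ _)⟩
  rw [Nat.card_eq_one_iff_unique]
  exact ⟨this, inferInstance⟩

/-- In a `p`-solvable group the prime parts of `n_p` are `≡ 1` mod `p`. -/
theorem good_of_pSolvable (p : ℕ) [hp : Fact p.Prime] :
    ∀ (n : ℕ) (G : Type u) [Group G] [Finite G], Cfsg.IsPSolvable p G → Nat.card G = n →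
      Good p (Nat.card (Sylow p G)) := by
  intro n
  induction n using Nat.strong_induction_on with
  | _ n ih =>
    intro G _ _ hG hn
    rcases subsingleton_or_nontrivial G with hs | hs
    · rw [card_sylow_of_subsingleton]
      exact Good.one p
    · obtain ⟨N, hN, h1, -, h2⟩ :=
        Lib.PSolvable.sep_of_pSolvable p hG ⊥ ⊤ inferInstance inferInstance bot_lt_top
      rw [Subgroup.relIndex_bot_left] at h2
      obtain ⟨P⟩ : Nonempty (Sylow p G) := inferInstance
      rw [card_sylow_eq_mul P N]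
      have hcard : Nat.card (G ⧸ N) < n := hn ▸ S4303.card_quotient_lt h1.ne'
      have hQ := Lib.PSolvable.IsPSolvable_of_surjective p hG (QuotientGroup.mk' N)
        (QuotientGroup.mk'_surjective N)
      refine Good.mul (ih _ hcard (G ⧸ N) hQ rfl) ?_ Nat.card_pos.ne' Nat.card_pos.ne'
      rcases h2 with ⟨m, hm⟩ | h2
      · exact good_sup hp.out P N (IsPGroup.of_card hm)
      · exact H561.HallSylow.good_pprime P N ((hp.out.coprime_iff_not_dvd).1 h2.symm)

omit hp in
/-- `n ≡ 1` with `Good` and `n < p ^ 2` is a prime power -/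
theorem prime_pow_of_good (hp : p.Prime) {n : ℕ} (h : Good p n) (h1 : n ≡ 1 [MOD p])
    (hn : n < p ^ 2) : ∃ q k : ℕ, q.Prime ∧ n = q ^ k := by
  rcases Nat.lt_or_ge n 2 with h2 | h2
  · rcases (by omega : n = 0 ∨ n = 1) with rfl | rfl
    · exfalso
      have := (Nat.modEq_iff_dvd' (by omega)).1 h1
      have h3 := Nat.le_of_dvd (by omega) this
      have := hp.two_le
      omega
    · exact ⟨2, 0, Nat.prime_two, rfl⟩
  · have hq := Nat.minFac_prime (n := n) (by omega)
    set q := n.minFac with hqd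
    have hqn : q ∣ n := Nat.minFac_dvd n
    set k := n.factorization q with hk
    have hk1 : 1 ≤ k := (hq.dvd_iff_one_le_factorization (by omega)).1 hqn
    have hmod : q ^ k ≡ 1 [MOD p] := h q hq
    obtain ⟨t, ht⟩ : q ^ k ∣ n := Nat.ordProj_dvd n q
    have htm : t ≡ 1 [MOD p] := by
      have h3 : q ^ k * t ≡ 1 * t [MOD p] := hmod.mul_right t
      rw [← ht, one_mul] at h3
      exact h3.symm.trans h1
    have key : ∀ x : ℕ, x ≡ 1 [MOD p] → 1 < x → p + 1 ≤ x := by
      intro x hx hx1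
      have h3 := (Nat.modEq_iff_dvd' (by omega)).1 hx.symm
      have := Nat.le_of_dvd (by omega) h3
      omega
    have hqk : 1 < q ^ k := Nat.one_lt_pow (by omega) hq.one_lt
    have ht0 : 0 < t := by
      rcases Nat.eq_zero_or_pos t with h3 | h3
      · rw [h3] at ht; omega
      · exact h3
    rcases Nat.lt_or_ge 1 t with ht1 | ht1
    · exfalso
      have h3 := key _ hmod hqk
      have h4 := key _ htm ht1
      have h5 : (p + 1) * (p + 1) ≤ q ^ k * t := Nat.mul_le_mul h3 h4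
      rw [← ht] at h5
      nlinarith
    · obtain rfl : t = 1 := by omega
      exact ⟨q, k, hq, by rw [← mul_one (q ^ k)]; exact ht⟩

/-- a nonabelian simple section -/
theorem exists_simple (p : ℕ) [hp : Fact p.Prime] :
    ∀ (n : ℕ) (G : Type u) [Group G] [Finite G], Nat.card G = n → ¬ Cfsg.IsPSolvable p G →
      ∃ (S : Type u) (_ : Group S) (_ : Finite S) (_ : IsSimpleGroup S), ¬ IsMulCommutative S ∧
        p ∣ Nat.card S ∧ Nat.card (Sylow p S) ∣ Nat.card (Sylow p G) := by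
  intro n
  induction n using Nat.strong_induction_on with
  | _ n ih =>
    intro G _ _ hn hG
    by_cases hs : IsSimpleGroup G
    · by_cases hc : IsMulCommutative G
      · exfalso
        apply hG
        have hsol : Group.IsSolvable G := by
          let _ : CommGroup G := { ‹Group G› with mul_comm := hc.is_comm.comm }
          infer_instance
        exact Lib.PSolvable.IsPSolvable_of_solvable p
      · by_cases hd : p ∣ Nat.card G
        · exact ⟨G, inferInstance, inferInstance, hs, hc, hd, dvd_rfl⟩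
        · exfalso
          apply hG
          exact PLocal.PSolvable.isPSolvable_of_coprime ((hp.out.coprime_iff_not_dvd).2 hd).symm
    · rcases subsingleton_or_nontrivial G with hsub | hnt
      · exfalso
        apply hG
        apply PLocal.PSolvable.isPSolvable_of_coprime
        rw [Nat.card_of_subsingleton (1 : G)]
        exact Nat.coprime_one_left _
      obtain ⟨K, hKn, hKb, hKt⟩ : ∃ K : Subgroup G, K.Normal ∧ K ≠ ⊥ ∧ K ≠ ⊤ := by
        by_contra hcon
        push Not at hcon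
        exact hs ⟨fun N hN => or_iff_not_imp_left.2 (fun hNb => hcon N hN hNb)⟩
      obtain ⟨P⟩ : Nonempty (Sylow p G) := inferInstance
      have h1 := card_sylow_eq_mul P K
      have h2 := card_sylow_sup P K _ rfl
      by_cases hQ : Cfsg.IsPSolvable p (G ⧸ K)
      · have hK : ¬ Cfsg.IsPSolvable p K := fun hK =>
          hG (Lib.PSolvable.IsPSolvable_of_extension p K hK hQ)
        obtain ⟨S, _, _, _, h3, h4, h5⟩ := ih _ (hn ▸ S4303.card_lt_of_ne_top hKt) K rfl hK
        refine ⟨S, inferInstance, inferInstance, inferInstance, h3, h4, h5.trans ?_⟩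
        rw [h1, h2]
        exact dvd_mul_of_dvd_right (dvd_mul_right _ _) _
      · obtain ⟨S, _, _, _, h3, h4, h5⟩ := ih _ (hn ▸ S4303.card_quotient_lt hKb) (G ⧸ K) rfl hQ
        refine ⟨S, inferInstance, inferInstance, inferInstance, h3, h4, h5.trans ?_⟩
        rw [h1]
        exact Dvd.intro _ rfl

omit hp in
/-- a product of numbers `≡ 1` mod `p` that is less than `p ^ 2` -/
theorem one_factor (hp : p.Prime) {x y : ℕ} (hx : x ≡ 1 [MOD p]) (hxy : x * y ≡ 1 [MOD p])
    (hx1 : x ≠ 1) (hlt : x * y < p ^ 2) : y = 1 := by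
  have key : ∀ x : ℕ, x ≡ 1 [MOD p] → x ≠ 1 → p + 1 ≤ x := by
    intro x hx hx1
    have hx0 : x ≠ 0 := by
      rintro rfl
      have h3 := (Nat.modEq_iff_dvd' (by omega)).1 hx
      have h4 := Nat.le_of_dvd (by omega) h3
      have := hp.two_le
      omega
    have h3 := (Nat.modEq_iff_dvd' (by omega)).1 hx.symm
    have := Nat.le_of_dvd (by omega) h3
    omega
  by_contra hy1
  have hy : y ≡ 1 [MOD p] := by
    have h3 : x * y ≡ 1 * y [MOD p] := hx.mul_right y
    rw [one_mul] at h3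
    exact h3.symm.trans hxy
  have h5 : (p + 1) * (p + 1) ≤ x * y := Nat.mul_le_mul (key x hx hx1) (key y hy hy1)
  nlinarith

omit hp in
/-- the exceptional values are not prime powers -/
theorem not_prime_pow (hp : p.Prime) (hp' : ¬ (3 < p ∧ ∃ k : ℕ, p + 1 = 2 ^ k)) {n : ℕ} (h : Val p n) :
    ¬ ∃ q k : ℕ, q.Prime ∧ n = q ^ k := by
  rintro ⟨q, k, hq, hnk⟩
  have two : 2 ∣ n → n = 2 ^ k := by
    intro h2
    rw [hnk] at h2
    have := (Nat.prime_dvd_prime_iff_eq Nat.prime_two hq).1 (Nat.prime_two.dvd_of_dvd_pow h2)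
    rw [hnk, this]
  rcases h with ⟨h5, h⟩ | ⟨h5, h⟩ | ⟨h5, ⟨j, hj⟩, h⟩ | ⟨h5, hk, h⟩
  · apply hp'
    refine ⟨by omega, k, ?_⟩
    rw [← h]
    apply two
    rw [h]
    obtain ⟨s, hs⟩ := hp.odd_of_ne_two (by omega)
    exact ⟨s + 1, by omega⟩
  · have h2 : n = 2 ^ k := two (by rw [h]; norm_num)
    rw [h] at h2
    have h3 : 3 ∣ 2 ^ k := by rw [← h2]; norm_num
    have := Nat.prime_three.dvd_of_dvd_pow h3
    norm_num at this
  · -- `p = 2 ^ j + 1`
    have hj2 : 2 ≤ j := by
      by_contra hcon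
      have : 2 ^ j ≤ 2 ^ 1 := Nat.pow_le_pow_right (by norm_num) (by omega)
      omega
    obtain ⟨i, rfl⟩ : ∃ i, j = i + 2 := ⟨j - 2, by omega⟩
    have e1 : p - 1 = 2 * (2 * 2 ^ i) := by rw [hj, pow_add]; omega
    have e2 : p - 2 = 2 * (2 * 2 ^ i) - 1 := by omega
    have e3 : n = (2 * 2 ^ i) * (2 * (2 * 2 ^ i) - 1) := by
      apply Nat.eq_of_mul_eq_mul_left (show 0 < 2 by norm_num)
      rw [h, e1, e2]
      ring
    have h2 : n = 2 ^ k := two (by rw [e3]; exact ⟨2 ^ i * (2 * (2 * 2 ^ i) - 1), by ring⟩)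
    have h3 : 2 * (2 * 2 ^ i) - 1 ∣ 2 ^ k := by
      rw [← h2, e3]; exact Dvd.intro_left _ rfl
    obtain ⟨m, -, hm⟩ := (Nat.dvd_prime_pow Nat.prime_two).1 h3
    have hi : 1 ≤ 2 ^ i := Nat.one_le_two_pow
    rcases Nat.eq_zero_or_pos m with h4 | h4
    · rw [h4, pow_zero] at hm
      omega
    · obtain ⟨m', rfl⟩ : ∃ m', m = m' + 1 := ⟨m - 1, by omega⟩
      rw [pow_succ] at hm
      omega
  · exact hp' ⟨by omega, hk⟩

theorem card_sylow_one_of_not {S : Type*} [Group S] [Finite S] [IsSimpleGroup S]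
    (h : IsMulCommutative S ∨ ¬ p ∣ Nat.card S) : Nat.card (Sylow p S) = 1 := by
  obtain ⟨P⟩ : Nonempty (Sylow p S) := inferInstance
  have hN : (P : Subgroup S).Normal := by
    rcases h with h | h
    · refine ⟨fun n hn g => ?_⟩
      rw [h.is_comm.comm g n, mul_inv_cancel_right]
      exact hn
    · have h1 : (P : Subgroup S) = ⊥ := by
        rw [← Subgroup.card_eq_one, P.card_eq_multiplicity, Nat.factorization_eq_zero_of_not_dvd h,
          pow_zero]
      rw [h1]
      infer_instance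
  have : Subsingleton (Sylow p S) := by
    have := Sylow.unique_of_normal P hN
    exact ⟨fun a b => (Subsingleton.elim a b)⟩
  rw [Nat.card_eq_one_iff_unique]
  exact ⟨this, inferInstance⟩

section

variable (T : OrdDiv.OrderTable.{u})
  (hK : ∀ (X : Type u) [Group X] [Finite X] [IsSimpleGroup X], IsKnownSimple' X)

include T hK

theorem s4338 {G : Type u} [Group G] [Finite G] (hn : Nat.card (Sylow p G) < p ^ 2) :
    (∃ q k : ℕ, q.Prime ∧ Nat.card (Sylow p G) = q ^ k) ∨
    (p = 13 ∧ Nat.card (Sylow p G) = 144) ∨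
    (p ≠ 2 ∧ (¬ ∃ k : ℕ, p + 1 = 2 ^ k) ∧ Nat.card (Sylow p G) = 1 + p) ∨
    (3 < p ∧ (∃ k : ℕ, p = 2 ^ k + 1) ∧ 2 * Nat.card (Sylow p G) = 2 + (p - 3) * p) ∨
    (3 < p ∧ (∃ k : ℕ, p + 1 = 2 ^ k) ∧ 2 * Nat.card (Sylow p G) = 2 + (p + 3) * p) := by
  obtain ⟨l, hl, hl2⟩ := S4303.result (G := G) p
  by_cases h1 : ∀ m ∈ l, m = 1
  · left
    refine ⟨2, 0, Nat.prime_two, ?_⟩
    rw [← hl, pow_zero]
    exact List.prod_eq_one h1
  · push Not at h1
    obtain ⟨m, hm, hm1⟩ := h1
    have hmod : m ≡ 1 [MOD p] := by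
      rcases hl2 m hm with ⟨-, h3⟩ | ⟨S, _, _, _, h3⟩
      · have : 1 % p = 1 := Nat.mod_eq_of_lt hp.out.one_lt
        rw [Nat.ModEq, h3, this]
      · rw [h3]; exact card_sylow_modEq_one p S
    obtain ⟨t, ht⟩ : m ∣ Nat.card (Sylow p G) := by
      rw [← hl]; exact List.dvd_prod hm
    have ht1 : t = 1 := one_factor hp.out hmod (by rw [← ht]; exact card_sylow_modEq_one p G) hm1
      (by rw [← ht]; exact hn)
    rw [ht1, mul_one] at ht
    rcases hl2 m hm with ⟨h3, -⟩ | ⟨S, _, _, hS, h3⟩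
    · left
      obtain ⟨q, k, hq, -, hqk⟩ := (isPrimePow_nat_iff m).1 h3
      exact ⟨q, k, hq, by rw [ht, hqk]⟩
    · have hSn : ¬ (IsMulCommutative S ∨ ¬ p ∣ Nat.card S) := by
        intro h4
        exact hm1 (h3.trans (card_sylow_one_of_not h4))
      push Not at hSn
      obtain ⟨hSc, hSd⟩ := hSn
      have hval := (val_of hSc (list_of T hK _ S hSc rfl hSd (by rw [← h3, ← ht]; exact hn))).2
      rw [← h3, ← ht] at hval
      set n := Nat.card (Sylow p G) with hnd
      rcases hval with ⟨h5, h⟩ | ⟨h5, h⟩ | ⟨h5, hk, h⟩ | ⟨h5, hk, h⟩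
      · by_cases hk : ∃ k : ℕ, p + 1 = 2 ^ k
        · left
          obtain ⟨k, hk⟩ := hk
          exact ⟨2, k, Nat.prime_two, by rw [h, hk]⟩
        · exact Or.inr (Or.inr (Or.inl ⟨by omega, hk, by omega⟩))
      · exact Or.inr (Or.inl ⟨h5, h⟩)
      · refine Or.inr (Or.inr (Or.inr (Or.inl ⟨by omega, hk, ?_⟩)))
        rw [h]
        obtain ⟨r, rfl⟩ : ∃ r, p = r + 5 := ⟨p - 5, by omega⟩
        rw [show r + 5 - 1 = r + 4 by omega, show r + 5 - 2 = r + 3 by omega,
          show r + 5 - 3 = r + 2 by omega]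
        ring
      · refine Or.inr (Or.inr (Or.inr (Or.inr ⟨by omega, hk, ?_⟩)))
        rw [h]
        ring

theorem s4339 {G : Type u} [Group G] [Finite G] (hp' : ¬ (3 < p ∧ ∃ k : ℕ, p + 1 = 2 ^ k))
    (hn : Nat.card (Sylow p G) < p ^ 2) :
    Cfsg.IsPSolvable p G ↔ ∃ q k : ℕ, q.Prime ∧ Nat.card (Sylow p G) = q ^ k := by
  constructor
  · intro h
    exact prime_pow_of_good hp.out (good_of_pSolvable p _ G h rfl) (card_sylow_modEq_one p G) hn
  · intro h
    by_contra hG
    obtain ⟨S, _, _, _, hSc, hSd, t, ht⟩ := exists_simple p _ G rfl hG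
    have ht1 : t = 1 := one_factor hp.out (card_sylow_modEq_one p S)
      (by rw [← ht]; exact card_sylow_modEq_one p G) (card_sylow_ne_one hSc hSd)
      (by rw [← ht]; exact hn)
    rw [ht1, mul_one] at ht
    have hval := (val_of hSc (list_of T hK _ S hSc rfl hSd (by rw [← ht]; exact hn))).2
    rw [← ht] at hval
    exact not_prime_pow hp.out hp' hval h

end

end Cfsg.Agent.H570.HallP
end
end
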